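import Cfsg.Agent.Lib.SPG.Col

/-!
# Solvable primitive permutation groups are affine
-/

set_option autoImplicit false

namespace Cfsg.Agent.SPG

open Subgroup Cfsg.Agent.Mod
open scoped IsMulCommutative

universe u

/-- The kernel of an action. -/
def kerA (G V : Type*) [Group G] [MulAction G V] : Subgroup G := (MulAction.toPermHom G V).ker

theorem mem_kerA {G V : Type*} [Group G] [MulAction G V] {g : G} :
    g ∈ kerA G V ↔ ∀ v : V, g • v = v := by
  simp [kerA, MonoidHom.mem_ker, Equiv.ext_iff]

instance normal_kerA {G V : Type*} [Group G] [MulAction G V] : (kerA G V).Normal :=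
  MonoidHom.normal_ker _

section
variable (G : Type*) {V : Type*} [Group G] [AddCommGroup V] [DistribMulAction G V]

/-- Invariant subgroups. -/
def Inv (W : AddSubgroup V) : Prop := ∀ g : G, ∀ w ∈ W, g • w ∈ W

variable (V) in
/-- Irreducible actions. -/
def Irr : Prop := ∀ W : AddSubgroup V, Inv G W → W = ⊥ ∨ W = ⊤

variable (V) in
/-- Completely reducible actions. -/
def CR : Prop := ∀ W : AddSubgroup V, Inv G W → ∃ W', Inv G W' ∧ IsCompl W W'

variable {G}

theorem Irr.cr (h : Irr G V) : CR G V := by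
  intro W hW
  rcases h W hW with rfl | rfl
  · exact ⟨⊤, fun _ _ _ => trivial, isCompl_bot_top⟩
  · exact ⟨⊥, fun g w hw => by simp_all, isCompl_top_bot⟩

/-- `G` acts on `G/L ≃ V` by affine maps, and induces all translations. -/
structure Aff (L : Subgroup G) (τ : G → V) : Prop where
  mul : ∀ x y, τ (x * y) = x • τ y + τ x
  zero : ∀ x, τ x = 0 ↔ x ∈ L
  tr : ∀ v, ∃ n : G, (∀ w : V, n • w = w) ∧ τ n = v

namespace Aff
variable {L : Subgroup G} {τ : G → V} (h : Aff L τ)
include h

theorem one : τ 1 = 0 := (h.zero 1).mpr L.one_mem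

theorem surj : Function.Surjective τ := fun v => (h.tr v).imp fun _ e => e.2

theorem col : Col L τ := fun x l hl => by rw [h.mul, (h.zero l).mpr hl]; simp

theorem eq_iff {x y : G} : τ x = τ y ↔ x⁻¹ * y ∈ L := by
  have e := h.mul x (x⁻¹ * y)
  rw [mul_inv_cancel_left] at e
  rw [← h.zero, e, eq_comm, add_eq_right, smul_eq_zero_iff_eq]

theorem mem_core {g : G} : g ∈ L.normalCore ↔ ∀ v : V, g • v + τ g = v := by
  rw [mem_normalCore]
  constructor
  · intro hg v
    obtain ⟨x, rfl⟩ := h.surj v
    rw [← h.mul, eq_comm, h.eq_iff, ← mul_assoc]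
    exact hg x
  · intro hg x
    rw [mul_assoc, ← h.eq_iff, h.mul, hg]

theorem core_eq : L.normalCore = kerA G V ⊓ L := by
  ext g
  rw [h.mem_core, mem_inf, mem_kerA, ← h.zero]
  constructor
  · intro hg
    have h0 : τ g = 0 := by simpa using hg 0
    exact ⟨fun v => by simpa [h0] using hg v, h0⟩
  · rintro ⟨h1, h2⟩ v
    simp [h1, h2]

theorem index_eq : L.index = Nat.card V := by
  refine Nat.card_congr (Equiv.ofBijective
    (Quotient.lift τ fun a b e => h.eq_iff.mpr (QuotientGroup.leftRel_apply.mp e)) ⟨?_, ?_⟩)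
  · rintro ⟨a⟩ ⟨b⟩ e
    exact QuotientGroup.eq.mpr (h.eq_iff.mp e)
  · intro v
    obtain ⟨x, rfl⟩ := h.surj v
    exact ⟨(x : G ⧸ L), rfl⟩

theorem ker_sup : kerA G V ⊔ L = ⊤ := by
  rw [eq_top_iff]
  intro x _
  obtain ⟨n, h1, h2⟩ := h.tr (τ x)
  have := mul_mem_sup (mem_kerA.mpr h1) (h.eq_iff.mp h2)
  simpa using this

theorem index_core : L.normalCore.index = Nat.card V * (kerA G V).index := by
  rw [h.core_eq, ← relIndex_mul_index (inf_le_right : kerA G V ⊓ L ≤ L), h.index_eq,
    inf_relIndex_right, ← relIndex_sup_left, h.ker_sup, relIndex_top_right, mul_comm]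

theorem commutator_le : ⁅kerA G V, kerA G V⁆ ≤ L.normalCore := by
  rw [Subgroup.commutator_le]
  intro a ha b hb
  have e : τ (b * a) = τ (a * b) := by
    rw [h.mul, h.mul, mem_kerA.mp ha, mem_kerA.mp hb, add_comm]
  have e2 := h.eq_iff.mp e
  have : (b * a)⁻¹ * (a * b) ∈ L.normalCore := by
    rw [h.core_eq]
    exact ⟨(kerA G V).mul_mem ((kerA G V).inv_mem (mul_mem hb ha)) (mul_mem ha hb), e2⟩
  have := (normalCore_normal L).conj_mem _ this (b * a)
  rw [commutatorElement_def]
  simpa [mul_assoc] using this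

theorem dser_le {n : ℕ} (hn : dser ⊤ n ≤ kerA G V) : dser ⊤ (n + 1) ≤ L.normalCore :=
  (commutator_mono hn hn).trans h.commutator_le

/-- A colouring of `V` gives a colouring of `G/L`. -/
theorem col_comp {κ : Type*} (c : V → κ) : Col L (c ∘ τ) := fun x l hl => by
  simp [h.col x l hl]

theorem forall_comp {κ : Type*} {c c' : V → κ} {g : G} :
    (∀ x, (c ∘ τ) (g * x) = (c' ∘ τ) x) ↔ ∀ v, c (g • v + τ g) = c' v := by
  simp only [Function.comp, h.mul]
  exact ⟨fun e v => by obtain ⟨x, rfl⟩ := h.surj v; exact e x, fun e x => e _⟩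

end Aff
end

/-- The action on an abelian group written additively. -/
@[reducible] def addAct {G E : Type*} [Group G] [CommGroup E] (φ : G →* MulAut E) :
    DistribMulAction G (Additive E) where
  smul g v := Additive.ofMul (φ g v.toMul)
  one_smul v := by change Additive.ofMul (φ 1 v.toMul) = v; simp
  mul_smul g h v := by
    change Additive.ofMul (φ (g * h) v.toMul) = Additive.ofMul (φ g (φ h v.toMul)); simp
  smul_zero g := by change Additive.ofMul (φ g 1) = 0; simp
  smul_add g v w := by
    change Additive.ofMul (φ g (v.toMul * w.toMul)) =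
      Additive.ofMul (φ g v.toMul) + Additive.ofMul (φ g w.toMul)
    simp

theorem exists_aff_aux {T : Type u} [Group T] [Finite T] [Group.IsSolvable T] {L : Subgroup T}
    (hL : IsCoatom L) (h0 : L.normalCore = ⊥) :
    ∃ (V : Type u) (_ : AddCommGroup V) (_ : Finite V) (_ : Nontrivial V)
      (_ : DistribMulAction T V) (τ : T → V) (r : ℕ),
      r.Prime ∧ (∀ v : V, r • v = 0) ∧ Aff L τ ∧ Irr T V := by
  haveI : Nontrivial T := by
    by_contra hc
    rw [not_nontrivial_iff_subsingleton] at hc
    exact hL.1 (Subsingleton.elim _ _)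
  obtain ⟨N, hN⟩ := Core.exists_isMinNormal (G := T)
  haveI := hN.1
  obtain ⟨r, hr, hc, he⟩ := Core.IsMinNormal.exists_isElementaryAbelian hN inferInstance
  have hcm := fun {a b} => Core.mul_comm_of_mem_of_isMulCommutative (a := a) (b := b) hc
  have h1 : N ⊔ L = ⊤ := by
    refine hL.2 _ (lt_of_le_of_ne le_sup_right fun e => hN.ne_bot ?_)
    rw [eq_bot_iff, ← h0, normal_le_normalCore, e]
    exact le_sup_left
  have dec : ∀ x : T, ∃ n : N, (n : T)⁻¹ * x ∈ L := by
    intro x
    have : x ∈ ((N ⊔ L : Subgroup T) : Set T) := by rw [h1]; trivial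
    rw [normal_mul] at this
    obtain ⟨n, hn, l, hl, rfl⟩ := this
    exact ⟨⟨n, hn⟩, by simpa using hl⟩
  have h2 : ∀ n ∈ N, n ∈ L → n = 1 := by
    intro n hn hl
    rw [← mem_bot, ← h0, mem_normalCore]
    intro x
    obtain ⟨m, hm⟩ := dec x
    have := L.mul_mem (L.mul_mem (L.inv_mem hm) hl) hm
    have e : (m : T) * (n * ((m : T)⁻¹ * x)) = n * x := by
      rw [← mul_assoc, hcm m.2 hn]; simp
    simpa [mul_assoc, e] using this
  have uq : ∀ (x : T) (n m : N), (n : T)⁻¹ * x ∈ L → (m : T)⁻¹ * x ∈ L → n = m := by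
    intro x n m hn hm
    have := h2 _ (N.mul_mem (N.inv_mem n.2) m.2)
      (by simpa [mul_assoc] using L.mul_mem hn (L.inv_mem hm))
    exact Subtype.ext (inv_mul_eq_one.mp this)
  choose t ht using dec
  letI := addAct (MulAut.conjNormal (H := N))
  have sm : ∀ (g : T) (v : Additive N), (((g • v).toMul : N) : T) = g * v.toMul * g⁻¹ :=
    fun g v => rfl
  haveI : Nontrivial N := (nontrivial_iff_ne_bot N).mpr hN.ne_bot
  refine ⟨Additive N, inferInstance, inferInstance, inferInstance, inferInstance,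
    fun x => Additive.ofMul (t x), r, hr, fun v => ?_, ⟨fun x y => ?_, fun x => ?_, fun v => ?_⟩,
    fun W hW => ?_⟩
  · exact Additive.toMul.injective (Subtype.ext (he _ v.toMul.2))
  · apply Additive.toMul.injective
    refine uq (x * y) _ _ (ht _) ?_
    have := L.mul_mem (ht x) (ht y)
    simpa [sm, mul_assoc] using this
  · constructor
    · intro e
      have : t x = 1 := e
      simpa [this] using ht x
    · intro hx
      exact uq x _ 1 (ht x) (by simpa using hx)
  · refine ⟨v.toMul, fun w => ?_, ?_⟩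
    · apply Additive.toMul.injective
      apply Subtype.ext
      rw [sm, hcm v.toMul.2 w.toMul.2]
      simp
    · exact uq _ _ v.toMul (ht _) (by simp)
  · let K : Subgroup T := (AddSubgroup.toSubgroup' W).map N.subtype
    haveI : K.Normal := ⟨by
      rintro _ ⟨n, hn, rfl⟩ g
      exact ⟨(g • Additive.ofMul n).toMul, hW g _ hn, rfl⟩⟩
    rcases hN.3 K inferInstance (map_subtype_le _) with e | e
    · left
      rw [eq_bot_iff]
      intro w hw
      have : ((w.toMul : N) : T) ∈ K := ⟨w.toMul, hw, rfl⟩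
      rw [e, mem_bot] at this
      exact Additive.toMul.injective (Subtype.ext this)
    · right
      rw [eq_top_iff]
      intro w _
      have : ((w.toMul : N) : T) ∈ K := by rw [e]; exact w.toMul.2
      obtain ⟨n, hn, e'⟩ := this
      rw [← show Additive.ofMul n = w from Additive.toMul.injective (Subtype.ext e')]
      exact hn

/-- A solvable primitive permutation group is affine. -/
theorem exists_aff {T : Type u} [Group T] [Finite T] [Group.IsSolvable T] {L : Subgroup T}
    (hL : IsCoatom L) :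
    ∃ (V : Type u) (_ : AddCommGroup V) (_ : Finite V) (_ : Nontrivial V)
      (_ : DistribMulAction T V) (τ : T → V) (r : ℕ),
      r.Prime ∧ (∀ v : V, r • v = 0) ∧ Aff L τ ∧ Irr T V := by
  let π := QuotientGroup.mk' L.normalCore
  have hs : Function.Surjective π := QuotientGroup.mk'_surjective _
  have hk : π.ker ≤ L := by rw [QuotientGroup.ker_mk']; exact L.normalCore_le
  have e : (L.map π).comap π = L := comap_map_eq_self hk
  have m : ∀ x, π x ∈ L.map π ↔ x ∈ L := fun x => by rw [← mem_comap, e]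
  have h1 : IsCoatom (L.map π) := by
    refine ⟨fun h => hL.1 (e.symm.trans (by rw [h, comap_top])), fun N hN => ?_⟩
    have := hL.2 (N.comap π) (e.symm.trans_lt ((comap_lt_comap_of_surjective hs).mpr hN))
    rw [← map_comap_eq_self_of_surjective hs N, this, map_top_of_surjective _ hs]
  have h2 : (L.map π).normalCore = ⊥ := by
    rw [eq_bot_iff]
    intro y hy
    obtain ⟨y, rfl⟩ := hs y
    rw [mem_bot, ← MonoidHom.mem_ker, QuotientGroup.ker_mk', mem_normalCore]
    intro x
    rw [← m]
    simpa using mem_normalCore.mp hy (π x)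
  obtain ⟨V, _, _, _, _, τ, r, hr, he, ha, hi⟩ := exists_aff_aux h1 h2
  letI := DistribMulAction.compHom V π
  refine ⟨V, inferInstance, inferInstance, inferInstance, inferInstance, τ ∘ π, r, hr, he,
    ⟨fun x y => ?_, fun x => ?_, fun v => ?_⟩, fun W hW => hi W fun g w hw => ?_⟩
  · simp only [Function.comp, map_mul, ha.mul]
    rfl
  · rw [Function.comp, ha.zero, m]
  · obtain ⟨n, h3, h4⟩ := ha.tr v
    obtain ⟨n, rfl⟩ := hs n
    exact ⟨n, h3, h4⟩
  · obtain ⟨g, rfl⟩ := hs g
    exact hW g w hw

end Cfsg.Agent.SPG
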