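import Cfsg.Agent.Lib.Mod.DSer
import Cfsg.Agent.Lib.Core.MinNormal

/-!
# Colourings of coset spaces and the wreath step
-/

set_option autoImplicit false

namespace Cfsg.Agent.SPG

open Subgroup Cfsg.Agent.Mod

variable {G : Type*} [Group G] {κ ι : Type*}

/-- `f` is a colouring of the coset space `G/L`. -/
def Col (L : Subgroup G) (f : G → κ) : Prop := ∀ x : G, ∀ l ∈ L, f (x * l) = f x

/-- The stabilizer of a colouring. -/
def cst (f : G → κ) : Subgroup G where
  carrier := {g | ∀ x, f (g * x) = f x}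
  one_mem' := fun x => by rw [one_mul]
  mul_mem' := fun {a b} ha hb x => by rw [mul_assoc, ha, hb]
  inv_mem' := fun {a} ha x => by rw [← ha, mul_inv_cancel_left]

theorem mem_cst {f : G → κ} {g : G} : g ∈ cst f ↔ ∀ x, f (g * x) = f x := Iff.rfl

/-- There is a colouring whose stabilizer induces a group of derived length `≤ n`. -/
def HasCol (κ : Type*) (n : ℕ) (L : Subgroup G) : Prop :=
  ∃ f : G → κ, Col L f ∧ dser (cst f) n ≤ L.normalCore

/-- A family of pairwise inequivalent such colourings. -/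
def Multi (κ ι : Type*) (n : ℕ) (L : Subgroup G) : Prop :=
  ∃ y : ι → G → κ, (∀ j, Col L (y j)) ∧ (∀ j, dser (cst (y j)) n ≤ L.normalCore) ∧
    ∀ j j' h, (∀ x, y j (h * x) = y j' x) → j = j'

/-- Coset representatives. -/
noncomputable def rep (M : Subgroup G) (x : G) : G := Quotient.out (x : G ⧸ M)

theorem rep_mem (M : Subgroup G) (x : G) : (rep M x)⁻¹ * x ∈ M :=
  QuotientGroup.eq.mp (QuotientGroup.out_eq' (x : G ⧸ M))

theorem rep_eq {M : Subgroup G} {x y : G} (h : x⁻¹ * y ∈ M) : rep M x = rep M y := by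
  unfold rep
  rw [QuotientGroup.eq.mpr h]

theorem rep_mul {M : Subgroup G} (x : G) {m : G} (h : m ∈ M) : rep M (x * m) = rep M x :=
  (rep_eq (by simpa using h)).symm

theorem rep_rep (M : Subgroup G) (x : G) : rep M (rep M x) = rep M x := rep_eq (rep_mem M x)

theorem mem_normalCore {L : Subgroup G} {g : G} : g ∈ L.normalCore ↔ ∀ x, x⁻¹ * g * x ∈ L :=
  ⟨fun h x => by simpa using h x⁻¹, fun h x => by simpa using h x⁻¹⟩

/-- The abstract wreath step. -/
theorem wreath {M K D : Subgroup G} {χ : G → ι} {a b : ℕ} (St : ι → Subgroup G)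
    (ha : dser (cst χ) a ≤ M.normalCore) (hb : ∀ j, dser (St j) b ≤ K) (h1 : D ≤ cst χ)
    (h2 : ∀ g ∈ D, g ∈ M.normalCore → ∀ x, (rep M x)⁻¹ * g * rep M x ∈ St (χ x)) {g : G}
    (hg : g ∈ dser D (a + b)) (x : G) : (rep M x)⁻¹ * g * rep M x ∈ K := by
  rw [dser_add] at hg
  have e : (dser D a).map (MulAut.conj (rep M x)⁻¹).toMonoidHom ≤ St (χ x) := by
    rintro _ ⟨d, hd, rfl⟩
    simpa using h2 d (dser_le D a hd) (ha (dser_mono h1 a hd)) x
  have h3 := mem_map_of_mem (MulAut.conj (rep M x)⁻¹).toMonoidHom hg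
  rw [map_dser] at h3
  simpa using hb _ (dser_mono e b h3)

theorem HasCol.step {L M : Subgroup G} {a b : ℕ} (hLM : L ≤ M)
    (h1 : Multi κ ι b (L.subgroupOf M)) (h2 : HasCol ι a M) : HasCol κ (a + b) L := by
  obtain ⟨y, hy1, hy2, hy3⟩ := h1
  obtain ⟨χ, hχ1, hχ2⟩ := h2
  let f : G → κ := fun x => y (χ x) ⟨(rep M x)⁻¹ * x, rep_mem M x⟩
  have hf : ∀ x (m : M), f (rep M x * m) = y (χ x) m := by
    intro x m
    have e1 : rep M (rep M x * m) = rep M x := by rw [rep_mul _ m.2, rep_rep]
    have e2 : χ (rep M x * m) = χ x := by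
      rw [hχ1 _ _ m.2, ← hχ1 _ _ (rep_mem M x), mul_inv_cancel_left]
    simp only [f, e2]
    congr 1
    apply Subtype.ext
    simp [e1]
  have key : ∀ g ∈ cst f, ∀ x, ∃ h : M, g * rep M x = rep M (g * x) * h ∧
      ∀ m, y (χ (g * x)) (h * m) = y (χ x) m := by
    intro g hg x
    have hm : (rep M (g * x))⁻¹ * (g * rep M x) ∈ M := by
      have := M.mul_mem (rep_mem M (g * x)) (M.inv_mem (rep_mem M x))
      simpa [mul_assoc] using this
    refine ⟨⟨_, hm⟩, by simp, fun m => ?_⟩
    rw [← hf, ← hf, ← hg (rep M x * m)]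
    simp [mul_assoc]
  refine ⟨f, fun x l hl => ?_, fun g hg => ?_⟩
  · have e1 : rep M (x * l) = rep M x := rep_mul _ (hLM hl)
    have := hy1 (χ x) ⟨(rep M x)⁻¹ * x, rep_mem M x⟩ ⟨l, hLM hl⟩ hl
    simp only [f, hχ1 _ _ (hLM hl)]
    rw [← this]
    congr 1
    apply Subtype.ext
    simp [e1, mul_assoc]
  · have w := wreath (M := M) (K := (L.subgroupOf M).normalCore.map M.subtype) (D := cst f)
      (fun j => (cst (y j)).map M.subtype) hχ2
      (fun j => by rw [← map_dser]; exact map_mono (hy2 j))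
      (fun g hg x => by
        obtain ⟨h, -, e⟩ := key g hg x
        exact hy3 _ _ h e)
      (fun g hg hc x => by
        obtain ⟨h, e1, e⟩ := key g hg x
        have e2 : rep M (g * x) = rep M x :=
          rep_eq (by simpa [mul_assoc] using mem_normalCore.mp (M.normalCore.inv_mem hc) x)
        have e3 : χ (g * x) = χ x := hy3 _ _ h e
        rw [e3] at e
        refine ⟨h, e, ?_⟩
        rw [mul_assoc, e1, e2]
        simp) hg
    rw [mem_normalCore]
    intro x
    obtain ⟨k, hk, e⟩ := w x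
    have := mem_normalCore.mp hk ⟨(rep M x)⁻¹ * x, rep_mem M x⟩
    rw [mem_subgroupOf] at this
    simp only [coe_subtype] at e
    simpa [e, mul_assoc] using this

theorem HasCol.mono {L : Subgroup G} {a b : ℕ} (h : HasCol κ a L) (hab : a ≤ b) : HasCol κ b L := by
  obtain ⟨f, h1, h2⟩ := h
  exact ⟨f, h1, (dser_anti _ hab).trans h2⟩

theorem hasCol_top [Nonempty κ] (n : ℕ) : HasCol κ n (⊤ : Subgroup G) :=
  ⟨fun _ => Classical.arbitrary κ, fun _ _ _ => rfl, fun g _ => mem_normalCore.mpr fun _ => trivial⟩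

/-- A proper subgroup is maximal in some overgroup. -/
theorem exists_coatom [Finite G] {L : Subgroup G} (h : L ≠ ⊤) :
    ∃ M, L < M ∧ IsCoatom (L.subgroupOf M) := by
  obtain ⟨M, hM, -⟩ := exists_covBy_le_of_lt (lt_top_iff_ne_top.mpr h)
  refine ⟨M, hM.lt, fun e => hM.lt.not_ge (subgroupOf_eq_top.mp e), fun N hN => ?_⟩
  have h1 : L ≤ N.map M.subtype := by
    intro x hx
    exact ⟨⟨x, hM.le hx⟩, hN.le hx, rfl⟩
  rcases hM.eq_or_eq h1 (map_subtype_le N) with e | e
  · exfalso
    apply hN.not_ge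
    intro x hx
    rw [mem_subgroupOf, ← e]
    exact mem_map_of_mem _ hx
  · rw [eq_top_iff]
    intro x _
    have : (x : G) ∈ N.map M.subtype := by rw [e]; exact x.2
    obtain ⟨y, hy, e'⟩ := this
    rwa [← Subtype.ext e']

theorem index_lt_of_lt [Finite G] {L M : Subgroup G} (h : L < M) : M.index < L.index := by
  have h1 := relIndex_mul_index h.le
  have h2 : L.relIndex M ≠ 1 := fun e => h.not_ge (relIndex_eq_one.mp e)
  have h3 : L.relIndex M ≠ 0 := index_ne_zero_of_finite
  have h4 : 0 < M.index := Nat.pos_of_ne_zero index_ne_zero_of_finite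
  have : 2 ≤ L.relIndex M := by omega
  nlinarith

/-- The index of an intersection of conjugates. -/
theorem index_le_pow [Finite G] {M K D : Subgroup G}
    (h : ∀ g ∈ M.normalCore, (∀ x, (rep M x)⁻¹ * g * rep M x ∈ K) → g ∈ D) :
    D.index ≤ M.normalCore.index * K.relIndex M ^ M.index := by
  classical
  haveI := Fintype.ofFinite (G ⧸ M)
  let F : G ⧸ M → Subgroup G := fun i => K.comap (MulAut.conj (Quotient.out i)⁻¹).toMonoidHom
  have h1 : (⨅ i, F i) ⊓ M.normalCore ≤ D := by
    intro g hg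
    refine h g hg.2 fun x => ?_
    simpa [F, rep] using mem_iInf.mp hg.1 (x : G ⧸ M)
  have h2 : ∀ i, (F i).relIndex M.normalCore ≤ K.relIndex M := by
    intro i
    rw [relIndex_comap]
    refine relIndex_le_of_le_right ?_ index_ne_zero_of_finite
    rintro _ ⟨g, hg, rfl⟩
    simpa using mem_normalCore.mp hg (Quotient.out i)
  calc D.index ≤ ((⨅ i, F i) ⊓ M.normalCore).index :=
        Nat.le_of_dvd (Nat.pos_of_ne_zero index_ne_zero_of_finite) (index_dvd_of_le h1)
    _ = (⨅ i, F i).relIndex M.normalCore * M.normalCore.index := by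
        rw [← inf_relIndex_right, relIndex_mul_index inf_le_right]
    _ ≤ K.relIndex M ^ M.index * M.normalCore.index := by
        gcongr
        refine (relIndex_iInf_le F).trans ?_
        refine (Finset.prod_le_pow_card _ _ _ fun i _ => h2 i).trans ?_
        rw [Finset.card_univ, ← Nat.card_eq_fintype_card, index]
    _ = _ := mul_comm _ _

theorem mem_core_of_rep {L M : Subgroup G} {g : G}
    (h : ∀ x, (rep M x)⁻¹ * g * rep M x ∈ (L.subgroupOf M).normalCore.map M.subtype) :
    g ∈ L.normalCore := by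
  rw [mem_normalCore]
  intro x
  obtain ⟨k, hk, e⟩ := h x
  have := mem_normalCore.mp hk ⟨(rep M x)⁻¹ * x, rep_mem M x⟩
  rw [mem_subgroupOf] at this
  simp only [coe_subtype] at e
  simpa [e, mul_assoc] using this

theorem relIndex_map_subtype {M : Subgroup G} (K : Subgroup M) :
    (K.map M.subtype).relIndex M = K.index := by
  rw [relIndex, subgroupOf, comap_map_eq_self_of_injective M.subtype_injective]

/-- The order of an imprimitive group. -/
theorem index_core_le [Finite G] (L M : Subgroup G) :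
    L.normalCore.index ≤ M.normalCore.index * (L.subgroupOf M).normalCore.index ^ M.index := by
  rw [← relIndex_map_subtype]
  exact index_le_pow fun g _ h => mem_core_of_rep h

/-- The derived length of an imprimitive group. -/
theorem dser_core_le {L M : Subgroup G} {a b : ℕ} (ha : dser ⊤ a ≤ M.normalCore)
    (hb : dser ⊤ b ≤ (L.subgroupOf M).normalCore) : dser ⊤ (a + b) ≤ L.normalCore := by
  intro g hg
  refine mem_core_of_rep (wreath (M := M) (χ := fun _ => ()) (D := ⊤) (fun _ => M)
    ((dser_mono le_top a).trans ha) (fun _ => ?_) (fun _ _ _ => rfl)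
    (fun g _ hc x => mem_normalCore.mp hc _) hg)
  have := map_mono (f := M.subtype) hb
  rwa [map_dser, ← MonoidHom.range_eq_map, range_subtype] at this

end Cfsg.Agent.SPG
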