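import Cfsg.Agent.Lib.SPG.Aff

/-!
# Colourings of permutation domains; affine groups in coordinates
-/

set_option autoImplicit false

namespace Cfsg.Agent.SPG

open Subgroup Cfsg.Agent.Mod

universe u

section PM
variable {T : Type*} [Group T] {Ω Ω' κ ι : Type*}

/-- The stabilizer of a colouring of the domain. -/
def St (φ : T →* Equiv.Perm Ω) (c : Ω → κ) : Subgroup T where
  carrier := {g | ∀ v, c (φ g v) = c v}
  one_mem' := fun v => by simp
  mul_mem' := fun {a b} ha hb v => by rw [map_mul, Equiv.Perm.mul_apply, ha, hb]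
  inv_mem' := fun {a} ha v => by rw [← ha]; simp

theorem mem_St {φ : T →* Equiv.Perm Ω} {c : Ω → κ} {g : T} :
    g ∈ St φ c ↔ ∀ v, c (φ g v) = c v := Iff.rfl

theorem mem_kerP {φ : T →* Equiv.Perm Ω} {g : T} : g ∈ φ.ker ↔ ∀ v, φ g v = v := by
  simp [MonoidHom.mem_ker, Equiv.ext_iff]

/-- A family of inequivalent colourings with small stabilizers. -/
def PM (φ : T →* Equiv.Perm Ω) (κ ι : Type*) (n : ℕ) : Prop :=
  ∃ y : ι → Ω → κ, (∀ j, dser (St φ (y j)) n ≤ φ.ker) ∧
    ∀ j j' h, (∀ v, y j (φ h v) = y j' v) → j = j'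

theorem PM.multi {L : Subgroup T} {φ : T →* Equiv.Perm Ω} {τ : T → Ω} {n : ℕ}
    (hs : Function.Surjective τ) (hm : ∀ x y, τ (x * y) = φ x (τ y))
    (h0 : ∀ x, τ x = τ 1 ↔ x ∈ L) (h : PM φ κ ι n) : Multi κ ι n L := by
  obtain ⟨y, h1, h2⟩ := h
  refine ⟨fun j => y j ∘ τ, fun j x l hl => ?_, fun j g hg => ?_, fun j j' h e => ?_⟩
  · simp only [Function.comp, hm x l, (h0 l).mpr hl]
    rw [← hm, mul_one]
  · have e : cst (y j ∘ τ) ≤ St φ (y j) := by
      intro a ha v
      obtain ⟨x, rfl⟩ := hs v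
      rw [← hm]
      exact ha x
    have := mem_kerP.mp (h1 j (dser_mono e n hg))
    rw [mem_normalCore]
    intro x
    rw [← h0, mul_assoc, hm, hm, this, ← hm, inv_mul_cancel]
  · refine h2 j j' h fun v => ?_
    obtain ⟨x, rfl⟩ := hs v
    rw [← hm]
    exact e x

theorem PM.mono {φ : T →* Equiv.Perm Ω} {a b : ℕ} (h : PM φ κ ι a) (hab : a ≤ b) :
    PM φ κ ι b := by
  obtain ⟨y, h1, h2⟩ := h
  exact ⟨y, fun j => (dser_anti _ hab).trans (h1 j), h2⟩

/-- More colours. -/
theorem PM.emb {κ' : Type*} {φ : T →* Equiv.Perm Ω} {a : ℕ} (h : PM φ κ ι a) (f : κ → κ')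
    (hf : Function.Injective f) : PM φ κ' ι a := by
  obtain ⟨y, h1, h2⟩ := h
  refine ⟨fun j => f ∘ y j, fun j => (dser_mono ?_ a).trans (h1 j),
    fun j j' h e => h2 j j' h fun v => hf (e v)⟩
  exact fun g hg v => hf (hg v)

/-- Transport along a bijection of domains. -/
theorem PM.congr {φ : T →* Equiv.Perm Ω} (e : Ω ≃ Ω') {a : ℕ}
    (h : PM (e.permCongrHom.toMonoidHom.comp φ) κ ι a) : PM φ κ ι a := by
  obtain ⟨y, h1, h2⟩ := h
  refine ⟨fun j => y j ∘ e, fun j g hg => ?_, fun j j' h ee => h2 j j' h fun v => ?_⟩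
  · have : St φ (y j ∘ e) ≤ St (e.permCongrHom.toMonoidHom.comp φ) (y j) := by
      intro g hg v
      simpa using hg (e.symm v)
    have := mem_kerP.mp (h1 j (dser_mono this a hg))
    rw [mem_kerP]
    intro v
    simpa using this (e v)
  · simpa using ee (e.symm v)

/-- The weight of a colour. -/
noncomputable def wt (c : Ω → κ) (k : κ) : ℕ := Nat.card {v // c v = k}

theorem wt_eq {c c' : Ω → κ} (σ : Equiv.Perm Ω) (h : ∀ v, c (σ v) = c' v) (k : κ) :
    wt c k = wt c' k :=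
  (Nat.card_congr (σ.subtypeEquiv fun v => by rw [h])).symm

theorem sum_wt [Finite Ω] [Fintype κ] (c : Ω → κ) : ∑ k, wt c k = Nat.card Ω := by
  rw [← Nat.card_congr (Equiv.sigmaFiberEquiv c), Nat.card_sigma]
  rfl

theorem pm_of_wt {φ : T →* Equiv.Perm Ω} {n : ℕ} (y : ι → Ω → κ)
    (h1 : ∀ j, dser (St φ (y j)) n ≤ φ.ker) (h2 : ∀ j j', wt (y j) = wt (y j') → j = j') :
    PM φ κ ι n :=
  ⟨y, h1, fun j j' h e => h2 j j' (funext (wt_eq (φ h) e))⟩

theorem pm_of_perm {φ : T →* Equiv.Perm Ω} {n : ℕ} (c : Ω → κ) (hc : dser (St φ c) n ≤ φ.ker)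
    (σ : ι → Equiv.Perm κ)
    (h2 : ∀ j j', (∀ k, wt c ((σ j).symm k) = wt c ((σ j').symm k)) → j = j') : PM φ κ ι n := by
  refine pm_of_wt (fun j => σ j ∘ c) (fun j => (dser_mono ?_ n).trans hc) fun j j' e => ?_
  · exact fun g hg v => (σ j).injective (hg v)
  refine h2 j j' fun k => ?_
  have := congrFun e k
  simpa only [wt, Function.comp, ← Equiv.eq_symm_apply] using this

theorem pm_three {φ : T →* Equiv.Perm Ω} {n : ℕ} (c : Ω → Fin 3) (hc : dser (St φ c) n ≤ φ.ker)
    (hw : Function.Injective (wt c)) : PM φ (Fin 3) (Fin 5) n := by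
  obtain ⟨σ⟩ : Nonempty (Fin 5 ↪ Equiv.Perm (Fin 3)) :=
    Function.Embedding.nonempty_of_card_le (by simp [Fintype.card_perm, Nat.factorial])
  refine pm_of_perm c hc σ fun j j' e => σ.injective ?_
  apply Equiv.symm_bijective.injective
  exact Equiv.ext fun k => hw (e k)

theorem dser_one_of_sq {φ : T →* Equiv.Perm Ω} {S : Subgroup T}
    (h : ∀ g ∈ S, g * g ∈ φ.ker) : dser S 1 ≤ φ.ker := by
  refine Subgroup.commutator_le.mpr fun a ha b hb => ?_
  have h1 := h a ha
  have h2 := h b hb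
  have h3 := h (a * b) (S.mul_mem ha hb)
  rw [MonoidHom.mem_ker] at *
  simp only [map_mul] at h1 h2 h3
  rw [map_commutatorElement, commutatorElement_def, inv_eq_of_mul_eq_one_right h1,
    inv_eq_of_mul_eq_one_right h2, ← h3]
  simp [mul_assoc]

end PM

/-! ### Coordinates -/

section AF
variable {T : Type*} [Group T] {n r : ℕ}

/-- Basis vectors. -/
def ev (n r : ℕ) (i : ℕ) : Fin n → ZMod r := fun j => if (j : ℕ) = i then 1 else 0

/-- Affine actions. -/
def AF (φ : T →* Equiv.Perm (Fin n → ZMod r)) : Prop :=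
  ∀ g a b, φ g (a + b) = φ g a + φ g b - φ g 0

/-- The point stabilizer is irreducible. -/
def IrrA (φ : T →* Equiv.Perm (Fin n → ZMod r)) : Prop :=
  ∀ U : AddSubgroup (Fin n → ZMod r), (∀ g, φ g 0 = 0 → ∀ w ∈ U, φ g w ∈ U) → U = ⊥ ∨ U = ⊤

variable {φ : T →* Equiv.Perm (Fin n → ZMod r)}

/-- The linear part. -/
def AF.lin (h : AF φ) (g : T) : (Fin n → ZMod r) →+ (Fin n → ZMod r) :=
  AddMonoidHom.mk' (fun v => φ g v - φ g 0) fun a b => by rw [h]; abel

theorem AF.lin_apply (h : AF φ) (g : T) (v : Fin n → ZMod r) : h.lin g v = φ g v - φ g 0 := rfl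

theorem AF.sub (h : AF φ) (g : T) (a b c : Fin n → ZMod r) :
    φ g (a + b - c) = φ g a + φ g b - φ g c := by
  have := (h.lin g).map_sub (a + b) c
  rw [map_add] at this
  simp only [h.lin_apply] at this
  linear_combination this

theorem AF.neg (h : AF φ) {g : T} (h0 : φ g 0 = 0) (a : Fin n → ZMod r) : φ g (-a) = -φ g a := by
  simpa [h0] using h.sub g 0 0 a

theorem AF.add (h : AF φ) {g : T} (h0 : φ g 0 = 0) (a b : Fin n → ZMod r) :
    φ g (a + b) = φ g a + φ g b := by
  simpa [h0] using h g a b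

theorem lin_ext [NeZero r] {A : Type*} [AddCommGroup A] {f f' : (Fin n → ZMod r) →+ A}
    (h : ∀ i < n, f (ev n r i) = f' (ev n r i)) : f = f' := by
  refine AddMonoidHom.functions_ext _ _ _ fun i x => ?_
  have : (Pi.single i x : Fin n → ZMod r) = x.val • ev n r i := by
    ext j
    by_cases e : j = i
    · simp [ev, e]
    · simp [ev, e, Fin.val_inj]
  rw [this, map_nsmul, map_nsmul, h i i.2]

theorem AF.ext [NeZero r] (h : AF φ) {g g' : T} (h0 : φ g 0 = φ g' 0)
    (h1 : ∀ i < n, φ g (ev n r i) = φ g' (ev n r i)) : φ g = φ g' := by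
  have := lin_ext (f := h.lin g) (f' := h.lin g') fun i hi => by
    simp [h.lin_apply, h0, h1 i hi]
  refine Equiv.ext fun v => ?_
  simpa [h.lin_apply, h0] using DFunLike.congr_fun this v

theorem AF.mem_ker [NeZero r] (h : AF φ) {g : T} (h0 : φ g 0 = 0)
    (h1 : ∀ i < n, φ g (ev n r i) = ev n r i) : g ∈ φ.ker := by
  rw [MonoidHom.mem_ker, ← φ.map_one]
  exact h.ext (by simpa using h0) (by simpa using h1)

variable [Fact r.Prime]

theorem ev_ne_zero {i : ℕ} (hi : i < n) : ev n r i ≠ 0 := fun e => by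
  simpa [ev] using congrFun e ⟨i, hi⟩

theorem ev_inj {i j : ℕ} (hi : i < n) (e : ev n r i = ev n r j) : i = j := by
  simpa [ev] using congrFun e ⟨i, hi⟩

theorem ev_add {a b c d : ℕ} (hc : c < n) (hcd : c ≠ d)
    (e : ev n r a + ev n r b = ev n r c + ev n r d) : a = c ∨ b = c := by
  by_contra hh
  push Not at hh
  simpa [ev, hcd, hh.1.symm, hh.2.symm] using congrFun e ⟨c, hc⟩

theorem ev_ne_add {a c d : ℕ} (hc : c < n) (hd : d < n) (hcd : c ≠ d) :
    ev n r a ≠ ev n r c + ev n r d := fun e => by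
  have h1 : c = a := by simpa [ev, hcd] using congrFun e ⟨c, hc⟩
  have h2 : d = a := by simpa [ev, hcd.symm] using congrFun e ⟨d, hd⟩
  exact hcd (h1.trans h2.symm)

theorem add_ne_zero_ev {c d : ℕ} (hc : c < n) (hcd : c ≠ d) : ev n r c + ev n r d ≠ 0 :=
  fun e => by simpa [ev, hcd] using congrFun e ⟨c, hc⟩

/-- A group of linear maps permuting the basis and the edges of a path. -/
structure Path (φ : T →* Equiv.Perm (Fin n → ZMod r)) (S : Subgroup T) (p : ℕ) : Prop where
  af : AF φ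
  le : p ≤ n
  zero : ∀ g ∈ S, φ g 0 = 0
  bas : ∀ g ∈ S, ∀ i < n, ∃ k < n, φ g (ev n r i) = ev n r k
  edge : ∀ g ∈ S, ∀ i, i + 1 < p →
    ∃ m, m + 1 < p ∧ φ g (ev n r i + ev n r (i + 1)) = ev n r m + ev n r (m + 1)

namespace Path
variable {S : Subgroup T} {p : ℕ} (h : Path φ S p)
include h

theorem adj {g : T} (hg : g ∈ S) {i a b : ℕ} (hi : i + 1 < p) (ha : φ g (ev n r i) = ev n r a)
    (hb : φ g (ev n r (i + 1)) = ev n r b) : (b = a + 1 ∨ a = b + 1) ∧ a < p ∧ b < p := by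
  obtain ⟨m, hm, e⟩ := h.edge g hg i hi
  rw [h.af.add (h.zero g hg), ha, hb] at e
  have := h.le
  have h1 := ev_add (by omega) (by omega) e
  have h2 := ev_add (by omega) (by omega) (e.trans (add_comm _ _))
  omega

theorem fix {g : T} (hg : g ∈ S) (h0 : φ g (ev n r 0) = ev n r 0) :
    ∀ i < p, φ g (ev n r i) = ev n r i := by
  have := h.le
  intro i
  induction i using Nat.strong_induction_on with
  | _ i ih =>
    intro hi
    rcases i with _ | i
    · exact h0
    obtain ⟨k, hk, e⟩ := h.bas g hg (i + 1) (by omega)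
    rcases (h.adj hg hi (ih i (by omega) (by omega)) e).1 with rfl | e1
    · exact e
    · have := ev_inj (by omega) ((φ g).injective (e.trans (ih k (by omega) (by omega)).symm))
      omega

theorem ends {g : T} (hg : g ∈ S) (hp : 2 ≤ p) {a : ℕ} (ha : a = 0 ∨ a = p - 1) :
    φ g (ev n r a) = ev n r 0 ∨ φ g (ev n r a) = ev n r (p - 1) := by
  have := h.le
  obtain ⟨k, hk, e⟩ := h.bas g hg a (by omega)
  have hkp : k < p := by
    rcases ha with rfl | rfl
    · obtain ⟨b, -, e'⟩ := h.bas g hg 1 (by omega)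
      exact (h.adj hg (by omega) e e').2.1
    · obtain ⟨b, -, e'⟩ := h.bas g hg (p - 2) (by omega)
      exact (h.adj hg (i := p - 2) (by omega) e' (by rwa [show p - 2 + 1 = p - 1 by omega])).2.2
  by_contra hh
  have k0 : k ≠ 0 := fun e0 => hh (Or.inl (e0 ▸ e))
  have k1 : k ≠ p - 1 := fun e0 => hh (Or.inr (e0 ▸ e))
  obtain ⟨k, rfl⟩ : ∃ j, k = j + 1 := ⟨k - 1, by omega⟩
  have hg' := S.inv_mem hg
  have e0 : φ g⁻¹ (ev n r (k + 1)) = ev n r a := by rw [← e]; simp
  obtain ⟨u, hu, e1⟩ := h.bas _ hg' k (by omega)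
  obtain ⟨w, hw, e2⟩ := h.bas _ hg' (k + 1 + 1) (by omega)
  have h1 := h.adj hg' (by omega) e1 e0
  have h2 := h.adj hg' (by omega) e0 e2
  have : u = w := by omega
  have := ev_inj (by omega) ((φ g⁻¹).injective (e1.trans (this ▸ e2.symm)))
  omega

theorem sq {g : T} (hg : g ∈ S) (hp : 2 ≤ p) : ∀ i < p, φ (g * g) (ev n r i) = ev n r i := by
  have := h.le
  refine h.fix (S.mul_mem hg hg) ?_
  rw [map_mul, Equiv.Perm.mul_apply]
  rcases h.ends hg hp (Or.inl rfl) with e | e
  · rw [e, e]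
  · rcases h.ends hg hp (Or.inr rfl) with e' | e'
    · rw [e, e']
    · have := ev_inj (by omega) ((φ g).injective (e.trans e'.symm))
      omega

end Path
end AF

theorem exists_coord_aux {V : Type*} [AddCommGroup V] [Finite V] {r : ℕ} [Fact r.Prime]
    [Module (ZMod r) V] : ∃ n, Nonempty (V ≃+ (Fin n → ZMod r)) :=
  ⟨_, ⟨(Module.finBasis (ZMod r) V).equivFun.toAddEquiv⟩⟩

theorem exists_coord {V : Type*} [AddCommGroup V] [Finite V] {r : ℕ} (hr : r.Prime)
    (he : ∀ v : V, r • v = 0) : ∃ n, Nonempty (V ≃+ (Fin n → ZMod r)) := by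
  haveI := Fact.mk hr
  haveI : NeZero r := ⟨hr.ne_zero⟩
  exact @exists_coord_aux V _ _ r _ (AddCommGroup.zmodModule he)

/-- Solvable primitive groups in coordinates. -/
theorem exists_af {T : Type u} [Group T] [Finite T] [Group.IsSolvable T] {L : Subgroup T}
    (hL : IsCoatom L) : ∃ (n r : ℕ) (φ : T →* Equiv.Perm (Fin n → ZMod r)), r.Prime ∧ 0 < n ∧
      AF φ ∧ IrrA φ ∧ L.index = r ^ n ∧
      ∀ (κ ι : Type) (m : ℕ), PM φ κ ι m → Multi κ ι m L := by
  obtain ⟨V, _, _, _, _, τ, r, hr, he, ha, hi⟩ := exists_aff hL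
  obtain ⟨n, ⟨e⟩⟩ := exists_coord hr he
  haveI : NeZero r := ⟨hr.ne_zero⟩
  obtain ⟨φ, ap⟩ : ∃ φ : T →* Equiv.Perm (Fin n → ZMod r),
      ∀ g w, φ g w = e (g • e.symm w + τ g) := by
    letI act : MulAction T (Fin n → ZMod r) :=
      { smul := fun g w => e (g • e.symm w + τ g)
        one_smul := fun w => by
          change e ((1 : T) • e.symm w + τ 1) = w
          simp [ha.one]
        mul_smul := fun a b w => by
          change e ((a * b) • e.symm w + τ (a * b)) = e (a • e.symm (e (b • e.symm w + τ b)) + τ a)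
          simp [ha.mul, mul_smul, add_assoc] }
    exact ⟨MulAction.toPermHom T _, fun _ _ => rfl⟩
  refine ⟨n, r, φ, hr, ?_, fun g a b => ?_, fun U hU => ?_, ?_,
    fun κ ι m h => h.multi (τ := e ∘ τ) (e.surjective.comp ha.surj) (fun x y => ?_) fun x => ?_⟩
  · rcases n with _ | n
    · exact absurd e.injective.subsingleton (not_subsingleton V)
    · omega
  · simp only [ap, map_add, smul_add, map_zero, smul_zero]
    abel
  · rcases hi (U.comap e.toAddMonoidHom) (fun g w hw => by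
      obtain ⟨t, h1, h2⟩ := ha.tr (-τ g)
      have h3 : τ (t * g) = 0 := by rw [ha.mul, h1, h2]; simp
      have := hU (t * g) (by rw [ap, h3]; simp) (e w) hw
      rw [ap, h3] at this
      simpa [mul_smul, h1] using this) with e1 | e1
    · left
      rw [eq_bot_iff]
      intro w hw
      have : e.symm w ∈ U.comap e.toAddMonoidHom := by simpa using hw
      rw [e1] at this
      simpa using this
    · right
      rw [eq_top_iff]
      intro w _
      have : e.symm w ∈ U.comap e.toAddMonoidHom := by rw [e1]; trivial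
      simpa using this
  · rw [ha.index_eq, Nat.card_congr e.toEquiv]
    simp
  · simp [ap, ha.mul]
  · simp [ha.one, ha.zero]

end Cfsg.Agent.SPG
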