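import Cfsg.Agent.Lib.SPG.Col3

/-!
# Two colours leave a stabilizer of derived length at most four
-/

set_option autoImplicit false

namespace Cfsg.Agent.SPG

open Subgroup Cfsg.Agent.Mod

universe u

section
variable {T : Type u} [Group T] {Ω ι : Type*} {φ : T →* Equiv.Perm Ω}

theorem pm_sets {m : ℕ} (X : ι → Finset Ω) (h1 : ∀ j, dser (St φ (· ∈ X j)) m ≤ φ.ker)
    (h2 : ∀ j j', (X j).card = (X j').card → j = j') : PM φ (Fin 2) ι m := by
  classical
  refine PM.emb (pm_of_wt (fun j v => v ∈ X j) h1 fun j j' e => h2 j j' ?_)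
    (fun p => if p then 1 else 0) fun p q e => ?_
  · simpa [wt] using congrFun e True
  · by_cases a : p <;> by_cases b : q <;> simp [a, b] at e ⊢

theorem mem_St_set {X : Finset Ω} {g : T} : g ∈ St φ (· ∈ X) ↔ ∀ v, φ g v ∈ X ↔ v ∈ X := by
  simp [mem_St]

theorem St_compl [Fintype Ω] [DecidableEq Ω] (X : Finset Ω) : St φ (· ∈ Xᶜ) = St φ (· ∈ X) := by
  ext g
  rw [mem_St_set, mem_St_set]
  simp only [Finset.mem_compl, not_iff_not]

theorem pm2_small [Finite T] [Group.IsSolvable T] [Finite Ω] {k m : ℕ} (h1 : k ≤ Nat.card Ω + 1)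
    (h2 : Nat.card Ω ≤ m) (h3 : m ≤ 8) : PM φ (Fin 2) (Fin k) (sg m) := by
  haveI := Fintype.ofFinite Ω
  rw [Nat.card_eq_fintype_card] at h1 h2
  have : ∀ j : Fin k, ∃ X : Finset Ω, X.card = j := fun j =>
    (Finset.exists_subset_card_eq (s := Finset.univ) (n := j) (by
      have := j.2
      rw [Finset.card_univ]
      omega)).imp fun _ h => h.2
  choose X hX using this
  refine pm_sets X (fun j g hg => mem_kerP.mpr fun v => fix_of_small (P := Finset.univ)
    (by simp) h2 h3 (by simp) hg) fun j j' e => Fin.ext (by rwa [hX, hX] at e)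

/-- Colourings fixed by a permutation. -/
theorem card_fixed_le [Finite Ω] (σ : Equiv.Perm Ω) {q : ℕ}
    (h : Nat.card Ω + Nat.card {v // σ v = v} ≤ 2 * q + 1) :
    Nat.card {c : Ω → Fin 2 // ∀ v, c (σ v) = c v} ≤ 2 ^ q := by
  classical
  let Q := Quotient (MulAction.orbitRel (zpowers σ) Ω)
  have h1 : Nat.card {c : Ω → Fin 2 // ∀ v, c (σ v) = c v} ≤ Nat.card (Q → Fin 2) := by
    refine Nat.card_le_card_of_injective (fun c x => c.1 x.out) fun c c' e => Subtype.ext ?_
    have key : ∀ (c : {c : Ω → Fin 2 // ∀ v, c (σ v) = c v}) v,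
        c.1 (Quotient.mk (MulAction.orbitRel (zpowers σ) Ω) v).out = c.1 v := by
      intro c v
      obtain ⟨s, hs⟩ : (Quotient.mk (MulAction.orbitRel (zpowers σ) Ω) v).out ∈
        MulAction.orbit (zpowers σ) v :=
          Quotient.exact (Quotient.out_eq (Quotient.mk (MulAction.orbitRel (zpowers σ) Ω) v))
      rw [← hs]
      exact (zpowers_le (H := St (MonoidHom.id _) c.1)).mpr c.2 s.2 v
    funext v
    rw [← key c, ← key c']
    exact congrFun e _
  have h2 : Nat.card (Q × Bool) ≤ Nat.card (Ω ⊕ {v // σ v = v}) := by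
    have hσ : ∀ x : Q, Quotient.mk _ (σ x.out) = x := fun x =>
      (Quotient.sound (s := MulAction.orbitRel (zpowers σ) Ω) ⟨⟨σ, mem_zpowers σ⟩, rfl⟩).trans
        (Quotient.out_eq x)
    refine Nat.card_le_card_of_injective (fun x => if x.2 then
      (if e : σ x.1.out = x.1.out then Sum.inr ⟨_, e⟩ else Sum.inl (σ x.1.out))
      else Sum.inl x.1.out) ?_
    have key : ∀ x y : Q, σ x.out = y.out → σ x.out = x.out := fun x y e => by
      have := hσ x
      rw [e, Quotient.out_eq] at this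
      rw [e, this]
    rintro ⟨x, _ | _⟩ ⟨y, _ | _⟩ e
    · simpa using e
    · by_cases a : σ y.out = y.out
      · simp [a] at e
      · exact absurd (key y x (by simpa [a] using e.symm)) a
    · by_cases a : σ x.out = x.out
      · simp [a] at e
      · exact absurd (key x y (by simpa [a] using e)) a
    · by_cases a : σ x.out = x.out <;> by_cases b : σ y.out = y.out <;> simp [a, b] at e ⊢ <;>
        exact e
  simp only [Nat.card_prod, Nat.card_sum, Nat.card_eq_fintype_card (α := Bool),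
    Fintype.card_bool] at h2
  refine h1.trans ?_
  rw [Nat.card_fun, Nat.card_eq_fintype_card (α := Fin 2), Fintype.card_fin]
  exact Nat.pow_le_pow_right (by norm_num) (by omega)

/-- Counting regular orbits on the power set. -/
theorem pm_count [Finite Ω] {q k : ℕ}
    (h1 : ∀ g, φ g ≠ 1 → Nat.card Ω + Nat.card {v // φ g v = v} ≤ 2 * q + 1)
    (h2 : Nat.card φ.range * (2 ^ q + k) ≤ 2 ^ Nat.card Ω) : PM φ (Fin 2) (Fin k) 0 := by
  classical
  haveI := Fintype.ofFinite Ω
  haveI := Fintype.ofFinite φ.range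
  let Γ : Finset φ.range := Finset.univ
  let B : Finset (Ω → Fin 2) := (Γ.filter (· ≠ 1)).biUnion fun σ =>
    Finset.univ.filter fun c => ∀ v, c (σ.1 v) = c v
  have hB : B.card ≤ Nat.card φ.range * 2 ^ q := by
    refine (Finset.card_biUnion_le_card_mul _ _ (2 ^ q) ?_).trans (Nat.mul_le_mul_right _ ?_)
    · rintro ⟨_, g, rfl⟩ hg
      have := card_fixed_le (φ g) (h1 g fun e => (Finset.mem_filter.mp hg).2 (Subtype.ext e))
      rwa [Nat.card_eq_fintype_card, Fintype.card_subtype] at this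
    · rw [Nat.card_eq_fintype_card]
      exact Finset.card_filter_le _ _
  let s : Setoid (Ω → Fin 2) :=
    { r := fun c c' => ∃ h, ∀ v, c (φ h v) = c' v
      iseqv := ⟨fun c => ⟨1, by simp⟩, fun ⟨h, e⟩ => ⟨h⁻¹, fun v => by rw [← e]; simp⟩,
        fun ⟨h, e⟩ ⟨h', e'⟩ => ⟨h * h', fun v => by rw [← e', ← e]; simp⟩⟩ }
  have hG := Finset.card_le_mul_card_image (f := Quotient.mk s) Bᶜ (Nat.card φ.range) fun x _ => by
    rw [Nat.card_eq_fintype_card]
    refine le_trans (Finset.card_le_card fun c hc => ?_)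
      (Finset.card_image_le (s := Γ) (f := fun σ v => x.out (σ.1 v)))
    obtain ⟨h, e⟩ : s x.out c :=
      Quotient.exact ((Quotient.out_eq x).trans (Finset.mem_filter.mp hc).2.symm)
    exact Finset.mem_image.mpr ⟨⟨_, h, rfl⟩, Finset.mem_univ _, funext e⟩
  rw [Finset.card_compl, Fintype.card_fun, Fintype.card_fin, ← Nat.card_eq_fintype_card] at hG
  have hk : k ≤ (Bᶜ.image (Quotient.mk s)).card := by
    refine Nat.le_of_mul_le_mul_left ?_ (Nat.card_pos (α := φ.range))
    rw [mul_add] at h2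
    omega
  obtain ⟨f⟩ : Nonempty (Fin k ↪ Bᶜ.image (Quotient.mk s)) :=
    Function.Embedding.nonempty_of_card_le (by rwa [Fintype.card_fin, Fintype.card_coe])
  have : ∀ j, ∃ c ∈ Bᶜ, Quotient.mk s c = f j := fun j => Finset.mem_image.mp (f j).2
  choose y hy1 hy2 using this
  refine ⟨y, fun j g hg => ?_, fun j j' h e => f.injective (Subtype.ext ?_)⟩
  · by_contra hh
    refine Finset.mem_compl.mp (hy1 j) (Finset.mem_biUnion.mpr ⟨⟨_, g, rfl⟩, ?_, ?_⟩)
    · exact Finset.mem_filter.mpr ⟨Finset.mem_univ _, fun e => hh (congrArg Subtype.val e)⟩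
    · exact Finset.mem_filter.mpr ⟨Finset.mem_univ _, hg⟩
  · rw [← hy2, ← hy2]
    exact Quotient.sound ⟨h, e⟩

end

theorem count_num {N n : ℕ} (h1 : 512 ≤ N) (h2 : 2 ^ n ≤ N) :
    N ^ (n + 1) * (2 ^ (3 * N / 4) + 5) ≤ 2 ^ N := by
  have a : ∀ l, 9 ≤ l → 4 * ((l + 1) * (l + 1) + 1) ≤ 2 ^ l := fun l hl => by
    induction l, hl using Nat.le_induction with
    | base => norm_num
    | succ l hl ih => rw [pow_succ]; nlinarith
  set l := Nat.log 2 N
  have b1 : 9 ≤ l := Nat.le_log_of_pow_le (by norm_num) h1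
  have b2 : n ≤ l := Nat.le_log_of_pow_le (by norm_num) h2
  have b3 : N ≤ 2 ^ (l + 1) := (Nat.lt_pow_succ_log_self (by norm_num) N).le
  have b4 : 2 ^ l ≤ N := Nat.pow_log_le_self 2 (by omega)
  have b5 := a l b1
  have b6 : 2 ^ 3 ≤ 2 ^ (3 * N / 4) := Nat.pow_le_pow_right (by norm_num) (by omega)
  calc N ^ (n + 1) * (2 ^ (3 * N / 4) + 5)
      ≤ (2 ^ (l + 1)) ^ (l + 1) * 2 ^ (3 * N / 4 + 1) := by
        refine Nat.mul_le_mul ((Nat.pow_le_pow_left b3 _).trans
          (Nat.pow_le_pow_right (by positivity) (by omega))) ?_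
        rw [pow_succ]
        omega
    _ ≤ 2 ^ N := by
        rw [← pow_mul, ← pow_add]
        exact Nat.pow_le_pow_right (by norm_num) (by omega)

section
variable {T : Type u} [Group T] {n r : ℕ} [Fact r.Prime] {φ : T →* Equiv.Perm (Fin n → ZMod r)}

theorem pm2_large (h : AF φ) (hN : 512 ≤ r ^ n) : PM φ (Fin 2) (Fin 5) 0 := by
  have hp : r.Prime := Fact.out
  haveI : NeZero r := ⟨hp.ne_zero⟩
  refine pm_count (q := 3 * r ^ n / 4) (fun g hg => ?_) ?_
  · have : 2 * Nat.card {v // φ g v = v} ≤ r ^ n := by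
      rcases isEmpty_or_nonempty {v // φ g v = v} with e | ⟨⟨x, hx⟩⟩
      · simp
      obtain ⟨y, hy⟩ : ∃ y, φ g y ≠ y := by
        by_contra hh
        push Not at hh
        exact hg (Equiv.ext hh)
      rw [← card_W, two_mul, ← Nat.card_sum]
      refine Nat.card_le_card_of_injective (Sum.elim (fun v => v.1) fun v => v.1 + y - x) ?_
      have key : ∀ a b : {v // φ g v = v}, a.1 ≠ b.1 + y - x := fun a b e => by
        have := a.2
        rw [e, h.sub, b.2, hx] at this
        exact hy (by simpa using this)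
      rintro (a | a) (b | b) e
      · exact congrArg _ (Subtype.ext e)
      · exact absurd e (key a b)
      · exact absurd e.symm (key b a)
      · exact congrArg _ (Subtype.ext (by simpa using e))
    rw [card_W]
    omega
  · rw [card_W]
    refine le_trans (Nat.mul_le_mul_right _ ?_) (count_num hN (Nat.pow_le_pow_left hp.two_le n))
    have := Nat.card_le_card_of_injective
      (fun σ : φ.range => ((σ.1 0, fun i : Fin n => σ.1 (ev n r i)) :
        (Fin n → ZMod r) × (Fin n → Fin n → ZMod r))) (by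
      rintro ⟨_, a, rfl⟩ ⟨_, b, rfl⟩ e
      simp only [Prod.mk.injEq] at e
      exact Subtype.ext (h.ext e.1 fun i hi => congrFun e.2 ⟨i, hi⟩))
    rwa [Nat.card_prod, Nat.card_fun (α := Fin n) (β := Fin n → ZMod r), card_W,
      Nat.card_eq_fintype_card (α := Fin n), Fintype.card_fin, ← pow_succ'] at this

theorem pm2_two [Finite T] [Group.IsSolvable T] (h : AF φ) (hn : n ≤ 2) (hN : 8 ≤ r ^ n) :
    PM φ (Fin 2) (Fin 5) 4 := by
  classical
  haveI : NeZero r := ⟨(Fact.out : r.Prime).ne_zero⟩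
  have : ∀ j : Fin 5, ∃ X : Finset (Fin n → ZMod r),
      {0, ev n r 0, ev n r 1} ⊆ X ∧ X.card = 3 + j := fun j =>
    (Finset.exists_subsuperset_card_eq (Finset.subset_univ _)
      (Finset.card_le_three.trans (by omega)) (by
        have := j.2
        rw [Finset.card_univ, ← Nat.card_eq_fintype_card, card_W]
        omega)).imp fun _ h => ⟨h.1, h.2.2⟩
  choose X hX1 hX2 using this
  refine pm_sets X (fun j g hg => ?_) fun j j' e => Fin.ext (by rw [hX2, hX2] at e; omega)
  have key : ∀ x ∈ X j, φ g x = x := fun x hx => fix_of_small (k := 8)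
    (fun a ha y hy => (mem_St_set.mp ha y).mpr hy) (by have := j.2; rw [hX2]; omega) le_rfl hx hg
  refine h.mem_ker (key _ (hX1 j (by simp))) fun i hi => key _ (hX1 j ?_)
  obtain rfl | rfl : i = 0 ∨ i = 1 := by omega
  all_goals simp

theorem circ_ker [Finite T] [Group.IsSolvable T] (h : AF φ) (h3 : 3 ≤ n) (h8 : n ≤ 8)
    {X : Finset (Fin n → ZMod r)} (h0 : 0 ∈ X) (h1 : ev n r 0 + ev n r 1 ∈ X)
    (h2 : ∀ i < n, ev n r i ∈ X)
    (hX : ∀ x ∈ X, x = 0 ∨ x = ev n r 0 + ev n r 1 ∨ x = ev n r 0 + ev n r 2 ∨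
      x = ev n r 1 + ev n r 2 ∨ ∃ i < n, x = ev n r i) : dser (St φ (· ∈ X)) 4 ≤ φ.ker := by
  classical
  haveI : NeZero r := ⟨(Fact.out : r.Prime).ne_zero⟩
  let D : (Fin n → ZMod r) → Prop := fun x =>
    ∃ a ∈ X, ∃ b ∈ X, ∃ c ∈ X, a ≠ x ∧ b ≠ x ∧ c ≠ x ∧ x = a + b - c
  have hD : ∀ g ∈ St φ (· ∈ X), ∀ x, D x → D (φ g x) := by
    rintro g hg x ⟨a, ha, b, hb, c, hc, e1, e2, e3, e⟩
    have m := mem_St_set.mp hg
    exact ⟨_, (m a).mpr ha, _, (m b).mpr hb, _, (m c).mpr hc, (φ g).injective.ne e1,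
      (φ g).injective.ne e2, (φ g).injective.ne e3, by rw [← h.sub, ← e]⟩
  have n0 : ev n r 0 ≠ 0 := ev_ne_zero (by omega)
  have n1 : ev n r 1 ≠ 0 := ev_ne_zero (by omega)
  have n2 : ev n r 0 + ev n r 1 ≠ 0 := add_ne_zero_ev (by omega) (by omega)
  have n3 : ev n r 0 ≠ ev n r 1 := fun e => by simpa using ev_inj (by omega) e
  have a0 := h2 0 (by omega)
  have a1 := h2 1 (by omega)
  intro g hg
  have key : ∀ x ∈ X, φ g x = x := by
    intro x hx
    by_cases d : D x
    · refine fix_of_small (k := 8) (P := X.filter D) (fun a ha y hy => ?_) ?_ le_rfl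
        (Finset.mem_filter.mpr ⟨hx, d⟩) hg
      · rw [Finset.mem_filter] at hy ⊢
        exact ⟨(mem_St_set.mp ha y).mpr hy.1, hD a ha y hy.2⟩
      · refine (Finset.card_le_card (t := [0, ev n r 0 + ev n r 1, ev n r 0 + ev n r 2,
          ev n r 1 + ev n r 2, ev n r 0, ev n r 1, ev n r 2].toFinset) fun y hy => ?_).trans
          ((List.toFinset_card_le _).trans (by simp))
        obtain ⟨hy, a, ha, b, hb, c, hc, e1, e2, e3, e⟩ := Finset.mem_filter.mp hy
        rcases hX y hy with e' | e' | e' | e' | ⟨i, hi, e'⟩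
        any_goals simp [e']
        by_contra hh
        have hi3 : 3 ≤ i := by
          by_contra hi3
          obtain rfl | rfl | rfl : i = 0 ∨ i = 1 ∨ i = 2 := by omega
          all_goals simp at hh
        have z : ∀ w ∈ X, w ≠ y → w ⟨i, hi⟩ = 0 := by
          intro w hw hwy
          have i0 : i ≠ 0 := by omega
          have i1 : i ≠ 1 := by omega
          have i2 : i ≠ 2 := by omega
          rcases hX w hw with rfl | rfl | rfl | rfl | ⟨k, hk, rfl⟩
          any_goals simp [ev, i0, i1, i2]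
          rintro rfl
          exact hwy e'.symm
        have := congrFun e ⟨i, hi⟩
        simp [z a ha e1, z b hb e2, z c hc e3, e', ev] at this
    · refine fix_of_small (k := 8) (P := X.filter fun y => ¬ D y) (fun a ha y hy => ?_) ?_ le_rfl
        (Finset.mem_filter.mpr ⟨hx, d⟩) hg
      · rw [Finset.mem_filter] at hy ⊢
        exact ⟨(mem_St_set.mp ha y).mpr hy.1, fun e => hy.2 (by
          simpa using hD _ (inv_mem ha) _ e)⟩
      · refine (Finset.card_le_card (t := insert (ev n r 0 + ev n r 2) (insert (ev n r 1 + ev n r 2)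
          ((Finset.Ico 2 n).image (ev n r)))) fun y hy => ?_).trans ?_
        · obtain ⟨hy, d⟩ := Finset.mem_filter.mp hy
          rcases hX y hy with rfl | rfl | rfl | rfl | ⟨i, hi, rfl⟩
          · exact absurd ⟨_, a0, _, a1, _, h1, n0, n1, n2, by simp⟩ d
          · exact absurd ⟨_, a0, _, a1, _, h0, by simpa using n1, by simpa using n0, n2.symm,
              by simp⟩ d
          · simp
          · simp
          obtain rfl | rfl | hi2 : i = 0 ∨ i = 1 ∨ 2 ≤ i := by omega
          · exact absurd ⟨_, h1, _, h0, _, a1, by simpa using n1, n0.symm, n3.symm, by simp⟩ d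
          · exact absurd ⟨_, h1, _, h0, _, a0, by simpa using n0, n1.symm, n3, by simp⟩ d
          · simp only [Finset.mem_insert, Finset.mem_image, Finset.mem_Ico]
            exact Or.inr (Or.inr ⟨i, ⟨hi2, hi⟩, rfl⟩)
        · refine (Finset.card_insert_le _ _).trans (Nat.succ_le_succ
            ((Finset.card_insert_le _ _).trans (Nat.succ_le_succ (Finset.card_image_le.trans ?_))))
          rw [Nat.card_Ico]
          omega
  exact h.mem_ker (key _ h0) fun i hi => key _ (h2 i hi)

theorem pm2_mid [Finite T] [Group.IsSolvable T] (h : AF φ) (h3 : 3 ≤ n) (h8 : n ≤ 8)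
    (hN : 2 * n + 8 ≤ r ^ n) : PM φ (Fin 2) (Fin 5) 4 := by
  classical
  haveI : NeZero r := ⟨(Fact.out : r.Prime).ne_zero⟩
  let X5 := insert 0 (insert (ev n r 0 + ev n r 1) ((Finset.range n).image (ev n r)))
  let X6 := insert (ev n r 0 + ev n r 2) X5
  let X7 := insert (ev n r 1 + ev n r 2) X6
  have m5 : ∀ x, x ∈ X5 ↔ x = 0 ∨ x = ev n r 0 + ev n r 1 ∨ ∃ i < n, x = ev n r i := fun x => by
    simp [X5, eq_comm]
  have c5 : X5.card ≤ n + 2 := (Finset.card_insert_le _ _).trans (Nat.succ_le_succ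
    ((Finset.card_insert_le _ _).trans (Nat.succ_le_succ (Finset.card_image_le.trans (by simp)))))
  have nm : ∀ i < 2, ev n r i + ev n r 2 ∉ X5 := by
    intro i hi
    rw [m5]
    rintro (e | e | ⟨k, -, e⟩)
    · exact add_ne_zero_ev (by omega) (by omega) e
    · have := ev_add (by omega) (by omega) (e.symm.trans (add_comm _ _))
      omega
    · exact ev_ne_add (by omega) (by omega) (by omega) e.symm
  have c6 : X6.card = X5.card + 1 := Finset.card_insert_of_notMem (nm 0 (by omega))
  have c7 : X7.card = X6.card + 1 := by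
    refine Finset.card_insert_of_notMem fun e => ?_
    rcases Finset.mem_insert.mp e with e | e
    · simpa using ev_inj (by omega) (add_right_cancel e)
    · exact nm 1 (by omega) e
  have K : ∀ X, X5 ⊆ X → X ⊆ X7 → dser (St φ (· ∈ X)) 4 ≤ φ.ker := by
    intro X a b
    refine circ_ker h h3 h8 (a (by simp [m5])) (a (by simp [m5]))
      (fun i hi => a ((m5 _).mpr (Or.inr (Or.inr ⟨i, hi, rfl⟩)))) fun x hx => ?_
    have := b hx
    simp only [X7, X6, Finset.mem_insert, m5] at this
    tauto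
  have s6 : X5 ⊆ X6 := Finset.subset_insert _ _
  have s7 : X6 ⊆ X7 := Finset.subset_insert _ _
  have hc : Fintype.card (Fin n → ZMod r) = r ^ n := by rw [← Nat.card_eq_fintype_card, card_W]
  refine pm_sets ![X5, X6, X7, X6ᶜ, X5ᶜ] (fun j => ?_) fun j j' e => ?_
  · fin_cases j
    · exact K _ le_rfl (s6.trans s7)
    · exact K _ s6 s7
    · exact K _ (s6.trans s7) le_rfl
    · exact (St_compl (φ := φ) X6).symm ▸ K _ s6 s7
    · exact (St_compl (φ := φ) X5).symm ▸ K _ le_rfl (s6.trans s7)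
  · fin_cases j <;> fin_cases j' <;> simp [Finset.card_compl, hc] at e ⊢ <;> omega

theorem pm2 [Finite T] [Group.IsSolvable T] (h : AF φ) (hn : 0 < n) :
    PM φ (Fin 2) (Fin 3) 3 ∨ PM φ (Fin 2) (Fin 5) 4 := by
  have hp : r.Prime := Fact.out
  haveI : NeZero r := ⟨hp.ne_zero⟩
  have h2 : 2 ^ n ≤ r ^ n := Nat.pow_le_pow_left hp.two_le n
  have h1 : 2 ^ 1 ≤ 2 ^ n := Nat.pow_le_pow_right (by norm_num) hn
  by_cases a : r ^ n ≤ 4
  · exact Or.inl (pm2_small (m := 4) (by rw [card_W]; omega) (by rwa [card_W]) (by norm_num))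
  right
  by_cases b : r ^ n ≤ 8
  · exact pm2_small (m := 8) (by rw [card_W]; omega) (by rwa [card_W]) le_rfl
  by_cases c : n ≤ 2
  · exact pm2_two h c (by omega)
  by_cases d : n ≤ 8
  · refine pm2_mid h (by omega) d ?_
    by_cases e : n = 3
    · subst e
      have : 3 ^ 3 ≤ r ^ 3 := Nat.pow_le_pow_left (by
        by_contra e
        rw [show r = 2 by have := hp.two_le; omega] at b
        omega) 3
      omega
    · refine le_trans ?_ h2
      have : 4 ≤ n := by omega
      interval_cases n <;> norm_num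
  · refine (pm2_large h (le_trans ?_ h2)).mono (by norm_num)
    exact Nat.pow_le_pow_right (n := 2) (by norm_num) (show 9 ≤ n by omega)

end

theorem col2 {G : Type u} [Group G] [Finite G] [Group.IsSolvable G] (L : Subgroup G) :
    HasCol (Fin 2) 4 L := by
  by_cases hL : L = ⊤
  · exact hL ▸ hasCol_top 4
  obtain ⟨M, hM, hc⟩ := exists_coatom hL
  obtain ⟨n, r, φ, hr, hn, ha, -, -, H⟩ := exists_af hc
  haveI := Fact.mk hr
  rcases pm2 ha hn with h | h
  · exact HasCol.step (a := 1) (b := 3) hM.le (H _ _ _ h) (col3 M)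
  · exact HasCol.step (a := 0) (b := 4) hM.le (H _ _ _ h) (col5 M)

end Cfsg.Agent.SPG
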