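import Cfsg.Agent.Lib.SPG.Sig

/-!
# Three colours leave an abelian stabilizer
-/

set_option autoImplicit false

namespace Cfsg.Agent.SPG

open Subgroup Cfsg.Agent.Mod

universe u

theorem pm_dec {T : Type*} [Group T] {Ω κ ι : Type*} [Finite Ω] {φ : T →* Equiv.Perm Ω} {N : ℕ}
    (hN : Nat.card Ω = N) (y : ι → Fin N → κ)
    (h1 : ∀ j (σ : Equiv.Perm (Fin N)), (∀ v, y j (σ v) = y j v) → σ * σ = 1)
    (h2 : ∀ j j' (σ : Equiv.Perm (Fin N)), (∀ v, y j (σ v) = y j' v) → j = j') : PM φ κ ι 1 := by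
  refine PM.congr (Finite.equivFinOfCardEq hN) ⟨y, fun j => dser_one_of_sq fun g hg => ?_,
    fun j j' h e => h2 j j' _ e⟩
  rw [MonoidHom.mem_ker, map_mul]
  exact h1 j _ hg

theorem wt_ncard {Ω κ : Type*} (c : Ω → κ) (k : κ) : wt c k = {v | c v = k}.ncard := rfl

section
variable {T : Type u} [Group T] {n r : ℕ} [Fact r.Prime] {φ : T →* Equiv.Perm (Fin n → ZMod r)}

/-- The linear action of a point stabilizer. -/
@[reducible] def AF.act (h : AF φ) (S : Subgroup T) (hS : ∀ g ∈ S, φ g 0 = 0) :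
    DistribMulAction S (Fin n → ZMod r) where
  smul g v := φ g v
  one_smul v := by change φ (1 : T) v = v; simp
  mul_smul a b v := by change φ ((a : T) * b) v = φ a (φ b v); simp
  smul_zero g := hS g g.2
  smul_add g a b := h.add (hS g g.2) a b

theorem pm3_one {φ : T →* Equiv.Perm (Fin 1 → ZMod r)} (h : AF φ) (hr : r ≠ 2) :
    PM φ (Fin 3) (Fin 5) 1 := by
  classical
  have hp : r.Prime := Fact.out
  let c : (Fin 1 → ZMod r) → Fin 3 := fun v => if v = 0 then 1 else 0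
  have c1 : ∀ v, c v = 1 ↔ v = 0 := fun v => by by_cases e : v = 0 <;> simp [c, e]
  have c2 : ∀ v, c v ≠ 2 := fun v => by by_cases e : v = 0 <;> simp [c, e]
  refine pm_three c (fun g hg => ?_) ?_
  · letI := h.act (St φ c) fun g hg => by rw [← c1, hg, c1]
    rw [← map_derivedSeries_subtype, ← dser_top] at hg
    obtain ⟨s, hs, rfl⟩ := hg
    exact mem_kerP.mpr (mem_kerA.mp (dser_ker_of_prime (by rwa [card_W, pow_one]) hs))
  · have w1 : wt c 1 = 1 := by simp [wt, c1]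
    have w2 : wt c 2 = 0 := by simp [wt_ncard, c2]
    have hs := sum_wt c
    rw [card_W, Fin.sum_univ_three, pow_one] at hs
    have := hp.two_le
    intro a b e
    fin_cases a <;> fin_cases b <;> simp at e ⊢ <;> omega

theorem eight_aux : ∀ O : Finset (Fin 3 → ZMod 2), O.card ≤ 3 → O.Nonempty → 0 ∉ O →
    ∑ x ∈ O, x = 0 → ∀ x ∈ insert 0 O, ∀ y ∈ insert 0 O, x + y ∈ insert 0 O := by
  decide +kernel

theorem four_le {φ : T →* Equiv.Perm (Fin 3 → ZMod 2)} (h : AF φ) (hi : IrrA φ)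
    (O : Finset (Fin 3 → ZMod 2)) (h1 : O.Nonempty) (h0 : 0 ∉ O)
    (hO : ∀ g, φ g 0 = 0 → ∀ x, φ g x ∈ O ↔ x ∈ O) : 4 ≤ O.card := by
  by_contra hc
  have neg : ∀ x : Fin 3 → ZMod 2, -x = x := by decide
  have key : ∀ P : Finset (Fin 3 → ZMod 2), 0 ∈ P → (∀ x ∈ P, ∀ y ∈ P, x + y ∈ P) →
      (∀ g, φ g 0 = 0 → ∀ x ∈ P, φ g x ∈ P) → P.card ≤ 4 → ∀ x ∈ P, x = 0 := by
    intro P a b d e x hx
    let U : AddSubgroup (Fin 3 → ZMod 2) :=
      { carrier := P
        zero_mem' := a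
        add_mem' := fun {x y} hx hy => b x hx y hy
        neg_mem' := fun {x} hx => by rwa [neg] }
    rcases hi U d with e1 | e1
    · exact AddSubgroup.mem_bot.mp (e1 ▸ (hx : x ∈ U))
    · have : Finset.univ ⊆ P := fun x _ => (e1 ▸ trivial : x ∈ U)
      have := Finset.card_le_card this
      simp at this
      omega
  by_cases hs : ∑ x ∈ O, x = 0
  · obtain ⟨x, hx⟩ := h1
    refine h0 (key (insert 0 O) (by simp) (eight_aux O (by omega) ⟨x, hx⟩ h0 hs) ?_
      ((Finset.card_insert_le _ _).trans (by omega)) x (by simp [hx]) ▸ hx)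
    intro g hg y hy
    rcases Finset.mem_insert.mp hy with rfl | hy
    · simp [hg]
    · simp [(hO g hg y).mpr hy]
  · refine hs (key {0, ∑ x ∈ O, x} (by simp) ?_ ?_ (Finset.card_le_two.trans (by omega)) _
      (by simp))
    · generalize ∑ x ∈ O, x = s
      revert s
      decide
    · intro g hg y hy
      have e1 : ∑ v ∈ O, φ g v = ∑ v ∈ O, v :=
        Finset.sum_equiv (φ g) (fun v => (hO g hg v).symm) fun _ _ => rfl
      have e2 := map_sum (h.lin g) (fun v => v) O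
      simp only [h.lin_apply, hg, sub_zero, e1] at e2
      rcases Finset.mem_insert.mp hy with rfl | hy
      · simp [hg]
      · rw [Finset.mem_singleton.mp hy, e2]
        simp

theorem pm3_eight [Finite T] [Group.IsSolvable T] {φ : T →* Equiv.Perm (Fin 3 → ZMod 2)}
    (h : AF φ) (hi : IrrA φ) : PM φ (Fin 3) (Fin 5) 1 := by
  classical
  let c : (Fin 3 → ZMod 2) → Fin 3 := fun v =>
    if v = 0 then 1 else if v = ev 3 2 0 ∨ v = ev 3 2 1 then 2 else 0
  refine pm_three c (fun g hg => ?_) ?_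
  swap
  · have : ∀ k, wt c k = (Finset.univ.filter fun v => c v = k).card := fun k => by
      rw [wt, Nat.card_eq_fintype_card, Fintype.card_subtype]
    rw [funext this]
    decide +kernel
  let S : Subgroup T :=
    (MulAction.stabilizer (Equiv.Perm (Fin 3 → ZMod 2)) (0 : Fin 3 → ZMod 2)).comap φ
  letI := h.act S fun g hg => hg
  have ap : ∀ (g : S) (v : Fin 3 → ZMod 2), g • v = φ g v := fun _ _ => rfl
  let w := ev 3 2 0 + ev 3 2 1
  let O := (MulAction.orbit S w).toFinset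
  have hO : ∀ g, φ g 0 = 0 → ∀ x, φ g x ∈ O ↔ x ∈ O := fun g hg x => by
    simp only [O, Set.mem_toFinset]
    exact ⟨fun e => by simpa [← ap ⟨g, hg⟩] using MulAction.mem_orbit_of_mem_orbit (⟨g, hg⟩ : S)⁻¹ e,
      fun e => MulAction.mem_orbit_of_mem_orbit (⟨g, hg⟩ : S) e⟩
  have h0 : 0 ∉ O := by
    simp only [O, Set.mem_toFinset]
    rintro ⟨s, hs⟩
    exact absurd ((smul_eq_zero_iff_eq s).mp hs) (by decide)
  have h4 := four_le h hi O ⟨w, by simp [O]⟩ h0 hO
  have hu : insert 0 O = Finset.univ := by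
    by_contra e
    have := four_le h hi (insert 0 O)ᶜ (by
      rwa [Finset.nonempty_iff_ne_empty, Ne, Finset.compl_eq_empty_iff]) (by simp)
      fun g hg x => by
        have : φ g x = 0 ↔ x = 0 := by rw [← hg, (φ g).injective.eq_iff, hg]
        simp only [Finset.mem_compl, Finset.mem_insert, hO g hg, this]
    rw [Finset.card_compl, Finset.card_insert_of_notMem h0] at this
    simp at this
    omega
  have h7 : (MulAction.stabilizer S w).index = 7 := by
    rw [MulAction.index_stabilizer, Set.ncard_eq_toFinset_card']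
    have := congrArg Finset.card hu
    rw [Finset.card_insert_of_notMem h0] at this
    exact Nat.add_right_cancel (m := 1) this
  have hle : St φ c ≤ (MulAction.stabilizer S w).map S.subtype := by
    intro a ha
    have c1 : ∀ v, c v = 1 ↔ v = 0 := by decide
    have c2 : ∀ x y, c x = c (ev 3 2 0) → c y = c (ev 3 2 1) → x ≠ y → x + y = w := by decide
    have a0 : φ a 0 = 0 := by rw [← c1, ha, c1]
    refine ⟨⟨a, a0⟩, ?_, rfl⟩
    change φ a (ev 3 2 0 + ev 3 2 1) = w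
    rw [h.add a0]
    exact c2 _ _ (ha _) (ha _) ((φ a).injective.ne (by decide))
  have := dser_mono hle 1 hg
  rw [← map_dser] at this
  obtain ⟨s, hs, rfl⟩ := this
  have hs := mem_normalCore.mp ((prime_index (h7 ▸ by norm_num)).2 hs)
  refine mem_kerP.mpr fun v => ?_
  rcases Finset.mem_insert.mp (hu ▸ Finset.mem_univ v) with rfl | hv
  · exact s.2
  · obtain ⟨x, rfl⟩ := Set.mem_toFinset.mp hv
    have := hs x
    rw [MulAction.mem_stabilizer_iff, mul_smul, mul_smul, inv_smul_eq_iff] at this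
    exact this

/-- The triples through the apex. -/
def tv (n r i : ℕ) : Fin n → ZMod r := ev n r i + ev n r (i + 1) - ev n r (n - 1)

open Classical in
/-- The colouring by the basis, and by the origin and the triples. -/
noncomputable def c3 (n r : ℕ) (v : Fin n → ZMod r) : Fin 3 :=
  if ∃ i < n, v = ev n r i then 1 else if v = 0 ∨ ∃ i, i + 2 < n ∧ v = tv n r i then 2 else 0

omit [Fact r.Prime] in
theorem c3_one {v : Fin n → ZMod r} : c3 n r v = 1 ↔ ∃ i < n, v = ev n r i := by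
  unfold c3
  split_ifs with h <;> simp [h]

theorem c3_two {v : Fin n → ZMod r} : c3 n r v = 2 ↔ v = 0 ∨ ∃ i, i + 2 < n ∧ v = tv n r i := by
  refine ⟨fun e => ?_, fun e => ?_⟩
  · unfold c3 at e
    split_ifs at e with h1 h2
    · simp at e
    · exact h2
    · simp at e
  · unfold c3
    rw [if_neg, if_pos e]
    rintro ⟨k, hk, rfl⟩
    rcases e with e | ⟨i, hi, e⟩
    · exact ev_ne_zero hk e
    · have h1 : i = k := by
        simpa [tv, ev, show i ≠ n - 1 by omega] using congrFun e ⟨i, by omega⟩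
      have h2 : i + 1 = k := by
        simpa [tv, ev, show i + 1 ≠ n - 1 by omega] using congrFun e ⟨i + 1, by omega⟩
      omega

theorem c3_wt (hn : 2 ≤ n) (hN : 3 * n ≤ r ^ n) : Function.Injective (wt (c3 n r)) := by
  haveI : NeZero r := ⟨(Fact.out : r.Prime).ne_zero⟩
  have w1 : wt (c3 n r) 1 = n := by
    have : {v | c3 n r v = 1} = (ev n r) '' Set.Iio n := by
      ext v
      exact c3_one.trans ⟨fun ⟨i, hi, e⟩ => ⟨i, hi, e.symm⟩, fun ⟨i, hi, e⟩ => ⟨i, hi, e.symm⟩⟩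
    have hi : Set.InjOn (ev n r) (Set.Iio n) := fun i hi j _ e => ev_inj hi e
    rw [wt_ncard, this, hi.ncard_image]
    simp
  have w2 : wt (c3 n r) 2 ≤ n - 1 := by
    have : {v | c3 n r v = 2} ⊆ insert 0 (tv n r '' Set.Iio (n - 2)) := by
      intro v hv
      rcases c3_two.mp hv with e | ⟨i, hi, e⟩
      · exact Or.inl e
      · exact Or.inr ⟨i, by simp only [Set.mem_Iio]; omega, e.symm⟩
    rw [wt_ncard]
    refine (Set.ncard_le_ncard this).trans ((Set.ncard_insert_le _ _).trans ?_)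
    have := Set.ncard_image_le (f := tv n r) (s := Set.Iio (n - 2))
    simp at this
    omega
  have hs := sum_wt (c3 n r)
  rw [card_W, Fin.sum_univ_three] at hs
  intro a b e
  fin_cases a <;> fin_cases b <;> simp at e ⊢ <;> omega

theorem four_aux' : ∀ (a b c d : Fin 4) (m m' : Fin 2),
    ev 4 2 a + ev 4 2 b - ev 4 2 d = tv 4 2 m → ev 4 2 b + ev 4 2 c - ev 4 2 d = tv 4 2 m' →
    a ≠ b ∧ a ≠ c ∧ a ≠ d ∧ b ≠ c ∧ b ≠ d ∧ c ≠ d →
    (a = 0 ∧ c = 2 ∨ a = 2 ∧ c = 0) ∧ (b = 1 ∧ d = 3 ∨ b = 3 ∧ d = 1) := by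
  decide +kernel

theorem four_aux : ∀ a < 4, ∀ b < 4, ∀ c < 4, ∀ d < 4, ∀ m < 2, ∀ m' < 2, a ≠ b → a ≠ c → a ≠ d →
    b ≠ c → b ≠ d → c ≠ d → ev 4 2 a + ev 4 2 b - ev 4 2 d = tv 4 2 m →
    ev 4 2 b + ev 4 2 c - ev 4 2 d = tv 4 2 m' →
    (a = 0 ∧ c = 2 ∨ a = 2 ∧ c = 0) ∧ (b = 1 ∧ d = 3 ∨ b = 3 ∧ d = 1) := by
  intro a ha b hb c hc d hd m hm m' hm' h1 h2 h3 h4 h5 h6 e1 e2
  simpa [Fin.ext_iff] using four_aux' ⟨a, ha⟩ ⟨b, hb⟩ ⟨c, hc⟩ ⟨d, hd⟩ ⟨m, hm⟩ ⟨m', hm'⟩ e1 e2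
    (by simp [*])

theorem three_mul_le {n r : ℕ} (h2 : 2 ≤ r) (hn : 2 ≤ n) (hr : r ≠ 2 ∨ 4 ≤ n) : 3 * n ≤ r ^ n := by
  have a : ∀ n, 2 ≤ n → 3 * n ≤ 3 ^ n := fun n hn => by
    induction n, hn using Nat.le_induction with
    | base => norm_num
    | succ n _ ih => rw [pow_succ]; omega
  have b : ∀ n, 4 ≤ n → 3 * n ≤ 2 ^ n := fun n hn => by
    induction n, hn using Nat.le_induction with
    | base => norm_num
    | succ n _ ih => rw [pow_succ]; omega
  rcases hr with hr | hr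
  · exact (a n hn).trans (Nat.pow_le_pow_left (by omega) n)
  · exact (b n hr).trans (Nat.pow_le_pow_left h2 n)

theorem pm3_bc (h : AF φ) (hn : 2 ≤ n) (hr : r ≠ 2 ∨ 4 ≤ n) : PM φ (Fin 3) (Fin 5) 1 := by
  have hp : r.Prime := Fact.out
  haveI : NeZero r := ⟨hp.ne_zero⟩
  refine pm_three (c3 n r) (dser_one_of_sq ?_) (c3_wt hn (three_mul_le hp.two_le hn hr))
  set S := St φ (c3 n r)
  have bas : ∀ g ∈ S, ∀ i < n, ∃ k < n, φ g (ev n r i) = ev n r k := fun g hg i hi =>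
    c3_one.mp ((hg _).trans (c3_one.mpr ⟨i, hi, rfl⟩))
  have inj : ∀ {g : T} {i j a b : ℕ}, i < n → i ≠ j → φ g (ev n r i) = ev n r a →
      φ g (ev n r j) = ev n r b → a ≠ b := fun hi hij e1 e2 e =>
    hij (ev_inj hi ((φ _).injective (e1.trans (e ▸ e2.symm))))
  have nz : ∀ g ∈ S, ∀ i, i + 2 < n → φ g (tv n r i) ≠ 0 := by
    intro g hg i hi e
    obtain ⟨x, hx, e1⟩ := bas g hg i (by omega)
    obtain ⟨y, hy, e2⟩ := bas g hg (i + 1) (by omega)
    obtain ⟨z, hz, e3⟩ := bas g hg (n - 1) (by omega)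
    rw [tv, h.sub, e1, e2, e3, sub_eq_zero] at e
    exact ev_ne_add hx hy (inj (by omega) (by omega) e1 e2) e.symm
  have zero : ∀ g ∈ S, φ g 0 = 0 := by
    intro g hg
    rcases c3_two.mp ((hg _).trans (c3_two.mpr (Or.inl rfl))) with e | ⟨i, hi, e⟩
    · exact e
    · exact absurd (by rw [← e]; simp) (nz _ (S.inv_mem hg) i hi)
  have tri : ∀ g ∈ S, ∀ i, i + 2 < n → ∃ m, m + 2 < n ∧ φ g (tv n r i) = tv n r m :=
    fun g hg i hi =>
      (c3_two.mp ((hg _).trans (c3_two.mpr (Or.inr ⟨i, hi, rfl⟩)))).resolve_left (nz g hg i hi)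
  intro g hg
  refine h.mem_ker (zero _ (S.mul_mem hg hg)) ?_
  by_cases h2 : n = 2
  · subst h2
    refine Path.sq ⟨h, le_rfl, zero, bas, fun g hg i hi => ⟨0, by omega, ?_⟩⟩ hg le_rfl
    obtain ⟨x, hx, e1⟩ := bas g hg i (by omega)
    obtain ⟨y, hy, e2⟩ := bas g hg (i + 1) (by omega)
    have := inj (by omega) (by omega) e1 e2
    rw [h.add (zero g hg), e1, e2]
    obtain ⟨rfl, rfl⟩ | ⟨rfl, rfl⟩ : x = 0 ∧ y = 1 ∨ x = 1 ∧ y = 0 := by omega
    · rfl
    · exact add_comm _ _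
  by_cases h4 : r = 2 ∧ n = 4
  · obtain ⟨rfl, rfl⟩ := h4
    obtain ⟨a, ha, e0⟩ := bas g hg 0 (by omega)
    obtain ⟨b, hb, e1⟩ := bas g hg 1 (by omega)
    obtain ⟨c, hc, e2⟩ := bas g hg 2 (by omega)
    obtain ⟨d, hd, e3⟩ := bas g hg 3 (by omega)
    obtain ⟨m, hm, t0⟩ := tri g hg 0 (by omega)
    obtain ⟨m', hm', t1⟩ := tri g hg 1 (by omega)
    rw [tv, h.sub, e0, e1, e3] at t0
    rw [tv, h.sub, e1, e2, e3] at t1
    have := four_aux a ha b hb c hc d hd m (by omega) m' (by omega)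
      (inj (by omega) (by omega) e0 e1) (inj (by omega) (by omega) e0 e2)
      (inj (by omega) (by omega) e0 e3) (inj (by omega) (by omega) e1 e2)
      (inj (by omega) (by omega) e1 e3) (inj (by omega) (by omega) e2 e3) t0 t1
    intro i hi
    rw [map_mul, Equiv.Perm.mul_apply]
    obtain ⟨⟨rfl, rfl⟩ | ⟨rfl, rfl⟩, ⟨rfl, rfl⟩ | ⟨rfl, rfl⟩⟩ := this <;>
      interval_cases i <;> simp only [e0, e1, e2, e3]
  have apex : ∀ g ∈ S, φ g (ev n r (n - 1)) = ev n r (n - 1) := by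
    intro g hg
    obtain ⟨k, hk, e⟩ := bas g hg (n - 1) (by omega)
    by_contra hh
    have hk' : n - 1 ≠ k := fun e' => hh (e' ▸ e)
    have key : ∀ i, i + 2 < n → r = 2 ∧ ∃ j, (j = i ∨ j = i + 1) ∧
        φ g (ev n r j) = ev n r (n - 1) := by
      intro i hi
      obtain ⟨x, hx, e1⟩ := bas g hg i (by omega)
      obtain ⟨y, hy, e2⟩ := bas g hg (i + 1) (by omega)
      obtain ⟨m, hm, t⟩ := tri g hg i hi
      have hxy := inj (by omega) (by omega) e1 e2
      rw [tv, h.sub, e1, e2, e] at t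
      have t1 := congrFun t ⟨n - 1, by omega⟩
      simp only [tv, ev, Pi.sub_apply, Pi.add_apply, if_neg hk', if_neg (show n - 1 ≠ m by omega),
        if_neg (show n - 1 ≠ m + 1 by omega), if_true] at t1
      have two : (1 : ZMod r) = -1 → r = 2 := fun e => by
        have : ((2 : ℕ) : ZMod r) = 0 := by push_cast; linear_combination e
        exact (Nat.prime_dvd_prime_iff_eq hp Nat.prime_two).mp
          ((ZMod.natCast_eq_zero_iff _ _).mp this)
      by_cases a : n - 1 = x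
      · exact ⟨two (by simpa [a, hxy] using t1), i, Or.inl rfl, a ▸ e1⟩
      by_cases b : n - 1 = y
      · exact ⟨two (by simpa [b, hxy.symm] using t1), i + 1, Or.inr rfl, b ▸ e2⟩
      simp [a, b] at t1
    obtain ⟨r2, j, hj, e1⟩ := key 0 (by omega)
    obtain ⟨-, j', hj', e2⟩ := key 2 (by omega)
    exact inj (by omega) (by omega) e1 e2 rfl
  have P : Path φ S (n - 1) := by
    refine ⟨h, by omega, zero, bas, fun g hg i hi => ?_⟩
    obtain ⟨m, hm, t⟩ := tri g hg i (by omega)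
    refine ⟨m, by omega, ?_⟩
    rw [tv, h.sub, apex g hg, tv, sub_left_inj, ← h.add (zero g hg)] at t
    exact t
  intro i hi
  by_cases e : i = n - 1
  · exact e ▸ apex _ (S.mul_mem hg hg)
  · exact P.sq hg (by omega) i (by omega)

theorem pm3 [Finite T] [Group.IsSolvable T] (h : AF φ) (hi : IrrA φ) (hn : 0 < n) :
    PM φ (Fin 3) (Fin 5) 1 := by
  haveI : NeZero r := ⟨(Fact.out : r.Prime).ne_zero⟩
  by_cases hr : r = 2
  · subst hr
    rcases (by omega : n = 1 ∨ n = 2 ∨ n = 3 ∨ 4 ≤ n) with rfl | rfl | rfl | h4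
    · exact pm_dec (N := 2) card_W ![![0, 0], ![1, 1], ![2, 2], ![0, 1], ![0, 2]]
        (by decide +kernel) (by decide +kernel)
    · exact pm_dec (N := 4) card_W
        ![![0, 0, 1, 1], ![0, 0, 2, 2], ![1, 1, 2, 2], ![0, 0, 1, 2], ![1, 1, 0, 2]]
        (by decide +kernel) (by decide +kernel)
    · exact pm3_eight h hi
    · exact pm3_bc h (by omega) (Or.inr h4)
  · rcases (by omega : n = 1 ∨ 2 ≤ n) with rfl | h2
    · exact pm3_one h hr
    · exact pm3_bc h h2 (Or.inl hr)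

end

theorem col3 {G : Type u} [Group G] [Finite G] [Group.IsSolvable G] (L : Subgroup G) :
    HasCol (Fin 3) 1 L := by
  by_cases hL : L = ⊤
  · exact hL ▸ hasCol_top 1
  obtain ⟨M, hM, hc⟩ := exists_coatom hL
  obtain ⟨n, r, φ, hr, hn, ha, hi, -, H⟩ := exists_af hc
  haveI := Fact.mk hr
  exact HasCol.step (a := 0) (b := 1) hM.le (H _ _ _ (pm3 ha hi hn)) (col5 M)

end Cfsg.Agent.SPG
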