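import Cfsg.Agent.Lib.SPG.Col0

/-!
# Five colours distinguish a solvable permutation group; two colours for odd order
-/

set_option autoImplicit false

namespace Cfsg.Agent.SPG

open Subgroup Cfsg.Agent.Mod

universe u

section
variable {T : Type*} [Group T] {n r : ℕ} [Fact r.Prime] {φ : T →* Equiv.Perm (Fin n → ZMod r)}

theorem card_W : Nat.card (Fin n → ZMod r) = r ^ n := by
  haveI : NeZero r := ⟨(Fact.out : r.Prime).ne_zero⟩
  simp

open Classical in
/-- The rigid colouring with five colours. -/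
noncomputable def c5 (n r : ℕ) (v : Fin n → ZMod r) : Fin 5 :=
  if v = 0 then 0 else if v = ev n r 0 then 1 else if ∃ i < n, v = ev n r i then 2
  else if ∃ i, i + 1 < n ∧ v = ev n r i + ev n r (i + 1) then 3 else 4

theorem c5_zero {v : Fin n → ZMod r} : c5 n r v = 0 ↔ v = 0 := by
  unfold c5
  split_ifs with h <;> simp [h]

theorem shift_const (w : Fin 5 → ℕ) {d : Fin 5} (hd : d ≠ 0) (h : ∀ k, w (k + d) = w k)
    (k : Fin 5) : w k = w 0 := by
  have : ∀ k d : Fin 5, d ≠ 0 →
      k = 0 ∨ k = 0 + d ∨ k = 0 + d + d ∨ k = 0 + d + d + d ∨ k = 0 + d + d + d + d := by decide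
  rcases this k d hd with e | e | e | e | e <;> rw [e] <;> simp only [h]

theorem c5_ker (h : AF φ) (hn : 0 < n) : St φ (c5 n r) ≤ φ.ker := by
  haveI : NeZero r := ⟨(Fact.out : r.Prime).ne_zero⟩
  have z : ∀ g ∈ St φ (c5 n r), φ g 0 = 0 := fun g hg => by rw [← c5_zero, hg, c5_zero]
  have P : Path φ (St φ (c5 n r)) n := by
    refine ⟨h, le_rfl, z, fun g hg i hi => ?_, fun g hg i hi => ?_⟩
    · have := hg (ev n r i)
      have h2 : ∃ j < n, ev n r i = ev n r j := ⟨i, hi, rfl⟩
      by_contra hh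
      have h3 : φ g (ev n r i) ≠ ev n r 0 := fun e => hh ⟨0, hn, e⟩
      unfold c5 at this
      rw [if_neg (ev_ne_zero hi), if_pos h2, if_neg h3, if_neg hh] at this
      split_ifs at this <;> simp at this
    · have := hg (ev n r i + ev n r (i + 1))
      have h1 : ¬ ∃ j < n, ev n r i + ev n r (i + 1) = ev n r j := by
        rintro ⟨j, -, e⟩
        exact ev_ne_add (by omega) hi (by omega) e.symm
      have h2 : ev n r i + ev n r (i + 1) ≠ ev n r 0 := fun e => h1 ⟨0, hn, e⟩
      have h3 : ∃ j, j + 1 < n ∧ ev n r i + ev n r (i + 1) = ev n r j + ev n r (j + 1) :=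
        ⟨i, hi, rfl⟩
      by_contra hh
      unfold c5 at this
      rw [if_neg (add_ne_zero_ev (by omega) (by omega)), if_neg h2, if_neg h1, if_pos h3,
        if_neg hh] at this
      split_ifs at this <;> simp at this
  intro g hg
  refine h.mem_ker (z g hg) (P.fix hg ?_)
  have := hg (ev n r 0)
  by_contra hh
  unfold c5 at this
  rw [if_neg (ev_ne_zero hn), if_pos rfl, if_neg hh] at this
  split_ifs at this <;> simp at this

theorem pm5 (h : AF φ) (hn : 0 < n) : PM φ (Fin 5) (Fin 5) 0 := by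
  haveI : NeZero r := ⟨(Fact.out : r.Prime).ne_zero⟩
  refine pm_of_perm (c5 n r) (c5_ker h hn) (fun j => Equiv.addRight j) fun j j' e => ?_
  by_contra hj
  have w0 : wt (c5 n r) 0 = 1 := by
    simp [wt, c5_zero]
  have hs := sum_wt (c5 n r)
  rw [card_W, Fin.sum_univ_five] at hs
  have key : wt (c5 n r) 2 = 1 ∧ r ^ n = 5 := by
    have := shift_const (wt (c5 n r)) (sub_ne_zero.mpr hj) fun k => by
      simpa [sub_eq_add_neg, add_assoc] using (e (k + j)).symm
    have h1 := this 1
    have h2 := this 2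
    have h3 := this 3
    have h4 := this 4
    omega
  have h1 : n = 1 := ((Nat.Prime.pow_eq_iff (by norm_num)).mp key.2).2
  subst h1
  obtain ⟨⟨v, hv⟩⟩ : Nonempty {v // c5 1 r v = 2} := (Nat.card_ne_zero.mp (by
    have := key.1
    unfold wt at this
    omega)).1
  unfold c5 at hv
  split_ifs at hv with a b c <;> simp at hv
  obtain ⟨i, hi, e⟩ := c
  exact b (by rwa [show i = 0 by omega] at e)

end

theorem col5 {G : Type u} [Group G] [Finite G] [Group.IsSolvable G] (L : Subgroup G) :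
    HasCol (Fin 5) 0 L := by
  induction' hk : L.index using Nat.strong_induction_on with k ih generalizing L
  by_cases hL : L = ⊤
  · exact hL ▸ hasCol_top 0
  obtain ⟨M, hM, hc⟩ := exists_coatom hL
  obtain ⟨n, r, φ, hr, hn, ha, -, -, H⟩ := exists_af hc
  haveI := Fact.mk hr
  exact HasCol.step (a := 0) (b := 0) hM.le (H _ _ _ (pm5 ha hn))
    (ih _ (hk ▸ index_lt_of_lt hM) M rfl)

/-- Gluing colourings of the orbits. -/
theorem exists_col_of_orbits {T : Type*} [Group T] {Ω κ : Type*} [MulAction T Ω] {m : ℕ}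
    (h : ∀ ω : Ω, HasCol κ m (MulAction.stabilizer T ω)) :
    ∃ c : Ω → κ, dser (St (MulAction.toPermHom T Ω) c) m ≤ (MulAction.toPermHom T Ω).ker := by
  choose f h1 h2 using h
  let ρ : Ω → Ω := fun ω => Quotient.out (Quotient.mk (MulAction.orbitRel T Ω) ω)
  have hρ : ∀ ω, ∃ t : T, t • ρ ω = ω := fun ω =>
    (MulAction.orbitRel T Ω).symm (Quotient.exact (Quotient.out_eq _))
  have hρ' : ∀ (g : T) ω, ρ (g • ω) = ρ ω := fun g ω => by
    simp only [ρ]
    congr 1
    exact Quotient.sound ⟨g, rfl⟩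
  choose t ht using hρ
  have hc : ∀ ω (x : T), f (ρ (x • ρ ω)) (t (x • ρ ω)) = f (ρ ω) x := by
    intro ω x
    have e : ρ (x • ρ ω) = ρ ω := by rw [hρ', ← hρ' (t ω), ht]
    have e2 := ht (x • ρ ω)
    rw [e] at e2 ⊢
    rw [← h1 (ρ ω) x (x⁻¹ * t (x • ρ ω)) (by simp [mul_smul, e2]), mul_inv_cancel_left]
  refine ⟨fun ω => f (ρ ω) (t ω), fun g hg => mem_kerP.mpr fun ω => ?_⟩
  have e : St (MulAction.toPermHom T Ω) (fun ω => f (ρ ω) (t ω)) ≤ cst (f (ρ ω)) := by
    intro a ha x
    have := ha (x • ρ ω)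
    simp only [MulAction.toPermHom_apply, MulAction.toPerm_apply, ← mul_smul] at this
    rwa [hc, hc] at this
  have := mem_normalCore.mp (h2 _ (dser_mono e m hg)) (t ω)
  rw [MulAction.mem_stabilizer_iff, mul_smul, mul_smul, ht, inv_smul_eq_iff, ht] at this
  exact this

theorem pm_two {T : Type*} [Group T] {Ω : Type*} [Finite Ω] {φ : T →* Equiv.Perm Ω} {n : ℕ}
    (c : Ω → Fin 2) (hc : dser (St φ c) n ≤ φ.ker) (ho : Odd (Nat.card Ω)) :
    PM φ (Fin 2) (Fin 2) n := by
  refine pm_of_perm c hc (fun j => Equiv.addRight j) fun j j' e => ?_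
  have hs := sum_wt c
  rw [Fin.sum_univ_two] at hs
  obtain ⟨k, hk⟩ := ho
  have e0 : wt c (j - j') = wt c 0 := by simpa [sub_eq_add_neg] using (e j).symm
  by_contra hj
  have : ∀ d : Fin 2, d ≠ 0 → d = 1 := by decide
  rw [this _ (sub_ne_zero.mpr hj)] at e0
  omega

/-- The classes `{v, -v}`. -/
def pmS (W : Type*) [AddCommGroup W] : Setoid W where
  r v w := w = v ∨ w = -v
  iseqv := ⟨fun _ => Or.inl rfl, fun h => h.imp Eq.symm fun e => by simp [e], by
    rintro a b c (rfl | rfl) (rfl | rfl) <;> simp⟩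

theorem pmOdd {T : Type u} [Group T] [Finite T] {n r : ℕ} [Fact r.Prime]
    {φ : T →* Equiv.Perm (Fin n → ZMod r)} (h : AF φ) (hn : 0 < n) (hr : Odd r)
    (ho : Odd (Nat.card T))
    (ih : ∀ (S : Subgroup T) (K : Subgroup S), K.index < r ^ n → HasCol (Fin 2) 0 K) :
    PM φ (Fin 2) (Fin 2) 0 := by
  classical
  have hp : r.Prime := Fact.out
  haveI : NeZero r := ⟨hp.ne_zero⟩
  have two : ∀ v : Fin n → ZMod r, v = -v → v = 0 := by
    intro v hv
    have h2 : (2 : ZMod r) ≠ 0 := by
      intro e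
      have := (ZMod.natCast_eq_zero_iff 2 r).mp (by exact_mod_cast e)
      rw [(Nat.prime_dvd_prime_iff_eq hp Nat.prime_two).mp this] at hr
      exact absurd hr (by decide)
    have : (2 : ZMod r) • v = 0 := by rw [two_smul]; nth_rw 1 [hv]; simp
    exact (smul_eq_zero.mp this).resolve_left h2
  let S : Subgroup T :=
    (MulAction.stabilizer (Equiv.Perm (Fin n → ZMod r)) (0 : Fin n → ZMod r)).comap φ
  have mS : ∀ g, g ∈ S ↔ φ g 0 = 0 := fun g => Iff.rfl
  let Λ := Quotient (pmS (Fin n → ZMod r))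
  letI act : MulAction S Λ :=
    { smul := fun g => Quotient.map (φ g) fun a b e => by
        rcases e with rfl | rfl
        · exact Or.inl rfl
        · exact Or.inr (h.neg g.2 a)
      one_smul := fun w => by
        obtain ⟨w⟩ := w
        change Quotient.mk _ (φ (1 : T) w) = Quotient.mk _ w
        simp
      mul_smul := fun a b w => by
        obtain ⟨w⟩ := w
        change Quotient.mk _ (φ ((a : T) * b) w) = Quotient.mk _ (φ a (φ b w))
        simp }
  have ap : ∀ (g : S) w, g • (Quotient.mk _ w : Λ) = Quotient.mk _ (φ g w) := fun _ _ => rfl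
  have hΛ : Nat.card Λ < r ^ n := by
    rw [← card_W]
    refine (Nat.card_le_card_of_surjective _ Quotient.mk_surjective).lt_of_ne fun e => ?_
    have := (Quotient.mk_surjective.bijective_of_nat_card_le e.symm.le).1
      (Quotient.sound (s := pmS _) (Or.inr rfl : pmS _ (ev n r 0) (-ev n r 0)))
    exact ev_ne_zero hn (two _ this)
  obtain ⟨c, hc⟩ := exists_col_of_orbits (T := S) (Ω := Λ) (κ := Fin 2) (m := 0) fun ω =>
    ih S _ (by
      rw [MulAction.index_stabilizer]
      exact (Set.ncard_le_card _).trans_lt hΛ)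
  let X0 : Finset (Fin n → ZMod r) := Finset.univ.filter fun v => v ≠ 0 ∧ c (Quotient.mk _ v) = 1
  obtain ⟨X, hX1, hX2⟩ : ∃ X : Finset (Fin n → ZMod r), ¬ r ∣ X.card ∧
      ∀ v, v ≠ 0 → (v ∈ X ↔ c (Quotient.mk _ v) = 1) := by
    by_cases e : r ∣ X0.card
    · refine ⟨insert 0 X0, fun e' => ?_, fun v hv => by simp [X0, hv]⟩
      rw [Finset.card_insert_of_notMem (by simp [X0])] at e'
      exact hp.one_lt.ne' (Nat.dvd_one.mp ((Nat.dvd_add_right e).mp e'))
    · exact ⟨X0, e, fun v hv => by simp [X0, hv]⟩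
  have hneg : ∀ v, v ∈ X → -v ∈ X := by
    intro v hv
    by_cases e : v = 0
    · simpa [e] using hv
    · rw [hX2 _ (neg_ne_zero.mpr e), ← (hX2 v e).mp hv]
      exact congrArg c (Quotient.sound (s := pmS _) (Or.inr (neg_neg v).symm))
  have hsum : ∑ v ∈ X, v = 0 := by
    apply two
    rw [← Finset.sum_neg_distrib]
    exact Finset.sum_nbij' (fun v => -v) (fun v => -v) hneg hneg (by simp) (by simp) (by simp)
  refine pm_two (fun v => if v ∈ X then 1 else 0) (fun g hg => ?_) (by
    rw [card_W]; exact hr.pow)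
  have hg1 : ∀ v, φ g v ∈ X ↔ v ∈ X := fun v => by
    have : (if φ g v ∈ X then (1 : Fin 2) else 0) = if v ∈ X then 1 else 0 := hg v
    by_cases a : φ g v ∈ X <;> by_cases b : v ∈ X <;> simp [a, b] at this ⊢
  have g0 : φ g 0 = 0 := by
    have e1 : ∑ v ∈ X, φ g v = ∑ v ∈ X, v :=
      Finset.sum_equiv (φ g) (fun v => (hg1 v).symm) fun _ _ => rfl
    have e2 := map_sum (h.lin g) (fun v => v) X
    rw [hsum, map_zero] at e2
    simp only [h.lin_apply, Finset.sum_sub_distrib, e1, hsum, Finset.sum_const,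
      zero_sub, zero_eq_neg] at e2
    rw [← Nat.cast_smul_eq_nsmul (ZMod r)] at e2
    exact (smul_eq_zero.mp e2).resolve_left fun e => hX1 ((ZMod.natCast_eq_zero_iff _ _).mp e)
  have g1 : (⟨g, g0⟩ : S) ∈ St (MulAction.toPermHom S Λ) c := by
    rintro ⟨v⟩
    change c (Quotient.mk _ (φ g v)) = c (Quotient.mk _ v)
    by_cases e : v = 0
    · rw [e, g0]
    · have e' : φ g v ≠ 0 := fun e' => e ((φ g).injective (e'.trans g0.symm))
      have := (hX2 _ e').symm.trans ((hg1 v).trans (hX2 _ e))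
      revert this
      generalize c (Quotient.mk _ (φ g v)) = a
      generalize c (Quotient.mk _ v) = b
      revert a b
      decide
  have g2 : g * g ∈ φ.ker := by
    rw [mem_kerP]
    intro v
    rw [map_mul, Equiv.Perm.mul_apply]
    rcases Quotient.exact (mem_kerP.mp (hc g1) (Quotient.mk _ v)).symm with e | e
    · change φ g v = v at e
      rw [e, e]
    · change φ g v = -v at e
      rw [e, h.neg g0, e, neg_neg]
  obtain ⟨k, hk⟩ := ho
  have := φ.ker.pow_mem g2 (k + 1)
  rwa [← sq, ← pow_mul, show 2 * (k + 1) = Nat.card T + 1 by omega, pow_succ, pow_card_eq_one',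
    one_mul] at this

theorem colOdd_aux (k : ℕ) : ∀ {G : Type u} [Group G] [Finite G] [Group.IsSolvable G],
    Odd (Nat.card G) → ∀ L : Subgroup G, L.index = k → HasCol (Fin 2) 0 L := by
  induction k using Nat.strong_induction_on with
  | _ k ih =>
    intro G _ _ _ ho L hk
    by_cases hL : L = ⊤
    · exact hL ▸ hasCol_top 0
    obtain ⟨M, hM, hc⟩ := exists_coatom hL
    obtain ⟨n, r, φ, hr, hn, ha, -, hi, H⟩ := exists_af hc
    haveI := Fact.mk hr
    have hoM : Odd (Nat.card M) := ho.of_dvd_nat M.card_subgroup_dvd_card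
    have hd : r ^ n ∣ k := by
      rw [← hi, ← hk]
      exact relIndex_dvd_index_of_le hM.le
    have hk0 : k ≠ 0 := hk ▸ index_ne_zero_of_finite
    refine HasCol.step (a := 0) (b := 0) hM.le (H _ _ _ (pmOdd ha hn ?_ hoM fun S K hK => ?_))
      (ih _ (hk ▸ index_lt_of_lt hM) ho M rfl)
    · exact hoM.of_dvd_nat ((dvd_pow_self r hn.ne').trans (hi ▸ index_dvd_card _))
    · exact ih _ (hK.trans_le (Nat.le_of_dvd (Nat.pos_of_ne_zero hk0) hd))
        (hoM.of_dvd_nat S.card_subgroup_dvd_card) K rfl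

theorem colOdd {G : Type u} [Group G] [Finite G] [Group.IsSolvable G] (L : Subgroup G)
    (ho : Odd (Nat.card G)) : HasCol (Fin 2) 0 L := colOdd_aux _ ho L rfl

end Cfsg.Agent.SPG
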