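import Cfsg.Agent.Lib.SPG.NT

/-!
# Vectors with stabilizers of small derived length: the quasi-primitive case
-/

set_option autoImplicit false

namespace Cfsg.Agent.SPG

open Subgroup Cfsg.Agent.OO Cfsg.Agent.Mod MulAction
open scoped commutatorElement

universe u v

variable {G : Type u} {V : Type v} [Group G] [AddCommGroup V] [DistribMulAction G V]

variable (G V) in
/-- `c` pairwise inequivalent vectors whose stabilizers induce groups of derived length `≤ b`. -/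
def Fam (c b : ℕ) : Prop := ∃ y : Fin c → V, (∀ j j' (g : G), g • y j = y j' → j = j') ∧
  ∀ j, dser (stabilizer G (y j)) b ≤ kerA G V

theorem Fam.pull {H : Type*} [Group H] [DistribMulAction H V] {f : G →* H}
    (e : ∀ (g : G) (v : V), f g • v = g • v) {c b : ℕ} (h : Fam H V c b) : Fam G V c b := by
  obtain ⟨y, h1, h2⟩ := h
  exact ⟨y, fun j j' g hg => h1 j j' (f g) ((e g _).trans hg),
    fun j => dser_pull e (stab_le e _) (h2 j)⟩

theorem exists_fam [Finite G] [Finite V] (S : Set V) (c : ℕ) (h : c * Nat.card G < S.ncard) :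
    ∃ y : Fin (c + 1) → V, (∀ j j' (g : G), g • y j = y j' → j = j') ∧ ∀ j, y j ∈ S := by
  induction c with
  | zero =>
    obtain ⟨v, hv⟩ := (Set.ncard_pos (Set.toFinite S)).mp (by omega)
    exact ⟨fun _ => v, fun j j' _ _ => Subsingleton.elim (α := Fin 1) _ _, fun _ => hv⟩
  | succ c ih =>
    obtain ⟨y, h1, h2⟩ := ih (by nlinarith)
    obtain ⟨v, hv, hn⟩ : ∃ v ∈ S, v ∉ Set.range fun p : Fin (c + 1) × G => p.2 • y p.1 := by
      by_contra! hc
      have := (Set.ncard_le_ncard hc).trans (Finite.card_range_le _)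
      rw [Nat.card_prod, Nat.card_eq_fintype_card, Fintype.card_fin] at this
      omega
    refine ⟨Fin.cons v y, fun j j' g => ?_, fun j => ?_⟩
    · refine Fin.cases ?_ (fun i => ?_) j <;> refine Fin.cases ?_ (fun i' => ?_) j' <;>
        simp only [Fin.cons_zero, Fin.cons_succ]
      · exact fun _ => trivial
      · exact fun e => absurd ⟨(i', g⁻¹), inv_smul_eq_iff.mpr e.symm⟩ hn
      · exact fun e => absurd ⟨(i, g), e⟩ hn
      · exact fun e => congrArg _ (h1 _ _ g e)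
    · exact Fin.cases hv h2 j

theorem fam_two [Nontrivial V] {b : ℕ} (h : dser ⊤ b ≤ kerA G V) : Fam G V 2 b := by
  obtain ⟨v, hv⟩ := exists_ne (0 : V)
  refine ⟨![0, v], fun j j' g e => ?_, fun j => (dser_mono le_top b).trans h⟩
  fin_cases j <;> fin_cases j' <;> simp_all [smul_eq_zero_iff_eq]

theorem fam_three {b : ℕ} (h : dser ⊤ b ≤ kerA G V) {v w : V} (hv : v ≠ 0) (hw : w ≠ 0)
    (hn : ∀ g : G, g • v ≠ w) : Fam G V 3 b := by
  refine ⟨![0, v, w], fun j j' g e => ?_, fun j => (dser_mono le_top b).trans h⟩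
  have hn' : ∀ g : G, g • w ≠ v := fun g e => hn g⁻¹ (inv_smul_eq_iff.mpr e.symm)
  fin_cases j <;> fin_cases j' <;> simp_all [smul_eq_zero_iff_eq]

theorem ncard_bad_le [Finite G] [Finite V] (D : Set G) {F : ℕ}
    (h : ∀ g ∈ D, Nat.card (Fix V g) ≤ F) : {v : V | ∃ g ∈ D, g • v = v}.ncard ≤ D.ncard * F := by
  classical
  have : {v : V | ∃ g ∈ D, g • v = v} = ⋃ g ∈ D.toFinite.toFinset, (Fix V g : Set V) := by
    ext v
    simp [mem_Fix]
  rw [this, Set.ncard_eq_toFinset_card D]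
  refine (Finset.set_ncard_biUnion_le _ _).trans ?_
  exact (Finset.sum_le_card_nsmul _ _ F fun g hg => h g (by simpa using hg)).trans_eq
    (smul_eq_mul _ _)

theorem mid_num {z a x k e N g : ℕ} (hz : z < k) (ha : 2 ^ a ≤ k) (he : 64 ≤ e) (hk : 3 ≤ k)
    (hN : k ^ e ≤ N) (hx : 25 * x ^ 2 ≤ (e ^ 2) ^ 5) (hg : g ≤ z * e ^ 2 * x * a) :
    30 * g ≤ N ∧ 81 ≤ N := by
  have x1 : 5 * x ≤ e ^ 5 := (Nat.pow_le_pow_iff_left two_ne_zero).mp (by
    calc _ = 25 * x ^ 2 := by ring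
      _ ≤ _ := hx
      _ = _ := by ring)
  have b3 : 10 * g ≤ k ^ 2 * e ^ 7 := by
    have := (two_mul_le_two_pow a).trans ha
    calc _ ≤ 10 * (z * e ^ 2 * x * a) := Nat.mul_le_mul_left _ hg
      _ = z * e ^ 2 * (5 * x) * (2 * a) := by ring
      _ ≤ k * e ^ 2 * e ^ 5 * k := by gcongr
      _ = _ := by ring
  have b4 := pow_growth (N := 64) (j := 7) (R := 3) (C := 3 ^ 3) (s := 1) (by norm_num)
    (by norm_num) (by norm_num) he
  have b6 : 81 ≤ N := ((Nat.pow_le_pow_right (by norm_num) (by omega : 4 ≤ e)).trans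
    (Nat.pow_le_pow_left hk e)).trans hN
  obtain ⟨m, hm⟩ : ∃ m, e = 3 + m := ⟨e - 3, by omega⟩
  have b7 : k ^ e = k * (k ^ 2 * k ^ m) := by rw [hm]; ring
  have b8 : 3 ^ e = 3 ^ 3 * 3 ^ m := by rw [hm, pow_add]
  rw [one_mul, b8] at b4
  have b5 := Nat.mul_le_mul hk (Nat.mul_le_mul_left (k ^ 2)
    ((Nat.le_of_mul_le_mul_left b4 (by norm_num)).trans (Nat.pow_le_pow_left hk m)))
  omega

theorem big_num {z a x y k e N F g : ℕ} (hz : z < k) (ha : 2 ^ a ≤ k) (he : 81 ≤ e)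
    (hk : 4 ≤ k ∨ k = 3 ∧ 128 ≤ e) (hN : k ^ e ≤ N) (hx : 25 * x ^ 2 ≤ (e ^ 2) ^ 5)
    (hy : 256 * y ≤ x) (hg : g ≤ z * e ^ 2 * x * a) (hF : F ^ 4 ≤ N ^ 3) :
    4 * g + 1 + z * e ^ 2 * y * F < N := by
  have x1 : 5 * x ≤ e ^ 5 := (Nat.pow_le_pow_iff_left two_ne_zero).mp (by
    calc _ = 25 * x ^ 2 := by ring
      _ ≤ _ := hx
      _ = _ := by ring)
  obtain ⟨m, hm⟩ : ∃ m, e = m + 4 := ⟨e - 4, by omega⟩
  have k0 : ∀ c : ℕ, c ^ e = c ^ 4 * c ^ m := fun c => by rw [hm, pow_add, mul_comm]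
  have k1 : e ^ 28 ≤ 640 ^ 4 * k ^ m := by
    rcases hk with hk | ⟨rfl, hk⟩
    · have := pow_growth (N := 81) (j := 28) (R := 4) (C := 4 ^ 4) (s := 640 ^ 4) (by norm_num)
        (by norm_num) (by norm_num) he
      rw [k0 4, mul_left_comm] at this
      exact (Nat.le_of_mul_le_mul_left this (by norm_num)).trans
        (Nat.mul_le_mul_left _ (Nat.pow_le_pow_left hk m))
    · have := pow_growth (N := 128) (j := 28) (R := 3) (C := 3 ^ 4) (s := 640 ^ 4) (by norm_num)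
        (by norm_num) (by norm_num) hk
      rw [k0 3, mul_left_comm] at this
      exact Nat.le_of_mul_le_mul_left this (by norm_num)
  have k3 : 3 ≤ k := by omega
  have k2 : (k * e ^ 7) ^ 4 ≤ 640 ^ 4 * N := by
    calc _ = k ^ 4 * e ^ 28 := by ring
      _ ≤ k ^ 4 * (640 ^ 4 * k ^ m) := Nat.mul_le_mul_left _ k1
      _ = 640 ^ 4 * k ^ e := by rw [k0 k]; ring
      _ ≤ _ := Nat.mul_le_mul_left _ hN
  have b1 : 1280 * (z * e ^ 2 * y) ≤ k * e ^ 7 := by
    calc _ = z * e ^ 2 * (5 * (256 * y)) := by ring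
      _ ≤ k * e ^ 2 * e ^ 5 := by gcongr; omega
      _ = _ := by ring
  have b2 : 2 * (z * e ^ 2 * y * F) ≤ N := by
    refine (Nat.pow_le_pow_iff_left (by norm_num : 4 ≠ 0)).mp
      (Nat.le_of_mul_le_mul_left ?_ (by norm_num : 0 < 640 ^ 4))
    calc _ = (1280 * (z * e ^ 2 * y)) ^ 4 * F ^ 4 := by ring
      _ ≤ (k * e ^ 7) ^ 4 * N ^ 3 := by gcongr
      _ ≤ 640 ^ 4 * N * N ^ 3 := by gcongr
      _ = _ := by ring
  have := mid_num hz ha (by omega) k3 hN hx hg
  omega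

namespace Str
variable [Finite G] [Finite V] {Z B : Subgroup G} {k d e : ℕ} (h : Str V Z B k d e)
include h

omit [Finite G] [Finite V] in
theorem dser_one {v : V} (hv : v ≠ 0) {D : Subgroup G} (h1 : D ≤ B) (h2 : D ≤ stabilizer G v) :
    dser D 1 = ⊥ :=
  eq_bot_iff.mpr fun z hz => (h.sr z (h.sym.comm (commutator_mono h1 h1 hz)) v
    (h2 (dser_le D 1 hz))).resolve_right hv

theorem prim_nine [Group.IsSolvable G] [Nontrivial V] :
    Fam G V 2 5 ∨ Fam G V 3 8 ∨ Fam G V 5 9 := by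
  by_cases h1 : e = 1
  · subst h1
    exact Or.inl (fam_two ((dser_anti _ (by norm_num)).trans (h.dser_two ▸ bot_le)))
  obtain ⟨U, _, _, _, u1, u2, u3, -⟩ := h.exists_mod
  have h0 := h.pos
  have tab : ∀ n, e ^ 2 < 6561 → tb (e ^ 2) + 2 ≤ n → dser ⊤ n ≤ kerA G V := fun n h2 h3 => by
    have : 4 ≤ e ^ 2 := Nat.pow_le_pow_left (by omega : 2 ≤ e) 2
    have := h.dser_le_B u3 (by unfold tb; split_ifs <;> omega) (lin_tab _ h2 G U u1 u2)
    refine (dser_anti _ h3).trans ?_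
    rw [dser_add]
    exact (dser_mono this 2).trans (h.dser_B ▸ bot_le)
  by_cases h2 : e = 2
  · exact Or.inl (fam_two (tab _ (by rw [h2]; norm_num) (by rw [h2]; decide)))
  by_cases h4 : e = 4
  · exact Or.inl (fam_two (tab _ (by rw [h4]; norm_num) (by rw [h4]; decide)))
  by_cases h5 : e ≤ 63
  · obtain ⟨v, w, hv, hw, hn⟩ := h.not_trans h1 h2 h4
    have := Nat.pow_le_pow_left h5 2
    exact Or.inr (Or.inl (fam_three (tab _ (by omega) (by unfold tb; split_ifs <;> omega)) hv hw hn))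
  refine Or.inr (Or.inr ?_)
  have p1 := pw _ G U u1 u2 (by nlinarith)
  have p2 : Nat.card G ≤ ♯Z * e ^ 2 * (kerA G U).index * 𝐂(Z).index := by
    rw [h.card_G, relIndex_le u3 le_rfl]
    gcongr
    exact (relIndex_le_of_le_right le_top index_ne_zero_of_finite).trans_eq (relIndex_top_right _)
  have mid := mid_num h.card_lt h.two_pow_le (by omega) (h.three_le h1) h.pow_le p1 p2
  have all : dser ⊤ 9 ≤ kerA G V → Fam G V 5 9 := fun h9 => by
    obtain ⟨y, y1, -⟩ := exists_fam (G := G) (Set.univ : Set V) 4 (by rw [Set.ncard_univ]; omega)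
    exact ⟨y, y1, fun j => (dser_mono le_top _).trans h9⟩
  by_cases h6 : e ≤ 80
  · have := Nat.pow_le_pow_left h6 2
    exact all (tab _ (by omega) (by unfold tb; split_ifs <;> omega))
  have hD : dser (⊤ : Subgroup G) 8 ≤ 𝐂(Z) := (dser_anti _ (by norm_num : 1 ≤ 8)).trans h.der
  obtain ⟨y, hy1, hy2⟩ : ∃ y, 256 * y ≤ (kerA G U).index ∧
      ((dser (⊤ : Subgroup G) 8 : Set G) \ B).ncard ≤ ♯Z * e ^ 2 * y := by
    by_cases h7 : dser ⊤ 8 ≤ kerA G U
    · refine ⟨0, Nat.zero_le _, ?_⟩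
      rw [Set.sdiff_eq_empty.mpr (u3 ▸ le_inf h7 hD : dser (⊤ : Subgroup G) 8 ≤ B)]
      simp
    · refine ⟨_, two_pow_mul_le h7, (Set.ncard_le_ncard Set.sdiff_subset).trans ?_⟩
      rw [← h.card_B, ← relIndex_le u3 hD]
      change ♯(dser (⊤ : Subgroup G) 8) ≤ _
      rw [← card_inf_mul_relIndex B]
      exact Nat.mul_le_mul_right _ (card_le inf_le_left)
  obtain ⟨F, hF1, hF2⟩ : ∃ F, F ^ 4 ≤ Nat.card V ^ 3 ∧
      ∀ g ∈ (dser (⊤ : Subgroup G) 8 : Set G) \ B, Nat.card (Fix V g) ≤ F := by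
    refine ⟨Nat.findGreatest (fun F => F ^ 4 ≤ Nat.card V ^ 3) (Nat.card V),
      Nat.findGreatest_spec (P := fun F => F ^ 4 ≤ Nat.card V ^ 3) (Nat.zero_le _) (by simp),
      fun g hg => Nat.le_findGreatest (AddSubgroup.card_le_card_addGroup _)
        (h.three_four (hD hg.1) fun e => hg.2 (e ▸ B.one_mem))⟩
  have hk : 4 ≤ k ∨ k = 3 ∧ 128 ≤ e := by
    have := h.three_le h1
    refine or_iff_not_imp_left.mpr fun h7 => ⟨by omega, ?_⟩
    obtain ⟨n, m, hm, he⟩ := Nat.exists_eq_two_pow_mul_odd h0.ne'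
    have : m = 1 := by
      by_contra h8
      have h9 := (h.prime_lt (Nat.minFac_prime h8) (he ▸ (Nat.minFac_dvd m).mul_left _)).2
      have := (Nat.minFac_prime h8).two_le
      exact (Nat.not_even_iff_odd.mpr hm)
        (even_iff_two_dvd.mpr ((show m.minFac = 2 by omega) ▸ Nat.minFac_dvd m))
    rw [this, mul_one] at he
    by_contra h8
    have : n < 7 := (Nat.pow_lt_pow_iff_right one_lt_two).mp (by omega)
    have := Nat.pow_le_pow_right two_pos (by omega : n ≤ 6)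
    omega
  have big := big_num h.card_lt h.two_pow_le (by omega) hk h.pow_le p1 hy1 p2 hF1
  have bad := (ncard_bad_le _ hF2).trans (Nat.mul_le_mul_right _ hy2)
  obtain ⟨y, y1, y2⟩ := exists_fam (G := G)
    (insert 0 {v : V | ∃ g ∈ (dser (⊤ : Subgroup G) 8 : Set G) \ B, g • v = v})ᶜ 4 (by
      have := Set.ncard_add_ncard_compl
        (insert 0 {v : V | ∃ g ∈ (dser (⊤ : Subgroup G) 8 : Set G) \ B, g • v = v})
      have := Set.ncard_insert_le 0
        {v : V | ∃ g ∈ (dser (⊤ : Subgroup G) 8 : Set G) \ B, g • v = v}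
      omega)
  refine ⟨y, y1, fun j => ?_⟩
  have := y2 j
  simp only [Set.mem_compl_iff, Set.mem_insert_iff, not_or, Set.mem_ofPred_eq, not_exists, not_and,
    Set.mem_sdiff, and_imp] at this
  rw [show 9 = 8 + 1 by rfl, dser_add, h.dser_one this.1 (fun g hg => by_contra fun hb =>
    this.2 g (dser_mono le_top 8 hg) hb (dser_le _ 8 hg)) (dser_le _ 8)]
  exact bot_le

end Str

theorem exists_nine
    (c5 : ∀ (G : Type u) [Group G] [Finite G] [Group.IsSolvable G] (L : Subgroup G),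
      HasCol (Fin 5) 0 L)
    (c3 : ∀ (G : Type u) [Group G] [Finite G] [Group.IsSolvable G] (L : Subgroup G),
      HasCol (Fin 3) 1 L)
    (c2 : ∀ (G : Type u) [Group G] [Finite G] [Group.IsSolvable G] (L : Subgroup G),
      HasCol (Fin 2) 4 L) [Finite G] [Group.IsSolvable G] [Finite V] [Nontrivial V] (hi : Irr G V) :
    ∃ v : V, dser (stabilizer G v) 9 ≤ kerA G V := by
  obtain ⟨M, W, _, _, _, _, ι, π, H, _, _, _, _, _, f, Z, B, k, d, e, hb, -, ef, h, -⟩ :=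
    exists_data hi
  rcases h.prim_nine with h1 | h1 | h1
  · obtain ⟨y, y1, y2⟩ := h1.pull ef
    exact hb.exists_stab hi (c2 G M) y y1 y2
  · obtain ⟨y, y1, y2⟩ := h1.pull ef
    exact hb.exists_stab hi (c3 G M) y y1 y2
  · obtain ⟨y, y1, y2⟩ := h1.pull ef
    exact hb.exists_stab hi (c5 G M) y y1 y2

theorem cr_of_irr [Finite G] {n : ℕ} (P : ℕ → Prop) (hP : ∀ a b, P (a * b) → P a ∧ P b)
    (h : ∀ (V : Type v) [AddCommGroup V] [DistribMulAction G V] [Finite V] [Nontrivial V],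
      Irr G V → P (Nat.card V) → ∃ v : V, dser (stabilizer G v) n ≤ kerA G V) (m : ℕ) :
    ∀ (V : Type v) [AddCommGroup V] [DistribMulAction G V] [Finite V], Nat.card V = m → CR G V →
      P m → ∃ v : V, dser (stabilizer G v) n ≤ kerA G V := by
  induction m using Nat.strong_induction_on with
  | _ m ih =>
  intro V _ _ _ hV hc hm
  rcases subsingleton_or_nontrivial V with h0 | h0
  · exact ⟨0, fun g _ => mem_kerA.mpr fun _ => Subsingleton.elim _ _⟩
  by_cases hi : Irr G V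
  · exact h V hi (hV ▸ hm)
  obtain ⟨W, W', _, _, _, _, _, _, ι, ι', i1, i2, e1, e2, c1, c2, c3, hk, hs⟩ := hc.split hi
  rw [hV] at c3
  obtain ⟨w, hw⟩ := ih _ (by nlinarith) W rfl (hc.of_inj i1 e1) (hP _ _ (c3 ▸ hm)).1
  obtain ⟨w', hw'⟩ := ih _ (by nlinarith) W' rfl (hc.of_inj i2 e2) (hP _ _ (c3 ▸ hm)).2
  exact ⟨_, (le_inf ((dser_mono ((hs w w').trans inf_le_left) n).trans hw)
    ((dser_mono ((hs w w').trans inf_le_right) n).trans hw')).trans hk⟩

end Cfsg.Agent.SPG
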