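import Cfsg.Agent.Lib.SPG.Aff

/-!
# Irreducible modules are induced from quasi-primitive ones
-/

set_option autoImplicit false

namespace Cfsg.Agent.SPG

open Subgroup Cfsg.Agent.Mod

universe u v

section
variable {G : Type u} {V : Type v} [Group G] [AddCommGroup V] [DistribMulAction G V]

theorem exists_faithful [Finite G] : ∃ (H : Type u) (_ : Group H) (_ : Finite H)
    (_ : DistribMulAction H V) (_ : FaithfulSMul H V) (f : G →* H),
      Function.Surjective f ∧ ∀ (g : G) (v : V), f g • v = g • v := by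
  let φ := QuotientGroup.lift (kerA G V) (DistribMulAction.toAddMonoidEnd G V)
    (fun g hg => AddMonoidHom.ext (mem_kerA.mp hg))
  letI := DistribMulAction.compHom V φ
  refine ⟨G ⧸ kerA G V, inferInstance, inferInstance, inferInstance, ⟨?_⟩, QuotientGroup.mk' _,
    QuotientGroup.mk'_surjective _, fun g v => rfl⟩
  rintro ⟨a⟩ ⟨b⟩ h
  refine QuotientGroup.eq.mpr (mem_kerA.mpr fun v => ?_)
  have : a • v = b • v := h v
  rw [mul_smul, ← this, inv_smul_smul]

variable (G) in
/-- The endomorphism induced by a group element. -/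
abbrev rho : G →* AddMonoid.End V := DistribMulAction.toAddMonoidEnd G V

theorem rho_apply (g : G) (v : V) : rho G g v = g • v := rfl

/-- Conjugation of endomorphisms. -/
def cj (g : G) : AddMonoid.End V →+* AddMonoid.End V where
  toFun e := rho G g * e * rho G g⁻¹
  map_one' := by rw [mul_one, ← map_mul, mul_inv_cancel, map_one]
  map_mul' a b := AddMonoidHom.ext fun v => by
    change g • a (b (g⁻¹ • v)) = g • a (g⁻¹ • g • b (g⁻¹ • v))
    rw [inv_smul_smul]
  map_zero' := by rw [mul_zero, zero_mul]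
  map_add' a b := by rw [mul_add, add_mul]

theorem cj_apply (g : G) (e : AddMonoid.End V) (v : V) : cj g e v = g • e (g⁻¹ • v) := rfl

theorem cj_rho (g a : G) : cj g (rho G a : AddMonoid.End V) = rho G (g * a * g⁻¹) := by
  rw [map_mul, map_mul]; rfl

variable (V) in
/-- The ring generated by the action of a subgroup. -/
def rng (A : Subgroup G) : Subring (AddMonoid.End V) := Subring.closure (rho G '' A)

theorem rho_mem_rng {A : Subgroup G} {a : G} (h : a ∈ A) : rho G a ∈ rng V A :=
  Subring.subset_closure ⟨a, h, rfl⟩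

theorem cj_mem_rng {A : Subgroup G} [hA : A.Normal] (g : G) {x : AddMonoid.End V}
    (h : x ∈ rng V A) : cj g x ∈ rng V A := by
  have : rng V A ≤ (rng V A).comap (cj g) := by
    refine Subring.closure_le.mpr ?_
    rintro _ ⟨a, ha, rfl⟩
    change cj g _ ∈ rng V A
    rw [cj_rho]
    exact rho_mem_rng (hA.conj_mem a ha g)
  exact this h

theorem comm_rng {A : Subgroup G} {y : AddMonoid.End V} (h : ∀ a ∈ A, rho G a * y = y * rho G a)
    {x : AddMonoid.End V} (hx : x ∈ rng V A) : x * y = y * x := by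
  have : rng V A ≤ Subring.centralizer {y} := by
    refine Subring.closure_le.mpr ?_
    rintro _ ⟨a, ha, rfl⟩ _ rfl
    exact (h a ha).symm
  exact (this hx y rfl).symm

variable (G V) in
/-- Quasi-primitivity: abelian normal subgroups generate fields. -/
def QP : Prop := ∀ A : Subgroup G, A.Normal → (∀ a ∈ A, ∀ b ∈ A, ∀ v : V, a • b • v = b • a • v) →
  ∀ x ∈ rng V A, ∀ v, x v = 0 → x = 0 ∨ v = 0

variable (G) in
/-- Block idempotents. -/
structure BI (e : AddMonoid.End V) : Prop where
  idem : e * e = e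
  ne : e ≠ 0
  alt : ∀ g : G, cj g e = e ∨ e * cj g e = 0

theorem exists_idem {M : Type*} [Monoid M] [Finite M] (x : M) :
    ∃ n, 0 < n ∧ x ^ n * x ^ n = x ^ n := by
  obtain ⟨i, j, hij, e⟩ := Finite.exists_ne_map_eq_of_infinite fun n : ℕ => x ^ n
  wlog h : i < j generalizing i j
  · exact this j i hij.symm e.symm (by omega)
  obtain ⟨d, rfl⟩ := Nat.exists_eq_add_of_lt h
  have k : ∀ m, x ^ (i + m * (d + 1)) = x ^ i := by
    intro m
    induction m with
    | zero => simp
    | succ m ih =>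
      rw [show i + (m + 1) * (d + 1) = i + d + 1 + m * (d + 1) by ring, pow_add, ← e, ← pow_add, ih]
  refine ⟨(i + 1) * (d + 1), by positivity, ?_⟩
  obtain ⟨c, hc⟩ : ∃ c, (i + 1) * (d + 1) = i + c := ⟨i * d + d + 1, by ring⟩
  rw [← pow_add]
  nth_rewrite 1 [hc]
  rw [show i + c + (i + 1) * (d + 1) = i + (i + 1) * (d + 1) + c by ring, pow_add, k, ← pow_add, hc]

theorem card_range_cj (g : G) (e : AddMonoid.End V) :
    (Set.range (cj g e)).ncard = (Set.range e).ncard := by
  have : Set.range (cj g e) = (fun v => g • v) '' Set.range e := by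
    ext w
    constructor
    · rintro ⟨v, rfl⟩
      exact ⟨_, ⟨_, rfl⟩, rfl⟩
    · rintro ⟨_, ⟨v, rfl⟩, rfl⟩
      exact ⟨g • v, by simp [cj_apply]⟩
  rw [this, Set.ncard_image_of_injective _ (MulAction.injective g)]

theorem qp_of_bi [Finite V] (hi : Irr G V) (hp : ∀ e : AddMonoid.End V, BI G e → e = 1) :
    QP G V := by
  intro A hA hc x hx v hv
  haveI : Finite (AddMonoid.End V) := Finite.of_injective _ DFunLike.coe_injective
  have cm : ∀ x ∈ rng V A, ∀ y ∈ rng V A, x * y = y * x := fun x hx y hy =>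
    comm_rng (fun a ha => (comm_rng (fun b hb => AddMonoidHom.ext (hc b hb a ha)) hy).symm) hx
  have idem : ∀ e ∈ rng V A, e * e = e → e = 0 ∨ e = 1 := by
    intro f hf h2
    by_contra! h0
    obtain ⟨e, ⟨he, e2, e0, ef⟩, hmin⟩ := Set.exists_min_image
      {e | e ∈ rng V A ∧ e * e = e ∧ e ≠ 0 ∧ f * e = e} (fun e => (Set.range e).ncard)
      (Set.toFinite _) ⟨f, hf, h2, h0.1, h2⟩
    refine h0.2 ?_
    rw [← mul_one f, ← hp e ⟨e2, e0, fun g => or_iff_not_imp_right.mpr fun hn => ?_⟩, ef]
    have hg := cj_mem_rng g he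
    have g2 : cj g e * cj g e = cj g e := by rw [← map_mul, e2]
    have := hmin (e * cj g e) ⟨mul_mem he hg, by
      rw [mul_assoc, ← mul_assoc (cj g e), ← cm _ he _ hg, mul_assoc, g2, ← mul_assoc, e2], hn,
      by rw [← mul_assoc, ef]⟩
    have r1 : Set.range (e * cj g e) = Set.range e :=
      Set.eq_of_subset_of_ncard_le (by rintro _ ⟨w, rfl⟩; exact ⟨_, rfl⟩) this
    have r2 : Set.range (e * cj g e) = Set.range (cj g e) :=
      Set.eq_of_subset_of_ncard_le (by rw [cm _ he _ hg]; rintro _ ⟨w, rfl⟩; exact ⟨_, rfl⟩)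
        (by rw [card_range_cj]; exact this)
    have k1 : cj g e * e = e := by
      ext w
      obtain ⟨u, hu⟩ : e w ∈ Set.range (cj g e) := by rw [← r2, r1]; exact ⟨w, rfl⟩
      change cj g e (e w) = e w
      rw [← hu]
      exact DFunLike.congr_fun g2 u
    have k2 : e * cj g e = cj g e := by
      ext w
      obtain ⟨u, hu⟩ : cj g e w ∈ Set.range e := by rw [← r1, r2]; exact ⟨w, rfl⟩
      change e (cj g e w) = cj g e w
      rw [← hu]
      exact DFunLike.congr_fun e2 u
    rw [← k2, cm _ he _ hg, k1]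
  by_contra! h0
  -- nilpotent elements vanish
  let J : Set (AddMonoid.End V) := {y | y ∈ rng V A ∧ IsNilpotent y}
  obtain ⟨w, hw, hmax⟩ := Set.exists_max_image {w : V | w ≠ 0}
    (fun w => {y | y ∈ J ∧ y w = 0}.ncard) (Set.toFinite _) ⟨v, h0.2⟩
  have hJ : ∀ y ∈ J, y w = 0 := by
    intro y hy
    by_contra hy0
    obtain ⟨n, hn⟩ := hy.2
    have ex : ∃ n, (y ^ n) w = 0 := ⟨n, by rw [hn]; rfl⟩
    classical
    have h1 := Nat.find_spec ex
    obtain ⟨m, hm⟩ : ∃ m, Nat.find ex = m + 1 :=
      Nat.exists_eq_succ_of_ne_zero fun e => hw (by rw [e] at h1; exact h1)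
    have h2 := Nat.find_min ex (m := m) (by omega)
    rw [hm, pow_succ'] at h1
    refine (hmax _ h2).not_gt (Set.ncard_lt_ncard ⟨fun z hz => ⟨hz.1, ?_⟩, fun hs => hy0 ?_⟩)
    · have := DFunLike.congr_fun (cm _ hz.1.1 _ (pow_mem hy.1 m)) w
      exact this.trans (show (y ^ m) (z w) = 0 by rw [hz.2, map_zero])
    · exact (hs ⟨hy, h1⟩).2
  let U : AddSubgroup V := ⨅ y ∈ J, AddMonoidHom.ker y
  have mU : ∀ u, u ∈ U ↔ ∀ y ∈ J, y u = 0 := fun u => by
    simp only [U, AddSubgroup.mem_iInf]
    rfl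
  have hU : Inv G U := by
    intro g u hu
    rw [mU] at hu ⊢
    intro y hy
    have := hu _ ⟨cj_mem_rng g⁻¹ hy.1, hy.2.map (cj g⁻¹)⟩
    rwa [cj_apply, inv_inv, smul_eq_zero_iff_eq] at this
  have hT : U = ⊤ := (hi U hU).resolve_left fun e => hw (by
    have := (mU w).mpr hJ
    rwa [e] at this)
  obtain ⟨n, hn, e⟩ := exists_idem x
  rcases idem _ (pow_mem hx n) e with e | e
  · exact h0.1 (AddMonoidHom.ext fun u => (mU u).mp (hT ▸ trivial) x ⟨hx, n, e⟩)
  · obtain ⟨m, rfl⟩ := Nat.exists_eq_succ_of_ne_zero hn.ne'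
    have := DFunLike.congr_fun e v
    rw [pow_succ] at this
    exact h0.2 (this.symm.trans (show (x ^ m) (x v) = 0 by rw [hv, map_zero]))

/-- `V` is induced from the module `W` of the subgroup `M`. -/
structure Blk (M : Subgroup G) {W : Type*} [AddCommGroup W] [DistribMulAction M W] (ι : W →+ V)
    (π : V →+ W) : Prop where
  left : ∀ w, π (ι w) = w
  inv : ∀ (m : M) (w : W), ι (m • w) = (m : G) • ι w
  eqv : ∀ (m : M) (v : V), π ((m : G) • v) = m • π v
  out : ∀ g ∉ M, ∀ w, π (g • ι w) = 0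

theorem exists_blk [Finite V] [Nontrivial V] (hi : Irr G V) :
    ∃ (M : Subgroup G) (W : Type v) (_ : AddCommGroup W) (_ : Finite W) (_ : Nontrivial W)
      (_ : DistribMulAction M W) (ι : W →+ V) (π : V →+ W), Blk M ι π ∧ Irr M W ∧ QP M W := by
  haveI : Finite (AddMonoid.End V) := Finite.of_injective _ DFunLike.coe_injective
  obtain ⟨e, he, hmin⟩ := Set.exists_min_image {e : AddMonoid.End V | BI G e}
    (fun e => (Set.range e).ncard) (Set.toFinite _)
    ⟨1, mul_one 1, fun h => by
      obtain ⟨v, hv⟩ := exists_ne (0 : V)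
      exact hv (DFunLike.congr_fun h v), fun g => Or.inl (map_one _)⟩
  let M : Subgroup G :=
    { carrier := {g | ∀ v, e (g • v) = g • e v}
      one_mem' := fun v => by simp
      mul_mem' := fun {a b} ha hb v => by rw [mul_smul, ha, hb, mul_smul]
      inv_mem' := fun {a} ha v => by rw [eq_inv_smul_iff, ← ha, smul_inv_smul] }
  let W : AddSubgroup V := AddMonoidHom.range e
  have hW : ∀ w : W, e w = w := by
    rintro ⟨_, u, rfl⟩
    exact DFunLike.congr_fun he.idem u
  letI : DistribMulAction M W :=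
    { smul m w := ⟨(m : G) • w, (m : G) • w, by
        change e _ = _
        rw [m.2, hW]⟩
      one_smul w := Subtype.ext (one_smul G (w : V))
      mul_smul a b w := Subtype.ext (mul_smul (a : G) (b : G) (w : V))
      smul_zero a := Subtype.ext (smul_zero (a : G))
      smul_add a x y := Subtype.ext (smul_add (a : G) (x : V) y) }
  have sm : ∀ (m : M) (w : W), ((m • w : W) : V) = (m : G) • (w : V) := fun _ _ => rfl
  let π : V →+ W := AddMonoidHom.rangeRestrict e
  have out : ∀ g ∉ M, ∀ w : W, π (g • (w : V)) = 0 := by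
    intro g hg w
    rcases he.alt g with h | h
    · refine absurd (fun v => ?_) hg
      rw [← h, cj_apply, inv_smul_smul, h]
    · apply Subtype.ext
      have := DFunLike.congr_fun h (g • (w : V))
      change e (cj g e _) = _ at this
      rwa [cj_apply, inv_smul_smul, hW] at this
  have left : ∀ w : W, π w = w := fun w => Subtype.ext (hW w)
  have eqv : ∀ (m : M) (v : V), π ((m : G) • v) = m • π v := fun m v => Subtype.ext (m.2 v)
  haveI : Nontrivial W := by
    obtain ⟨v, hv⟩ := DFunLike.ne_iff.mp he.ne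
    exact ⟨⟨π v, 0, fun h => hv (congrArg Subtype.val h)⟩⟩
  have irr : Irr M W := by
    intro U hU
    let X : AddSubgroup V := ⨅ g : G, (U.comap π).comap (rho G g)
    have mX : ∀ v, v ∈ X ↔ ∀ g : G, π (g • v) ∈ U := fun v => by
      simp [X, AddSubgroup.mem_iInf, rho_apply]
    rcases hi X (fun g v hv => (mX _).mpr fun x => by rw [← mul_smul]; exact (mX _).mp hv _)
      with h | h
    · left
      rw [eq_bot_iff]
      intro u hu
      have : (u : V) ∈ X := (mX _).mpr fun g => by
        by_cases hg : g ∈ M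
        · rw [eqv ⟨g, hg⟩, left]
          exact hU _ _ hu
        · rw [out g hg]
          exact U.zero_mem
      rw [h] at this
      exact Subtype.ext this
    · right
      rw [eq_top_iff]
      intro u _
      simpa [left] using (mX u).mp (h ▸ trivial) 1
  refine ⟨M, W, inferInstance, inferInstance, inferInstance, inferInstance, W.subtype, π,
    ⟨left, sm, eqv, out⟩, irr, qp_of_bi irr fun f hf => ?_⟩
  let f' : AddMonoid.End V := W.subtype.comp (AddMonoidHom.comp f π)
  have ap : ∀ v, f' v = f (π v) := fun _ => rfl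
  have hf' : BI G f' := by
    refine ⟨AddMonoidHom.ext fun v => ?_, fun h => hf.ne (AddMonoidHom.ext fun w => ?_),
      fun g => ?_⟩
    · change f' (f' v) = f' v
      rw [ap, ap, left]
      exact congrArg _ (DFunLike.congr_fun hf.idem _)
    · have := DFunLike.congr_fun h (w : V)
      rw [ap, left] at this
      exact Subtype.ext this
    · by_cases hg : g ∈ M
      · have k : ∀ v, cj g f' v = cj (⟨g, hg⟩ : M) f (π v) := fun v => by
          rw [cj_apply, cj_apply, ap, sm, ← eqv]
          rfl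
        refine (hf.alt ⟨g, hg⟩).imp (fun h => AddMonoidHom.ext fun v => ?_)
          fun h => AddMonoidHom.ext fun v => ?_
        · exact (k v).trans (by rw [h]; rfl)
        · change f' (cj g f' v) = 0
          rw [k, ap, left]
          exact congrArg Subtype.val (DFunLike.congr_fun h (π v))
      · refine Or.inr (AddMonoidHom.ext fun v => ?_)
        change f' (cj g f' v) = 0
        rw [cj_apply, ap, ap, out g hg, map_zero]
        rfl
  have r : Set.range f' = Set.range e :=
    Set.eq_of_subset_of_ncard_le (by rintro _ ⟨w, rfl⟩; exact (f (π w)).2) (hmin _ hf')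
  ext1 w
  obtain ⟨u, hu⟩ : (w : V) ∈ Set.range f' := by rw [r]; exact w.2
  have : f (π u) = w := Subtype.ext hu
  rw [← this]
  exact DFunLike.congr_fun hf.idem _

namespace Blk
variable {M : Subgroup G} {W : Type*} [AddCommGroup W] [DistribMulAction M W] {ι : W →+ V}
  {π : V →+ W} (h : Blk M ι π)
include h

theorem ext0 [Nontrivial W] (hi : Irr G V) {v : V} (hv : ∀ x : G, π (x⁻¹ • v) = 0) : v = 0 := by
  let X : AddSubgroup V := ⨅ g : G, π.ker.comap (rho G g⁻¹)
  have mX : ∀ v, v ∈ X ↔ ∀ g : G, π (g⁻¹ • v) = 0 := fun v => by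
    simp [X, AddSubgroup.mem_iInf, rho_apply]
  rcases hi X (fun g v hv => (mX _).mpr fun x => by
    have := (mX _).mp hv (g⁻¹ * x)
    rwa [mul_inv_rev, inv_inv, mul_smul] at this) with e | e
  · have := (mX v).mpr hv
    rwa [e] at this
  · obtain ⟨w, hw⟩ := exists_ne (0 : W)
    exact absurd (by simpa [h.left] using (mX (ι w)).mp (e ▸ trivial) 1) hw

theorem pi_rep (x : G) (v : V) :
    π (x⁻¹ • v) = (⟨_, rep_mem M x⟩ : M)⁻¹ • π ((rep M x)⁻¹ • v) := by
  rw [← h.eqv, ← mul_smul]
  simp

theorem exists_vec [Finite G] (w : G ⧸ M → W) :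
    ∃ v : V, ∀ x : G, π ((rep M x)⁻¹ • v) = w x := by
  classical
  haveI := Fintype.ofFinite (G ⧸ M)
  refine ⟨∑ i : G ⧸ M, (Quotient.out i : G) • ι (w i), fun x => ?_⟩
  rw [Finset.smul_sum, map_sum, Finset.sum_eq_single (x : G ⧸ M)]
  · rw [rep, inv_smul_smul, h.left]
  · intro i _ hi
    rw [← mul_smul]
    refine h.out _ (fun hm => hi ?_) _
    have := QuotientGroup.eq.mpr hm
    rw [rep, QuotientGroup.out_eq', QuotientGroup.out_eq'] at this
    exact this.symm
  · simp

theorem card_eq [Finite G] [Nontrivial W] (hi : Irr G V) :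
    Nat.card V = Nat.card W ^ M.index := by
  rw [index, ← Nat.card_fun]
  refine Nat.card_congr (Equiv.ofBijective
    (fun v i => π ((Quotient.out i : G)⁻¹ • v)) ⟨fun a b e => ?_, fun w => ?_⟩)
  · rw [← sub_eq_zero]
    refine h.ext0 hi fun x => ?_
    have : π ((rep M x)⁻¹ • a) = π ((rep M x)⁻¹ • b) := congrFun e x
    rw [h.pi_rep, smul_sub, map_sub, this, sub_self, smul_zero]
  · obtain ⟨v, hv⟩ := h.exists_vec w
    refine ⟨v, funext fun i => ?_⟩
    obtain ⟨x, rfl⟩ := QuotientGroup.mk_surjective i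
    exact hv x

theorem mem_ker [Nontrivial W] (hi : Irr G V) {g : G}
    (hg : ∀ x, (rep M x)⁻¹ * g * rep M x ∈ (kerA M W).map M.subtype) : g ∈ kerA G V := by
  rw [← inv_mem_iff, mem_kerA]
  intro v
  rw [← sub_eq_zero]
  refine h.ext0 hi fun x => ?_
  obtain ⟨k, hk, e⟩ := hg x
  have : (rep M x)⁻¹ • g⁻¹ • v = ((k⁻¹ : M) : G) • (rep M x)⁻¹ • v := by
    rw [← mul_smul, ← mul_smul, coe_inv, show (k : G) = _ from e]
    simp [mul_assoc]
  rw [h.pi_rep, smul_sub, map_sub, this, h.eqv, mem_kerA.mp (inv_mem hk), sub_self, smul_zero]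

theorem index_le [Finite G] [Nontrivial W] (hi : Irr G V) :
    (kerA G V).index ≤ M.normalCore.index * (kerA M W).index ^ M.index := by
  rw [← relIndex_map_subtype]
  exact index_le_pow fun g _ hg => h.mem_ker hi hg

theorem dser_le [Nontrivial W] (hi : Irr G V) {a b : ℕ} (ha : dser ⊤ a ≤ M.normalCore)
    (hb : dser ⊤ b ≤ kerA M W) : dser ⊤ (a + b) ≤ kerA G V := by
  intro g hg
  refine h.mem_ker hi (wreath (M := M) (χ := fun _ => ()) (D := ⊤) (fun _ => M)
    ((dser_mono le_top a).trans ha) (fun _ => ?_) (fun _ _ _ => rfl)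
    (fun g _ hc x => mem_normalCore.mp hc _) hg)
  have := map_mono (f := M.subtype) hb
  rwa [map_dser, ← MonoidHom.range_eq_map, range_subtype] at this

/-- Vectors with small stabilizers from colourings. -/
theorem exists_stab [Finite G] [Nontrivial W] (hi : Irr G V) {κ : Type*} {a b : ℕ}
    (hc : HasCol κ a M) (y : κ → W) (h1 : ∀ j j' (m : M), m • y j = y j' → j = j')
    (h2 : ∀ j, dser (MulAction.stabilizer M (y j)) b ≤ kerA M W) :
    ∃ v : V, dser (MulAction.stabilizer G v) (a + b) ≤ kerA G V := by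
  obtain ⟨χ, hχ1, hχ2⟩ := hc
  have e0 : ∀ x, χ (rep M x) = χ x := fun x => by
    rw [← hχ1 _ _ (rep_mem M x), mul_inv_cancel_left]
  obtain ⟨v, hv⟩ := h.exists_vec fun i => y (χ (Quotient.out i))
  replace hv : ∀ x, π ((rep M x)⁻¹ • v) = y (χ x) := fun x => (hv x).trans (congrArg y (e0 x))
  have key : ∀ g ∈ MulAction.stabilizer G v, ∀ x, ∃ m : M, g * rep M x = rep M (g * x) * m ∧
      m • y (χ x) = y (χ (g * x)) := by
    intro g hg x
    have hm : (rep M (g * x))⁻¹ * (g * rep M x) ∈ M := by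
      have := M.mul_mem (rep_mem M (g * x)) (M.inv_mem (rep_mem M x))
      simpa [mul_assoc] using this
    refine ⟨⟨_, hm⟩, by simp, ?_⟩
    rw [← hv, ← hv, ← h.eqv, ← mul_smul]
    simp [mul_smul, MulAction.mem_stabilizer_iff.mp hg]
  refine ⟨v, fun g hg => h.mem_ker hi (wreath (M := M) (D := MulAction.stabilizer G v)
    (fun j => (MulAction.stabilizer M (y j)).map M.subtype) hχ2
    (fun j => by rw [← map_dser]; exact map_mono (h2 j))
    (fun g hg x => ?_) (fun g hg hc x => ?_) hg)⟩
  · obtain ⟨m, -, e⟩ := key g hg x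
    exact (h1 _ _ m e).symm
  · obtain ⟨m, e1, e⟩ := key g hg x
    have e2 : rep M (g * x) = rep M x :=
      rep_eq (by simpa [mul_assoc] using mem_normalCore.mp (M.normalCore.inv_mem hc) x)
    rw [← h1 _ _ m e] at e
    refine ⟨m, e, ?_⟩
    rw [mul_assoc, e1, e2]
    simp

theorem three_le [Finite G] [Finite W] [Nontrivial W] (hi : Irr G V) (hM : M.index ≠ 1) :
    3 ≤ Nat.card W := by
  have h2 : 1 < Nat.card W := Finite.one_lt_card
  by_contra h3
  obtain ⟨w, hw, hu⟩ := (Nat.card_eq_two_iff' (0 : W)).mp (by omega)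
  obtain ⟨v, hv⟩ := h.exists_vec fun _ => w
  have k : ∀ x : G, π (x⁻¹ • v) = w := fun x =>
    hu _ (by rw [h.pi_rep, hv]; exact fun e => hw ((smul_eq_zero_iff_eq _).mp e))
  have fx : ∀ g : G, g • v = v := fun g => by
    rw [← sub_eq_zero]
    refine h.ext0 hi fun x => ?_
    have := k (g⁻¹ * x)
    rw [mul_inv_rev, inv_inv, mul_smul] at this
    rw [smul_sub, map_sub, k, this, sub_self]
  rcases hi (AddSubgroup.zmultiples v) (by
    rintro g _ ⟨n, rfl⟩
    exact ⟨n, by simp only [smul_comm g n v, fx]⟩) with e | e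
  · have := k 1
    rw [AddSubgroup.zmultiples_eq_bot.mp e, smul_zero, map_zero] at this
    exact hw this.symm
  · apply hM
    rw [index_eq_one, eq_top_iff]
    intro g _
    by_contra hg
    obtain ⟨n, hn⟩ : ι w ∈ AddSubgroup.zmultiples v := e ▸ trivial
    have := h.out g hg w
    replace hn : n • v = ι w := hn
    rw [← hn, smul_comm, fx, hn, h.left] at this
    exact hw this

end Blk
end

end Cfsg.Agent.SPG
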