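import Cfsg.Agent.Lib.SPG.PW
import Cfsg.Agent.Lib.Lin1.Count

/-!
# Quasi-primitive solvable linear groups transitive on nonzero vectors
-/

set_option autoImplicit false

namespace Cfsg.Agent.SPG

open Subgroup Cfsg.Agent.OO Cfsg.Agent.Mod MulAction
open scoped commutatorElement

universe u v

variable {G : Type u} {V : Type v} [Group G] [AddCommGroup V] [DistribMulAction G V]

theorem card_stab_smul (E : Subgroup G) [hn : E.Normal] (g : G) (v : V) :
    Nat.card (stabilizer E (g • v)) = Nat.card (stabilizer E v) :=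
  Nat.card_congr ((MulAut.conjNormal g⁻¹ : MulAut E).toEquiv.subtypeEquiv fun x => by
    change (x : G) • g • v = g • v ↔ (g⁻¹ * x * g⁻¹⁻¹) • v = v
    rw [inv_inv, mul_smul, mul_smul, inv_smul_eq_iff])

theorem sum_Fix [Fintype G] [Finite V] {σ : ℕ} (h : ∀ v : V, v ≠ 0 → Nat.card (stabilizer G v) = σ) :
    ∑ g : G, Nat.card (Fix V g) = Nat.card G + (Nat.card V - 1) * σ ∧
      Nat.card G ∣ (Nat.card V - 1) * σ := by
  classical
  haveI := Fintype.ofFinite V
  have e1 : ∑ g : G, Nat.card (Fix V g) = Nat.card G + (Nat.card V - 1) * σ := by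
    calc _ = ∑ g : G, ∑ v : V, if g • v = v then 1 else 0 := by
          refine Finset.sum_congr rfl fun g _ => ?_
          rw [← Finset.card_filter, ← Fintype.card_subtype, Nat.card_eq_fintype_card]
          exact Fintype.card_congr (Equiv.refl _)
      _ = ∑ v : V, Nat.card (stabilizer G v) := by
          rw [Finset.sum_comm]
          refine Finset.sum_congr rfl fun v _ => ?_
          rw [← Finset.card_filter, ← Fintype.card_subtype, Nat.card_eq_fintype_card]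
          exact Fintype.card_congr (Equiv.refl _)
      _ = _ := by
          rw [← Finset.add_sum_erase _ _ (Finset.mem_univ 0), Finset.sum_const_nat
            fun v hv => h v (Finset.ne_of_mem_erase hv), Finset.card_erase_of_mem (Finset.mem_univ _),
            Finset.card_univ, ← Nat.card_eq_fintype_card,
            show stabilizer G (0 : V) = ⊤ from eq_top_iff.mpr fun g _ => smul_zero g, card_top]
  refine ⟨e1, (Nat.dvd_add_right dvd_rfl).mp ?_⟩
  rw [← e1, Nat.card_eq_fintype_card]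
  haveI := Fintype.ofFinite (Quotient (orbitRel G V))
  refine Dvd.intro_left _ ((sum_card_fixedBy_eq_card_orbits_mul_card_group G V).symm.trans
    (Finset.sum_congr rfl fun g _ => ?_))
  rw [Nat.card_eq_fintype_card]
  exact Fintype.card_congr (Equiv.refl _)

namespace Str
variable [Finite G] [Finite V] {Z B : Subgroup G} {k d e : ℕ} (h : Str V Z B k d e)
include h

omit [Finite G] [Finite V] in
theorem cen {z b : G} (hz : z ∈ Z) (hb : b ∈ B) : Commute z b := h.sym.cen (h.sym.le2 hb) z hz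

omit [Finite G] [Finite V] in
theorem cm {a b : G} (ha : a ∈ B) (hb : b ∈ B) : ⁅a, b⁆ ∈ Z :=
  h.sym.comm (commutator_mem_commutator ha hb)

omit [Finite V] in
theorem comm_pow_eq {a b : G} (ha : a ∈ B) (hb : b ∈ B) {n : ℕ} (hn : b ^ n ∈ Z) :
    ⁅a, b⁆ ^ n = 1 := by
  rw [← h.comm_pow ha hb, commutatorElement_eq_one_iff_commute]
  exact (h.cen hn ha).symm

omit [Finite V] in
theorem exists_elt {r : ℕ} (hr : r.Prime) (he : r ∣ e) : ∃ b ∈ B, b ∉ Z ∧ b ^ r ∈ Z := by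
  haveI := Fact.mk hr
  haveI := h.sym.nU
  obtain ⟨_, ⟨b, hb, rfl⟩, ho⟩ := Core.exists_mem_orderOf_eq_of_dvd_card (p := r)
    (H := B.map (QuotientGroup.mk' Z)) (by
      rw [SLG.card_map_mk, h.sq]; exact he.trans (dvd_pow_self e two_ne_zero))
  refine ⟨b, hb, fun hz => hr.one_lt.ne' (by
    rw [← ho, orderOf_eq_one_iff]; exact (QuotientGroup.eq_one_iff b).mpr hz), ?_⟩
  rw [← QuotientGroup.eq_one_iff, ← QuotientGroup.mk'_apply, map_pow, ← ho, pow_orderOf_eq_one]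

omit [Finite V] in
theorem pow_sq_mem {b : G} (hb : b ∈ B) : b ^ e ^ 2 ∈ Z := by
  haveI := h.sym.nU
  rw [← QuotientGroup.eq_one_iff, ← QuotientGroup.mk'_apply, map_pow, ← h.sq, ← SLG.card_map_mk]
  exact orderOf_dvd_iff_pow_eq_one.mp (Subgroup.orderOf_dvd_natCard _ (mem_map_of_mem _ hb))

omit [Finite V] in
theorem sqf {r : ℕ} {b : G} (hb : b ∈ B) (h2 : (b ^ r) ^ r ∈ Z) : b ^ r ∈ Z := by
  let S : Set G := {x | ∃ b ∈ B, (b ^ r) ^ r ∈ Z ∧ b ^ r = x}
  have hS : Group.conjugatesOfSet S ⊆ S := by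
    intro y hy
    obtain ⟨_, ⟨b, hb, h2, rfl⟩, hy⟩ := Group.mem_conjugatesOfSet_iff.mp hy
    obtain ⟨g, rfl⟩ := isConj_iff.mp hy
    exact ⟨g * b * g⁻¹, h.sym.nA.conj_mem b hb g, by
      rw [conj_pow, conj_pow]; exact h.sym.nU.conj_mem _ h2 g, conj_pow⟩
  have hc : ∀ x ∈ S, ∀ y ∈ S, x * y = y * x := by
    rintro _ ⟨a, ha, h1, rfl⟩ _ ⟨b, hb, -, rfl⟩
    rw [← commutatorElement_eq_one_iff_mul_comm, h.comm_pow (pow_mem ha r) hb,
      ← commutatorElement_inv, inv_pow, h.comm_pow_eq hb (pow_mem ha r) h1, inv_one]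
  haveI := h.sym.nC
  refine h.sym.max (normalClosure S) inferInstance (normalClosure_le_normal ?_) ?_
    (subset_normalClosure ⟨b, hb, h2, rfl⟩)
  · rintro _ ⟨a, ha, -, rfl⟩
    exact h.sym.le2 (pow_mem ha r)
  · exact isMulCommutative_closure fun x hx y hy => hc x (hS hx) y (hS hy)

theorem not_dvd {r : ℕ} (hr : r.Prime) (he : r ∣ e) {v : V} (hv : v ≠ 0) : r • v ≠ 0 := by
  intro e0
  haveI := Fact.mk hr
  have h1 := (addOrderOf_eq_prime e0 hv) ▸ addOrderOf_dvd_natCard v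
  rw [h.card] at h1
  have h2 := (Nat.dvd_sub (hr.dvd_of_dvd_pow h1) (h.prime_lt hr he).1)
  have := h.two_le
  rw [show k - (k - 1) = 1 by omega] at h2
  exact hr.one_lt.ne' (Nat.dvd_one.mp h2)

omit [Finite V] in
theorem card_omega {r : ℕ} (hr : r.Prime) (hz : r ∣ ♯Z) {E : Subgroup G} (h1 : ∀ x ∈ E, x ^ r = 1)
    (h2 : ∀ z ∈ Z, z ^ r = 1 → z ∈ E) : Nat.card (Z.subgroupOf E) = r := by
  haveI := Fact.mk hr
  rw [← inf_subgroupOf_right, Nat.card_congr (subgroupOfEquivOfLe inf_le_right).toEquiv]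
  haveI := isCyclic_of_le' h.sym.cyc (inf_le_left : Z ⊓ E ≤ Z)
  obtain ⟨z, hz, ho⟩ := Core.exists_mem_orderOf_eq_of_dvd_card hz
  refine Nat.dvd_antisymm ?_ (ho ▸ Subgroup.orderOf_dvd_natCard _
    ⟨hz, h2 z hz (ho ▸ pow_orderOf_eq_one z)⟩)
  rw [← IsCyclic.exponent_eq_card]
  exact Monoid.exponent_dvd_of_forall_pow_eq_one fun b => Subtype.ext (h1 b b.2.2)

theorem not_trans_odd [Nontrivial V] {r : ℕ} (hr : r.Prime) (h2 : r ≠ 2) (he : r ∣ e)
    (tr : ∀ v w : V, v ≠ 0 → w ≠ 0 → ∃ g : G, g • v = w) : False := by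
  have mp : ∀ {a b : G}, a ∈ B → b ∈ B → a ^ r ∈ Z → (a * b) ^ r = a ^ r * b ^ r :=
    fun ha hb h1 => PGrp.mul_pow_of_odd (hr.odd_of_ne_two h2) (h.cen (h.cm hb ha) ha)
      (h.cen (h.cm hb ha) hb) (h.comm_pow_eq hb ha h1)
  let om : Subgroup G → Subgroup G := fun Y =>
    { carrier := {b | b ∈ B ∧ b ^ r ∈ Z ⊓ Y}
      mul_mem' := fun {a b} ha hb => ⟨mul_mem ha.1 hb.1, by
        rw [mp ha.1 hb.1 ha.2.1]; exact mul_mem ha.2 hb.2⟩
      one_mem' := ⟨one_mem _, by rw [one_pow]; exact one_mem _⟩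
      inv_mem' := fun {a} ha => ⟨inv_mem ha.1, by rw [inv_pow]; exact inv_mem ha.2⟩ }
  haveI := h.sym.nU
  have nm : ∀ Y : Subgroup G, Y.Normal → (om Y).Normal := fun Y hY => ⟨fun a ha g =>
    ⟨h.sym.nA.conj_mem a ha.1 g, by
      rw [conj_pow]; exact Normal.conj_mem inferInstance _ ha.2 g⟩⟩
  haveI := nm ⊥ inferInstance
  have hC : ∀ Y, om Y ≤ 𝐂(Z) := fun Y x hx => h.sym.le2 hx.1
  have ne : ¬ om ⊥ ≤ Z := by
    intro hle
    obtain ⟨b, hb, h3, h4⟩ := h.exists_elt hr he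
    let φ : om ⊤ →* Z := MonoidHom.mk' (fun x => ⟨x.1 ^ r, x.2.2.1⟩)
      fun a b => Subtype.ext (mp a.2.1 b.2.1 a.2.2.1)
    haveI := h.sym.cyc
    refine h3 (h.sym.max (om ⊤) (nm _ inferInstance) (hC _)
      (φ.isMulCommutative_of_isCyclic_of_ker_le_center fun x hx => ?_) ⟨hb, h4, trivial⟩)
    exact mem_center_iff.mpr fun y => Subtype.ext
      (h.cen (hle ⟨x.2.1, x.2.2.1, congrArg Subtype.val hx⟩) y.2.1).symm
  obtain ⟨v, hv⟩ := exists_ne (0 : V)
  refine Lin1.false_of_count (E := om ⊥) (V := V) hr h2 (Z := Z.subgroupOf (om ⊥))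
    (h.card_omega hr (h.prime_dvd hr he) (fun x hx => hx.2.2)
      fun z hz e => ⟨h.sym.le1 hz, e ▸ one_mem _⟩)
    (fun z hz => mem_center_iff.mpr fun y => Subtype.ext (h.cen hz y.2.1).symm)
    (fun z hz v e => (h.sr z hz v e).imp_left Subtype.ext) (fun g u => h.cm g.2.1 u.2.1)
    (fun u hu => ?_) (fun u => Subtype.ext u.2.2.2) (fun e => ne (subgroupOf_eq_top.mp e))
    ⟨v, h.not_dvd hr he hv⟩ (s := Nat.card (stabilizer (om ⊥) v)) fun w hw => ?_
  · by_contra! hc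
    exact hu (h.sym.toHyp.zc inferInstance (hC _) ⟨u.2, fun g hg =>
      congrArg Subtype.val (commutatorElement_eq_one_iff_mul_comm.mp (hc ⟨g, hg⟩))⟩)
  · obtain ⟨g, rfl⟩ := tr v w hv hw
    exact card_stab_smul _ g v

theorem exists_inv {n : ℕ} (he : e = 2 ^ (n + 2)) : ∃ u ∈ B, u ∉ Z ∧ u ^ 2 = 1 := by
  have sq : ∀ b ∈ B, b ^ 2 ∈ Z := fun b hb => by
    have : ∀ j, b ^ 2 ^ (j + 1) ∈ Z → b ^ 2 ∈ Z := fun j => by
      induction j with
      | zero => exact fun e => by simpa using e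
      | succ j ih =>
        refine fun e => ih ?_
        rw [pow_succ, pow_mul]
        exact h.sqf (pow_mem hb _) (by rwa [← pow_mul (b ^ 2 ^ j), ← pow_mul, ← mul_assoc, ← pow_succ,
          ← pow_succ])
    refine this ((n + 2) * 2 - 1) ?_
    rw [Nat.sub_add_cancel (by omega), pow_mul, ← he]
    exact h.pow_sq_mem hb
  obtain ⟨L, l1, ⟨l2, l3⟩, l4⟩ := Core.exists_maximal_ge
    (P := fun L : Subgroup G => L ≤ B ∧ Ab L) (H := Z) ⟨h.sym.le1, ab_of_isCyclic h.sym.cyc⟩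
  have e1 : B ⊓ 𝐂(L) = L := by
    refine le_antisymm (fun x hx => ?_) (le_inf l2 (Ab.le_cent l3))
    exact (l4 (L ⊔ zpowers x) ⟨sup_le l2 (zpowers_le.2 hx.1), ab_sup l3 inferInstance
      (le_cent_symm (zpowers_le.2 hx.2))⟩ le_sup_left).le (mem_sup_right (mem_zpowers x))
  have e2 : 𝐂(B) ⊓ L = Z := le_antisymm
    ((le_inf (inf_le_right.trans l2) inf_le_left).trans h.sym.zc)
    (le_inf (le_cent_symm (h.sym.le2.trans h.sym.cen)) l1)
  have e3 := h.sym.toHyp.symm h.sym.le2 (l2.trans h.sym.le2)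
    ((commutator_mono le_rfl l2).trans h.sym.comm)
  rw [← inf_relIndex_right, inf_comm, e1, ← inf_relIndex_right 𝐂(B), e2] at e3
  have e4 := relIndex_mul_relIndex _ _ _ l1 l2
  rw [e3, h.sq, ← pow_two, he] at e4
  replace e4 := Nat.pow_left_injective two_ne_zero e4
  by_contra! hc
  let φ : L →* Z := MonoidHom.mk' (fun x => ⟨x.1 ^ 2, sq _ (l2 x.2)⟩) fun a b =>
    Subtype.ext (Commute.mul_pow (ab_iff.mp l3 _ a.2 _ b.2) 2)
  have k1 : φ.ker.map L.subtype ≤ Z ⊓ Core.powKer L l3 2 := by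
    rintro _ ⟨x, hx, rfl⟩
    have := congrArg Subtype.val hx
    exact ⟨by_contra fun hz => hc _ (l2 x.2) hz this, x.2, this⟩
  have k2 := card_le k1
  rw [card_map_of_injective L.subtype_injective, ← Nat.card_congr
    (subgroupOfEquivOfLe inf_le_right).toEquiv, inf_subgroupOf_right,
    h.card_omega (E := Core.powKer L l3 2) Nat.prime_two (h.prime_dvd Nat.prime_two (he ▸ dvd_pow_self 2 (by omega))) (fun x hx => hx.2)
    fun z hz e => ⟨l1 hz, e⟩] at k2
  have k3 := φ.ker.card_mul_index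
  have k4 : φ.ker.index ≤ ♯Z := by rw [index_ker]; exact card_le_card_group _
  have k5 := card_mul_relIndex l1
  have k6 := Nat.mul_le_mul k2 k4
  rw [k3, ← k5, e4, pow_add] at k6
  have := card_pos' Z
  have : 0 < 2 ^ n := by positivity
  nlinarith

theorem not_trans_two [Nontrivial V] {n : ℕ} (he : e = 2 ^ (n + 3))
    (tr : ∀ v w : V, v ≠ 0 → w ≠ 0 → ∃ g : G, g • v = w) : False := by
  classical
  have h2 : 2 ∣ e := he ▸ dvd_pow_self 2 (by omega)
  obtain ⟨u, hu, huZ, u2⟩ := h.exists_inv (n := n + 1) he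
  obtain ⟨v, hv⟩ := exists_ne (0 : V)
  have hA : Ab (Z ⊔ zpowers u : Subgroup G) := ab_sup (ab_of_isCyclic h.sym.cyc) inferInstance
    (le_cent_symm (zpowers_le.mpr (h.sym.le2 hu)))
  have hE : Core.powKer _ hA 2 ≤ B :=
    (Core.powKer_le _ _ _).trans (sup_le h.sym.le1 (zpowers_le.mpr hu))
  obtain ⟨w, hw, v, hv, ew⟩ := Lin1.exists_fixed (E := Core.powKer _ hA 2) (V := V) Nat.prime_two
    (Z := Z.subgroupOf _) (h.card_omega Nat.prime_two (h.prime_dvd Nat.prime_two h2)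
      (fun x hx => hx.2) fun z hz e => ⟨mem_sup_left hz, e⟩)
    (fun z hz => mem_center_iff.mpr fun y => Subtype.ext (h.cen hz (hE y.2)).symm)
    (fun z hz v e => (h.sr z hz v e).imp_left Subtype.ext) (fun u => Subtype.ext u.2.2)
    ⟨u, mem_sup_right (mem_zpowers u), u2⟩ (h.not_dvd Nat.prime_two h2 hv)
  haveI := h.sym.nA
  haveI := Fintype.ofFinite B
  have s2 : 1 < Nat.card (stabilizer B v) := (one_lt_card_iff_ne_bot _).mpr fun e0 => by
    have : (⟨u * w, mul_mem hu (hE w.2)⟩ : B) ∈ stabilizer B v := ew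
    rw [e0, mem_bot, Subtype.ext_iff] at this
    replace this : u * w = 1 := this
    exact huZ ((Z.mul_mem_cancel_right hw).mp (this ▸ Z.one_mem : u * w ∈ Z))
  obtain ⟨s3, s4⟩ := sum_Fix (G := B) (V := V) (σ := Nat.card (stabilizer B v)) fun w hw => by
    obtain ⟨g, rfl⟩ := tr v w hv hw
    exact card_stab_smul _ g v
  have s5 : ∑ g : B, Nat.card (Fix V g) ≤ Nat.card V + (♯B - 1) * Nat.sqrt (Nat.card V) := by
    rw [← Finset.add_sum_erase _ _ (Finset.mem_univ 1)]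
    refine Nat.add_le_add (AddSubgroup.card_le_card_addGroup _) ?_
    refine (Finset.sum_le_card_nsmul _ _ _ fun b hb => Nat.le_sqrt'.mpr (h.half_B b.2
      fun e => Finset.ne_of_mem_erase hb (Subtype.ext e))).trans_eq ?_
    rw [Finset.card_erase_of_mem (Finset.mem_univ _), Finset.card_univ, ← Nat.card_eq_fintype_card,
      smul_eq_mul]
  rw [s3] at s5
  have t1 := h.card_B
  have t2 := h.card_lt
  have t3 := h.pow_le
  have t4 := h.card
  have t5 := h.three_le (by rw [he]; exact (Nat.one_lt_two_pow (by omega)).ne')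
  have t6 := h.le
  have t7 := Nat.sqrt_le' (Nat.card V)
  have t8 := Nat.lt_succ_sqrt' (Nat.card V)
  have t9 := card_pos' B
  have t10 := h.prime_dvd Nat.prime_two h2
  generalize Nat.card (stabilizer B v) = σ at *
  generalize Nat.sqrt (Nat.card V) = s at *
  generalize Nat.card V = N at *
  generalize ♯B = β at *
  generalize ♯Z = z at *
  have e8 : 8 ≤ e := (Nat.pow_le_pow_right two_pos (by omega : 3 ≤ n + 3)).trans he.ge
  have n1 : 3 ^ 8 ≤ N := ((Nat.pow_le_pow_right (by norm_num) e8).trans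
    (Nat.pow_le_pow_left t5 e)).trans t3
  have n2 : 2 ≤ s := by nlinarith
  obtain ⟨σ, rfl⟩ : ∃ τ, σ = τ + 1 := ⟨σ - 1, by omega⟩
  obtain ⟨β, rfl⟩ : ∃ τ, β = τ + 1 := ⟨β - 1, by omega⟩
  obtain ⟨N, rfl⟩ : ∃ τ, N = τ + 1 := ⟨N - 1, by omega⟩
  obtain ⟨s, rfl⟩ : ∃ τ, s = τ + 1 := ⟨s - 1, by omega⟩
  simp only [Nat.add_sub_cancel] at s4 s5
  have n3 : σ * (s + 2) ≤ β := Nat.le_of_mul_le_mul_right (by nlinarith) (by omega : 0 < s)
  have n4 : σ ^ 2 * (N + 1) < (z * e ^ 2) ^ 2 := by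
    calc _ ≤ σ ^ 2 * (s + 2) ^ 2 := Nat.mul_le_mul_left _ t8.le
      _ = (σ * (s + 2)) ^ 2 := by ring
      _ < _ := Nat.pow_lt_pow_left (by omega) two_ne_zero
  have n5 : N + 1 ≤ σ ^ 2 * (N + 1) := Nat.le_mul_of_pos_left _ (pow_pos (by omega) 2)
  have n6 : ∀ c, 0 < c → c ≤ k → c ^ e < c ^ 2 * e ^ 4 := fun c h0 hc => by
    obtain ⟨m, hm⟩ : ∃ m, e = 2 + m := ⟨e - 2, by omega⟩
    have n7 : k ^ 2 * k ^ m < k ^ 2 * e ^ 4 := by
      rw [← pow_add, ← hm]
      calc _ < (z * e ^ 2) ^ 2 := by omega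
        _ ≤ (k * e ^ 2) ^ 2 := by gcongr
        _ = _ := by ring
    have n8 := (Nat.pow_le_pow_left hc m).trans_lt (Nat.lt_of_mul_lt_mul_left n7)
    nth_rewrite 1 [hm]
    rw [pow_add]
    exact Nat.mul_lt_mul_of_pos_left n8 (by positivity)
  rcases Nat.eq_zero_or_pos n with rfl | hn
  · subst he
    rcases (by omega : k = 3 ∨ 4 ≤ k) with rfl | h4
    · obtain rfl : z = 2 := by omega
      have hd : d ≤ 8 := by
        by_contra hc
        have := Nat.pow_le_pow_right (by norm_num : 0 < 3) (by omega : 9 ≤ d)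
        omega
      obtain rfl : d = 8 := by omega
      obtain rfl : N = 6560 := by omega
      have : σ < 2 := by
        by_contra hc
        have := Nat.pow_le_pow_left (not_lt.mp hc) 2
        omega
      obtain rfl : σ = 1 := by omega
      rw [t1] at s4
      norm_num at s4
    · have := n6 4 (by norm_num) h4
      norm_num at this
  · have := pow_growth (N := 16) (j := 4) (R := 3) (C := 9) (s := 1) (by norm_num) (by norm_num)
      (by norm_num) ((Nat.pow_le_pow_right two_pos (by omega : 4 ≤ n + 3)).trans he.ge)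
    have := n6 3 (by norm_num) t5
    omega

theorem not_trans [Nontrivial V] (h1 : e ≠ 1) (h2 : e ≠ 2) (h4 : e ≠ 4) :
    ∃ v w : V, v ≠ 0 ∧ w ≠ 0 ∧ ∀ g : G, g • v ≠ w := by
  by_contra! tr
  obtain ⟨n, m, hm, he⟩ := Nat.exists_eq_two_pow_mul_odd h.pos.ne'
  by_cases h3 : m = 1
  · rw [h3, mul_one] at he
    rcases n with _ | _ | _ | n
    · exact h1 he
    · exact h2 he
    · exact h4 he
    · exact h.not_trans_two he tr
  · refine h.not_trans_odd (Nat.minFac_prime h3) (fun e => ?_)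
      (he ▸ (Nat.minFac_dvd m).mul_left _) tr
    exact (Nat.not_even_iff_odd.mpr hm) (even_iff_two_dvd.mpr (e ▸ Nat.minFac_dvd m))

end Str

end Cfsg.Agent.SPG
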