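import Cfsg.Agent.Lib.SPG.Gen

/-!
# Solvable linear groups of odd order in odd characteristic
-/

set_option autoImplicit false

namespace Cfsg.Agent.SPG

open Subgroup Cfsg.Agent.OO Cfsg.Agent.Mod MulAction
open scoped commutatorElement

universe u v

section
variable {G : Type u} {V : Type v} [Group G] [AddCommGroup V] [DistribMulAction G V]

theorem odd_pow_cases {w t : ℕ} (hw : Odd (w ^ t)) (h2 : 2 ≤ w) (ht : Odd t) (h1 : t ≠ 1)
    (h : w ^ t < 343) : w ^ t = 27 ∨ w ^ t = 125 ∨ w ^ t = 243 := by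
  rw [Nat.odd_pow_iff ht.pos.ne', Nat.odd_iff] at hw
  rw [Nat.odd_iff] at ht
  have h3 : t < 6 := by
    by_contra hc
    have := (Nat.pow_le_pow_right (by norm_num) (not_lt.mp hc)).trans
      (Nat.pow_le_pow_left (by omega : 3 ≤ w) t)
    omega
  have h4 : w < 7 := by
    by_contra hc
    have := (Nat.pow_le_pow_left (not_lt.mp hc) 3).trans
      (Nat.pow_le_pow_right (by omega) (by omega : 3 ≤ t))
    omega
  interval_cases w <;> interval_cases t <;> simp_all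

namespace Str
variable [Finite G] [Finite V] {Z B : Subgroup G} {k d e : ℕ} (h : Str V Z B k d e)
  (ho : Odd (Nat.card G)) (hV : Odd (Nat.card V))
include h

include ho in
theorem odd_e : Odd e := by
  rw [h.card_G] at ho
  exact (Nat.odd_pow_iff two_ne_zero).mp
    (Nat.odd_mul.mp (Nat.odd_mul.mp (Nat.odd_mul.mp ho).1).1).2

include hV in
theorem odd_k : Odd k := by
  rw [h.card] at hV
  exact (Nat.odd_pow_iff (h.pos.trans_le h.le).ne').mp hV

include ho hV in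
theorem two_mul_le : 2 * ♯Z ≤ k - 1 := by
  have h1 := h.two_le
  refine Nat.le_of_dvd (by omega) (Nat.Coprime.mul_dvd_of_dvd_of_dvd ?_ ?_ h.dvd)
  · exact Nat.coprime_two_left.mpr (ho.of_dvd_nat (card_subgroup_dvd_card Z))
  · have := Nat.odd_iff.mp (h.odd_k hV)
    omega

include hV in
theorem two_mul_lt {r : ℕ} (hr : r.Prime) (h2 : r ≠ 2) (he : r ∣ e) : 2 * r < k := by
  have h1 := h.two_le
  have := Nat.odd_iff.mp (h.odd_k hV)
  have := Nat.le_of_dvd (by omega) (Nat.Coprime.mul_dvd_of_dvd_of_dvd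
    ((Nat.coprime_primes Nat.prime_two hr).mpr h2.symm) (by omega) (h.prime_lt hr he).1)
  omega

include ho hV in
theorem seven_le (he : e ≠ 1) : 7 ≤ k ∧ 3 ≤ e := by
  have h1 := h.odd_e ho
  have h2 : e.minFac ≠ 2 := fun e2 =>
    (Nat.not_even_iff_odd.mpr h1) (even_iff_two_dvd.mpr (e2 ▸ Nat.minFac_dvd e))
  have := h.two_mul_lt hV (Nat.minFac_prime he) h2 (Nat.minFac_dvd e)
  have := (Nat.minFac_prime he).two_le
  rw [Nat.odd_iff] at h1
  omega

include hV in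
theorem gal_num : 3 * 𝐂(Z).index ^ 2 ≤ 4 * k := by
  obtain ⟨c, h1, h2⟩ := h.gal
  have h3 := h.odd_k hV
  have h4 : 𝐂(Z).index ≠ 0 := index_ne_zero_of_finite
  rw [h2, Nat.odd_pow_iff h4, Nat.odd_iff] at h3
  have h5 := h2 ▸ Nat.pow_le_pow_left (by omega : 3 ≤ c) 𝐂(Z).index
  generalize 𝐂(Z).index = a at *
  rcases (by omega : a = 1 ∨ 2 ≤ a) with rfl | h6
  · omega
  · have := pow_growth (N := 2) (j := 2) (R := 3) (C := 3) (s := 4) (by norm_num) (by norm_num)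
      (by norm_num) h6
    omega

include ho in
theorem third {b : G} (hb : b ∈ B) (h1 : b ≠ 1) : Nat.card (Fix V b) ^ 3 ≤ Nat.card V := by
  by_cases hz : b ∈ Z
  · rw [h.Fix_eq hz h1, AddSubgroup.card_bot, one_pow]
    exact Nat.card_pos
  obtain ⟨x, hx, h2, h3⟩ := h.exists_comm hb hz
  have f1 : ∀ a : V, ⁅x, b⁆ • a = a → a = 0 := fun a e => (h.sr _ h2 a e).resolve_left h3
  have f2 : ∀ a : V, (⁅x, b⁆ * ⁅x, b⁆) • a = a → a = 0 := fun a e =>
    (h.sr _ (mul_mem h2 h2) a e).resolve_left fun e => h3 (by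
      rw [← orderOf_eq_one_iff]
      exact Nat.Coprime.eq_one_of_dvd (Nat.coprime_two_right.mpr
        (ho.of_dvd_nat (orderOf_dvd_natCard _))) (orderOf_dvd_of_pow_eq_one ((pow_two _).trans e)))
  have e1 : x * b = ⁅x, b⁆ * b * x := by simp [commutatorElement_def]
  have e2 : x * (⁅x, b⁆ * b) = ⁅x, b⁆ * ⁅x, b⁆ * b * x := by
    rw [← mul_assoc, ← (h.cen h2 hx).eq, mul_assoc, e1]
    simp only [mul_assoc]
  have c1 : ∀ a : V, b • a = a → (⁅x, b⁆ * b) • x • a = x • a := fun a e => by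
    rw [← mul_smul, ← e1, mul_smul, e]
  rw [pow_three, ← Nat.card_prod, ← Nat.card_prod]
  refine Nat.card_le_card_of_injective
    (fun p : Fix V b × Fix V b × Fix V b => (p.1 : V) + x • (p.2.1 : V) + x • x • (p.2.2 : V)) ?_
  rintro ⟨a1, a2, a3⟩ ⟨b1, b2, b3⟩ e
  obtain ⟨k1, k2, k3⟩ := Lin1.indep (h.cen h2 hb).symm f1 f2 (a1 - b1).2 (c1 _ (a2 - b2).2)
    (c := x • x • ((a3 - b3 : Fix V b) : V))
    (by rw [← mul_smul, ← e2, mul_smul, c1 _ (a3 - b3).2]) (by
      simp only [AddSubgroup.coe_sub, smul_sub] at e ⊢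
      rw [← sub_eq_zero.mpr e]
      abel)
  simp only [smul_eq_zero_iff_eq, ZeroMemClass.coe_eq_zero, sub_eq_zero] at k1 k2 k3
  rw [k1, k2, k3]

include ho in
theorem two_third {g : G} (hg : g ∈ 𝐂(Z)) (h1 : g ≠ 1) :
    Nat.card (Fix V g) ^ 3 ≤ Nat.card V ^ 2 := by
  have h0 : 0 < Nat.card V := Nat.card_pos
  by_cases hb : g ∈ B
  · exact (h.third ho hb h1).trans (Nat.le_self_pow two_ne_zero _)
  · obtain ⟨x, -, h2, h3⟩ := h.exists_comm' hg hb
    have e1 := Nat.pow_le_pow_left (Fix_sq_le (V := V) g x) 3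
    have e2 := h.third ho h2 fun e => h3 (e ▸ Z.one_mem)
    refine (Nat.pow_le_pow_iff_left two_ne_zero).mp ?_
    calc _ = (Nat.card (Fix V g) ^ 2) ^ 3 := by ring
      _ ≤ _ := e1
      _ ≤ Nat.card V ^ 3 * Nat.card V := by rw [mul_pow]; exact Nat.mul_le_mul_left _ e2
      _ = _ := by ring

end Str

theorem odd_of_surj {H : Type*} [Group H] {M : Subgroup G} (ho : Odd (Nat.card G)) {f : M →* H}
    (hf : Function.Surjective f) : Odd (Nat.card H) :=
  ho.of_dvd_nat ((card_dvd_of_surjective f hf).trans (card_subgroup_dvd_card M))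

theorem odd_small [Finite G] [Group.IsSolvable G] [Finite V] [Nontrivial V] (hi : Irr G V)
    (ho : Odd (Nat.card G)) (hV : Odd (Nat.card V)) (h1 : Nat.card V < 343) (h2 : Nat.card V ≠ 27)
    (h3 : Nat.card V ≠ 125) (h4 : Nat.card V ≠ 243) :
    dser ⊤ 1 ≤ kerA G V ∧ 2 * (kerA G V).index ≤ Nat.card V - 1 := by
  obtain ⟨M, W, _, _, _, _, ι, π, H, _, _, _, _, _, f, Z, B, k, d, e, hb, hf, ef, h, c1, c2⟩ :=
    exists_data hi
  have k2 : 2 ≤ k ^ d := h.card ▸ Finite.one_lt_card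
  have hM : M.index = 1 := by
    by_contra hc
    have := odd_pow_cases (c2 ▸ hV) k2 (ho.of_dvd_nat M.index_dvd_card) hc (c2 ▸ h1)
    omega
  rw [hM, pow_one] at c2
  have oH := odd_of_surj ho hf
  have oW : Odd (Nat.card W) := by rwa [h.card, ← c2]
  obtain rfl : e = 1 := by
    by_contra hc
    obtain ⟨k7, e3⟩ := h.seven_le oH oW hc
    have := ((Nat.pow_le_pow_left k7 3).trans (Nat.pow_le_pow_right (by omega) e3)).trans h.pow_le
    rw [h.card] at this
    omega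
  have ha : 𝐂(Z).index = 1 := by
    by_contra hc
    obtain ⟨c, a1, a2⟩ := h.gal
    rw [a2, ← pow_mul, mul_comm, pow_mul] at c2
    have := odd_pow_cases (c2 ▸ hV) (a1.trans (Nat.le_self_pow (one_pos.trans_le h.le).ne' c))
      (oH.of_dvd_nat 𝐂(Z).index_dvd_card) hc (c2 ▸ h1)
    omega
  have hZ : ⊤ ≤ Z := (index_eq_one.mp ha).ge.trans h.B_eq
  have hc : M.normalCore = ⊤ := by rw [index_eq_one.mp hM, normalCore_eq_self]
  refine ⟨hb.dser_le hi (a := 0) (b := 1) hc.ge (dser_pull (D' := ⊤) ef le_top ?_), ?_⟩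
  · exact (commutator_mono hZ hZ).trans
      ((commutator_eq_bot_iff.mpr (Ab.le_cent (ab_of_isCyclic h.sym.cyc))).trans_le bot_le)
  · have l1 := hb.index_le hi
    rw [hc, index_top, hM, c1, h.card_G, h.relIndex_one rfl, ha] at l1
    have := h.two_mul_le oH oW
    have := h.pow_le
    rw [h.card, ← c2, pow_one] at this
    simp only [pow_one, one_pow, mul_one, one_mul] at l1
    omega

end

def PO (n : ℕ) : Prop := ∀ (G V : Type u) [Group G] [Finite G] [Group.IsSolvable G]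
  [AddCommGroup V] [Finite V] [DistribMulAction G V], CR G V → Nat.card V = n → 2 ≤ n →
    Odd (Nat.card G) → Odd n → 3 * (kerA G V).index ^ 2 ≤ n ^ 3

theorem dixon_odd (t : ℕ) (h : ∀ m ≤ t, PO.{u} m) : ∀ (G : Type u) [Group G] [Finite G]
    [Group.IsSolvable G] (L : Subgroup G), Odd (Nat.card G) → L.index = t →
    3 * L.normalCore.index ^ 2 ≤ 3 ^ t := by
  induction t using Nat.strong_induction_on with
  | _ t ih =>
  intro G _ _ _ L ho hL
  by_cases h1 : L = ⊤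
  · rw [← hL, h1, normalCore_eq_self, index_top]
    rfl
  obtain ⟨M, h2, h3⟩ := exists_coatom h1
  obtain ⟨V, _, _, _, _, τ, r, -, -, ha, hi⟩ := exists_aff h3
  have e1 := relIndex_mul_index h2.le
  have e2 := index_lt_of_lt h2
  rw [relIndex, ha.index_eq, hL] at e1
  have e3 := Finite.one_lt_card (α := V)
  have e5 : Nat.card V ≤ t :=
    Nat.le_of_dvd (hL ▸ Nat.pos_of_ne_zero index_ne_zero_of_finite) ⟨_, e1.symm⟩
  have oM : Odd ♯M := ho.of_dvd_nat (card_subgroup_dvd_card M)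
  have oV : Odd (Nat.card V) := oM.of_dvd_nat (ha.index_eq ▸ index_dvd_card _)
  have l1 := ih _ (hL ▸ e2) (fun m hm => h m (by omega)) G M ho rfl
  have l2 : 3 * (L.subgroupOf M).normalCore.index ^ 2 ≤ 3 ^ Nat.card V := by
    rw [ha.index_core]
    by_cases h9 : Nat.card V ≤ 9
    · have p1 := (odd_small hi oM oV (by omega) (by omega) (by omega) (by omega)).2
      have p2 := Nat.odd_iff.mp (oM.of_dvd_nat (kerA M V).index_dvd_card)
      rw [Nat.odd_iff] at oV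
      generalize (kerA M V).index = x at *
      generalize Nat.card V = m at *
      have : x ≤ 4 := by omega
      interval_cases m <;> interval_cases x <;> simp_all
    · have p1 := h _ e5 M V hi.cr rfl e3 oM oV
      rw [Nat.odd_iff] at oV
      have := pow_growth (N := 11) (j := 5) (R := 3) (C := 1) (s := 1) (by norm_num) (by norm_num)
        (by norm_num) (by omega : 11 ≤ Nat.card V)
      calc _ = Nat.card V ^ 2 * (3 * (kerA M V).index ^ 2) := by ring
        _ ≤ Nat.card V ^ 2 * Nat.card V ^ 3 := Nat.mul_le_mul_left _ p1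
        _ = 1 * Nat.card V ^ 5 := by ring
        _ ≤ _ := this.trans_eq (one_mul _)
  calc _ ≤ 3 * (M.normalCore.index * (L.subgroupOf M).normalCore.index ^ M.index) ^ 2 := by
        gcongr
        exact index_core_le L M
    _ = 3 * M.normalCore.index ^ 2 * ((L.subgroupOf M).normalCore.index ^ 2) ^ M.index := by ring
    _ ≤ 3 ^ M.index * ((L.subgroupOf M).normalCore.index ^ 2) ^ M.index := by gcongr
    _ ≤ (3 ^ Nat.card V) ^ M.index := by rw [← mul_pow]; exact Nat.pow_le_pow_left l2 _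
    _ = _ := by rw [← pow_mul, e1]

theorem po_num {z a x k d e : ℕ} (hz : 2 * z ≤ k) (ha : 3 * a ^ 2 ≤ 4 * k) (h0 : 0 < e)
    (hd : e ≤ d) (hk : 0 < k) (h1 : e = 1 → x = 1) (h3 : e ≠ 1 → 3 * x ^ 2 ≤ (e ^ 2) ^ 3)
    (h4 : e ≠ 1 → 7 ≤ k ∧ 3 ≤ e) : 3 * (z * e ^ 2 * x * a) ^ 2 ≤ (k ^ d) ^ 3 := by
  refine le_trans ?_ (Nat.pow_le_pow_left (Nat.pow_le_pow_right hk hd) 3)
  have a1 : 3 * (z * a) ^ 2 ≤ k ^ 3 := by
    refine Nat.le_of_mul_le_mul_left ?_ (by norm_num : 0 < 4)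
    calc _ = (2 * z) ^ 2 * (3 * a ^ 2) := by ring
      _ ≤ k ^ 2 * (4 * k) := by gcongr
      _ = _ := by ring
  by_cases e1 : e = 1
  · subst e1
    simpa [h1 rfl] using a1
  obtain ⟨k7, e3⟩ := h4 e1
  have a2 := pow_growth (N := 3) (j := 10) (R := 7 ^ 3) (C := 7 ^ 3) (s := 3) (by norm_num)
    (by norm_num) (by norm_num) e3
  obtain ⟨m, hm⟩ : ∃ m, e = 1 + m := ⟨e - 1, by omega⟩
  have a3 : ∀ c : ℕ, (c ^ 3) ^ e = c ^ 3 * (c ^ 3) ^ m := fun c => by rw [hm, pow_add, pow_one]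
  rw [a3, mul_left_comm] at a2
  replace a2 := (Nat.le_of_mul_le_mul_left a2 (by norm_num)).trans
    (Nat.mul_le_mul_left 3 (Nat.pow_le_pow_left (Nat.pow_le_pow_left k7 3) m))
  rw [← pow_mul, mul_comm e, pow_mul, a3]
  refine Nat.le_of_mul_le_mul_left ?_ (by norm_num : 0 < 3)
  calc _ = 3 * (z * a) ^ 2 * (e ^ 4 * (3 * x ^ 2)) := by ring
    _ ≤ k ^ 3 * (e ^ 4 * (e ^ 2) ^ 3) := Nat.mul_le_mul a1 (Nat.mul_le_mul_left _ (h3 e1))
    _ = k ^ 3 * e ^ 10 := by ring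
    _ ≤ k ^ 3 * (3 * (k ^ 3) ^ m) := Nat.mul_le_mul_left _ a2
    _ = _ := by ring

theorem po (n : ℕ) : PO.{u} n := by
  induction n using Nat.strong_induction_on with
  | _ n ih =>
  intro G V _ _ _ _ _ _ hc hV h2 ho hn
  by_cases hi : Irr G V
  swap
  · obtain ⟨W, W', _, _, _, _, _, _, ι, ι', i1, i2, e1, e2, c1, c2, c3, hk, -⟩ := hc.split hi
    rw [hV] at c3
    have o := Nat.odd_mul.mp (c3 ▸ hn)
    have l1 := ih _ (by nlinarith) G W (hc.of_inj i1 e1) rfl c1 ho o.1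
    have l2 := ih _ (by nlinarith) G W' (hc.of_inj i2 e2) rfl c2 ho o.2
    have l3 := (Nat.le_of_dvd (Nat.pos_of_ne_zero index_ne_zero_of_finite)
      (index_dvd_of_le hk)).trans index_inf_le
    calc _ ≤ 3 * ((kerA G W).index * (kerA G W').index) ^ 2 := by gcongr
      _ ≤ 3 * (kerA G W).index ^ 2 * (3 * (kerA G W').index ^ 2) := by nlinarith
      _ ≤ _ := by rw [c3, mul_pow]; exact Nat.mul_le_mul l1 l2
  haveI : Nontrivial V := Finite.one_lt_card_iff_nontrivial.mp (by omega)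
  obtain ⟨M, W, _, _, _, _, ι, π, H, _, _, _, _, _, f, Z, B, k, d, e, hb, hf, -, h, c1, c2⟩ :=
    exists_data hi
  have h0 : M.index ≠ 0 := index_ne_zero_of_finite
  have k2 : 2 ≤ k ^ d := h.card ▸ Finite.one_lt_card
  have l1 := hb.index_le hi
  have l2 := dixon_odd M.index (fun m hm => ih m (hm.trans_lt (by
    rw [← hV, c2]; exact Nat.lt_pow_self k2))) G M ho rfl
  have oH := odd_of_surj ho hf
  have oW : Odd (Nat.card W) := by
    rwa [← hV, c2, Nat.odd_pow_iff h0, ← h.card] at hn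
  have l3 : 3 * Nat.card H ^ 2 ≤ (k ^ d) ^ 3 := by
    rw [h.card_G]
    refine po_num ((h.two_mul_le oH oW).trans (Nat.sub_le _ _)) (h.gal_num oW) h.pos h.le
      (two_pos.trans_le h.two_le) h.relIndex_one (fun he => ?_) (h.seven_le oH oW)
    obtain ⟨U, _, _, _, u1, u2, u3, -⟩ := h.exists_mod
    refine le_trans ?_ (ih _ ((h.sq_lt he).trans_le ?_) H U u1 u2 (by
      have := (h.seven_le oH oW he).2
      nlinarith) oH (h.odd_e oH).pow)
    · rw [Str.relIndex_le u3 le_rfl]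
      gcongr
      exact relIndex_le_of_le_right le_top index_ne_zero_of_finite |>.trans_eq
        (relIndex_top_right _)
    · rw [← hV, c2]
      exact Nat.le_self_pow h0 _
  rw [c1] at l1
  rw [← hV, c2]
  calc _ ≤ 3 * (M.normalCore.index * Nat.card H ^ M.index) ^ 2 := by gcongr
    _ = 3 * M.normalCore.index ^ 2 * (Nat.card H ^ 2) ^ M.index := by ring
    _ ≤ 3 ^ M.index * (Nat.card H ^ 2) ^ M.index := by gcongr
    _ ≤ ((k ^ d) ^ 3) ^ M.index := by rw [← mul_pow]; exact Nat.pow_le_pow_left l3 _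
    _ = _ := by rw [← pow_mul, mul_comm, pow_mul]

theorem odd_ab {G : Type u} [Group G] [Finite G] [Group.IsSolvable G] (ho : Odd (Nat.card G))
    (n : ℕ) : ∀ (V : Type v) [AddCommGroup V] [Finite V] [DistribMulAction G V], CR G V →
    Nat.card V = n → n < 343 → Odd n → (∀ W : AddSubgroup V, Inv G W → IsSquare (Nat.card W)) →
    dser ⊤ 1 ≤ kerA G V := by
  induction n using Nat.strong_induction_on with
  | _ n ih =>
  intro V _ _ _ hc hV h1 hn hs
  rcases subsingleton_or_nontrivial V with h0 | h0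
  · exact fun g _ => mem_kerA.mpr fun _ => Subsingleton.elim _ _
  by_cases hi : Irr G V
  · have := hs ⊤ fun _ _ _ => trivial
    rw [AddSubgroup.card_top] at this
    refine (odd_small hi ho (hV ▸ hn) (hV ▸ h1) ?_ ?_ ?_).1 <;>
      exact fun e => absurd (e ▸ this) (by norm_num)
  obtain ⟨W, W', _, _, _, _, _, _, ι, ι', i1, i2, e1, e2, c1, c2, c3, hk, -⟩ := hc.split hi
  rw [hV] at c3
  have o := Nat.odd_mul.mp (c3 ▸ hn)
  have l1 : Nat.card W < n := by nlinarith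
  have l2 : Nat.card W' < n := by nlinarith
  refine (le_inf (ih _ l1 W (hc.of_inj i1 e1) rfl (by omega) o.1 fun U hU => ?_)
    (ih _ l2 W' (hc.of_inj i2 e2) rfl (by omega) o.2 fun U hU => ?_)).trans hk
  · exact AddSubgroup.card_map_of_injective i1 ▸ hs _ (inv_map e1 hU)
  · exact AddSubgroup.card_map_of_injective i2 ▸ hs _ (inv_map e2 hU)

theorem odd_num1 {z k e N F : ℕ} (hz : 2 * z ≤ k) (hk : 7 ≤ k) (he : 3 ≤ e) (hN : k ^ e ≤ N)
    (hF : F ^ 3 ≤ N) : z * e ^ 2 * F < N := by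
  have a2 := pow_growth (N := 3) (j := 6) (R := 7 ^ 2) (C := 7 ^ 3) (s := 7) (by norm_num)
    (by norm_num) (by norm_num) he
  obtain ⟨m, hm⟩ : ∃ m, 2 * e = 3 + m := ⟨2 * e - 3, by omega⟩
  rw [← pow_mul, hm, pow_add, mul_left_comm] at a2
  replace a2 := (Nat.le_of_mul_le_mul_left a2 (by norm_num)).trans
    (Nat.mul_le_mul_left 7 (Nat.pow_le_pow_left hk m))
  have a3 : k ^ 3 * k ^ m ≤ N ^ 2 := by
    rw [← pow_add, ← hm, mul_comm, pow_mul]
    exact Nat.pow_le_pow_left hN 2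
  have h0 : 0 < N := (pow_pos (by omega) _).trans_le hN
  refine lt_of_pow_lt_pow_left₀ 3 (Nat.zero_le _) (Nat.lt_of_mul_lt_mul_left (a := 8) ?_)
  calc _ = (2 * z) ^ 3 * e ^ 6 * F ^ 3 := by ring
    _ ≤ k ^ 3 * (7 * k ^ m) * N := by gcongr
    _ = 7 * (k ^ 3 * k ^ m * N) := by ring
    _ ≤ 7 * (N ^ 2 * N) := by gcongr
    _ < _ := by rw [← pow_succ]; exact Nat.mul_lt_mul_of_pos_right (by norm_num) (by positivity)

theorem odd_num2 {z k e x N F : ℕ} (hz : 2 * z ≤ k) (c : ℕ) (hc : 0 < c) (hk : c ≤ k) (he : 3 ≤ e)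
    (h1 : c ^ 6 * e ^ 30 ≤ 1727 * (c ^ 2) ^ e) (hx : 3 * x ^ 2 ≤ (e ^ 2) ^ 3) (hN : k ^ e ≤ N)
    (hF : F ^ 3 ≤ N ^ 2) : z * e ^ 2 * x * F < N := by
  obtain ⟨m, hm⟩ : ∃ m, 2 * e = 6 + m := ⟨2 * e - 6, by omega⟩
  rw [← pow_mul, hm, pow_add, mul_left_comm] at h1
  replace h1 := (Nat.le_of_mul_le_mul_left h1 (by positivity)).trans
    (Nat.mul_le_mul_left _ (Nat.pow_le_pow_left hk m))
  have a3 : k ^ 6 * k ^ m ≤ N ^ 2 := by
    rw [← pow_add, ← hm, mul_comm, pow_mul]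
    exact Nat.pow_le_pow_left hN 2
  have h0 : 0 < N := (pow_pos (by omega) _).trans_le hN
  refine lt_of_pow_lt_pow_left₀ 6 (Nat.zero_le _) (Nat.lt_of_mul_lt_mul_left (a := 1728) ?_)
  calc _ = (2 * z) ^ 6 * (e ^ 12 * (3 * x ^ 2) ^ 3) * (F ^ 3) ^ 2 := by ring
    _ ≤ k ^ 6 * (e ^ 12 * ((e ^ 2) ^ 3) ^ 3) * (N ^ 2) ^ 2 := by gcongr
    _ = k ^ 6 * e ^ 30 * N ^ 4 := by ring
    _ ≤ k ^ 6 * (1727 * k ^ m) * N ^ 4 := by gcongr
    _ = 1727 * (k ^ 6 * k ^ m * N ^ 4) := by ring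
    _ ≤ 1727 * (N ^ 2 * N ^ 4) := by gcongr
    _ < _ := by rw [← pow_add]; exact Nat.mul_lt_mul_of_pos_right (by norm_num) (by positivity)

section
variable {G : Type u} {V : Type v} [Group G] [AddCommGroup V] [DistribMulAction G V]

theorem exists_reg [Finite G] [Finite V] {D : Subgroup G} (h0 : D ≠ ⊥) {j n : ℕ}
    (h1 : ∀ g ∈ D, g ≠ 1 → Nat.card (Fix V g) ^ j ≤ n) (hn : 0 < n) (hj : j ≠ 0)
    (h2 : ∀ F, F ^ j ≤ n → ♯D * F < Nat.card V) :
    ∃ v : V, v ≠ 0 ∧ ∀ g ∈ D, g • v = v → g = 1 := by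
  have hF := Nat.findGreatest_spec (P := fun F => F ^ j ≤ n) (Nat.zero_le (Nat.card V))
    (by simp [hj])
  have bad := ncard_bad_le (V := V) ((D : Set G) \ {1}) fun g hg =>
    Nat.le_findGreatest (P := fun F => F ^ j ≤ n) (AddSubgroup.card_le_card_addGroup _)
      (h1 g hg.1 hg.2)
  replace bad := (bad.trans (Nat.mul_le_mul_right _ (Set.ncard_le_ncard Set.sdiff_subset))).trans_lt
    (h2 _ hF)
  obtain ⟨v, hv⟩ : ∃ v, v ∉ {v : V | ∃ g ∈ (D : Set G) \ {1}, g • v = v} := by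
    by_contra! hc
    rw [Set.eq_univ_of_forall hc, Set.ncard_univ] at bad
    exact bad.false
  refine ⟨v, fun e => ?_, fun g hg e => by_contra fun h => hv ⟨g, ⟨hg, h⟩, e⟩⟩
  obtain ⟨g, hg⟩ := ne_bot_iff_exists_ne_one.mp h0
  exact hv ⟨g, ⟨g.2, fun e => hg (Subtype.ext e)⟩, e ▸ smul_zero _⟩

theorem Str.prim_odd [Finite G] [Finite V] [Group.IsSolvable G] [Nontrivial V] {Z B : Subgroup G}
    {k d e : ℕ} (h : Str V Z B k d e) (ho : Odd (Nat.card G)) (hV : Odd (Nat.card V)) :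
    ∃ v : V, v ≠ 0 ∧ dser (stabilizer G v) 1 = ⊥ := by
  have key : ∀ (D : Subgroup G) (v : V), dser ⊤ 1 ≤ D → (∀ g ∈ D, g • v = v → g = 1) →
      dser (stabilizer G v) 1 = ⊥ := fun D v h1 h2 =>
    eq_bot_iff.mpr fun g hg => h2 g (h1 (dser_mono le_top 1 hg)) (dser_le _ 1 hg)
  by_cases h1 : e = 1
  · subst h1
    obtain ⟨v, hv⟩ := exists_ne (0 : V)
    exact ⟨v, hv, key Z v (h.der.trans h.B_eq) fun g hg e => (h.sr g hg v e).resolve_right hv⟩
  obtain ⟨U, _, _, _, u1, u2, u3, u4⟩ := h.exists_mod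
  obtain ⟨k7, e3⟩ := h.seven_le ho hV h1
  have hz := (h.two_mul_le ho hV).trans (Nat.sub_le _ _)
  have oe := h.odd_e ho
  have hB : B ≠ ⊥ := fun e0 => by
    obtain ⟨b, hb, h2, -⟩ := h.exists_elt (Nat.minFac_prime h1) (Nat.minFac_dvd e)
    rw [e0, mem_bot] at hb
    exact h2 (hb ▸ Z.one_mem)
  by_cases h2 : e ≤ 18
  · have := Nat.pow_le_pow_left h2 2
    obtain ⟨v, hv, h3⟩ := exists_reg (V := V) hB (fun g hg => h.third ho hg) Nat.card_pos
      three_ne_zero fun F hF => h.card_B ▸ odd_num1 hz k7 e3 h.pow_le hF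
    exact ⟨v, hv, key B v (h.dser_le_B u3 le_rfl
      (odd_ab ho _ U u1 u2 (by omega) oe.pow u4)) h3⟩
  have p1 := po _ G U u1 u2 (by nlinarith) ho oe.pow
  have p2 : 3 * B.relIndex 𝐂(Z) ^ 2 ≤ (e ^ 2) ^ 3 := by
    refine le_trans ?_ p1
    rw [Str.relIndex_le u3 le_rfl]
    gcongr
    exact relIndex_le_of_le_right le_top index_ne_zero_of_finite |>.trans_eq
      (relIndex_top_right _)
  obtain ⟨c, c0, c1, c2⟩ : ∃ c, 0 < c ∧ c ≤ k ∧ c ^ 6 * e ^ 30 ≤ 1727 * (c ^ 2) ^ e := by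
    by_cases h3 : 27 ≤ e
    · exact ⟨7, by norm_num, k7, pow_growth (N := 27) (by norm_num) (by norm_num) (by norm_num) h3⟩
    rw [Nat.odd_iff] at oe
    rcases (by omega : e = 19 ∨ e = 21 ∨ e = 23 ∨ e = 25) with rfl | rfl | rfl | rfl
    · have := h.two_mul_lt hV (r := 19) (by norm_num) (by norm_num) (by norm_num)
      exact ⟨13, by norm_num, by omega, by norm_num⟩
    · have := h.two_mul_lt hV (r := 7) (by norm_num) (by norm_num) (by norm_num)
      exact ⟨11, by norm_num, by omega, by norm_num⟩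
    · have := h.two_mul_lt hV (r := 23) (by norm_num) (by norm_num) (by norm_num)
      exact ⟨11, by norm_num, by omega, by norm_num⟩
    · have := h.two_mul_lt hV (r := 5) (by norm_num) (by norm_num) (by norm_num)
      exact ⟨11, by norm_num, by omega, by norm_num⟩
  obtain ⟨v, hv, h3⟩ := exists_reg (V := V) (D := 𝐂(Z)) (fun e0 => hB (eq_bot_iff.mpr
    (e0 ▸ h.sym.le2))) (fun g hg => h.two_third ho hg) (pow_pos Nat.card_pos 2) three_ne_zero
    fun F hF => by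
      rw [← card_mul_relIndex h.sym.le2, h.card_B]
      exact odd_num2 hz c c0 c1 e3 c2 p2 h.pow_le hF
  exact ⟨v, hv, key _ v h.der h3⟩

theorem fam_neg [Finite G] [Finite V] (ho : Odd (Nat.card G)) (hV : Odd (Nat.card V)) {v : V}
    (hv : v ≠ 0) {b : ℕ} (h : dser (stabilizer G v) b ≤ kerA G V) : Fam G V 2 b := by
  have k : ∀ g : G, g • v ≠ -v := fun g e => by
    have h1 : g ^ 2 ∈ stabilizer G v := by
      rw [mem_stabilizer_iff, pow_two, mul_smul, e, smul_neg, e, neg_neg]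
    obtain ⟨m, hm⟩ := ho
    have h2 : g ∈ stabilizer G v := by
      have := (stabilizer G v).pow_mem h1 (m + 1)
      rwa [← pow_mul, show 2 * (m + 1) = 2 * m + 1 + 1 by ring, pow_succ, ← hm, pow_card_eq_one',
        one_mul] at this
    have h3 : 2 • v = 0 := by rw [two_smul]; exact eq_neg_iff_add_eq_zero.mp (h2.symm.trans e)
    haveI := Fact.mk Nat.prime_two
    exact (Nat.not_even_iff_odd.mpr hV) (even_iff_two_dvd.mpr
      (addOrderOf_eq_prime h3 hv ▸ addOrderOf_dvd_natCard v))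
  refine ⟨![v, -v], fun j j' g e => ?_, fun j => ?_⟩
  · fin_cases j <;> fin_cases j'
    · rfl
    · exact absurd e (k g)
    · exact absurd (neg_eq_iff_eq_neg.mp ((smul_neg g v).symm.trans e)) (k g)
    · rfl
  · fin_cases j
    · exact h
    · refine (dser_mono (fun g hg => ?_) b).trans h
      exact neg_injective ((smul_neg g v).symm.trans hg)

theorem exists_one
    (co : ∀ (G : Type u) [Group G] [Finite G] [Group.IsSolvable G] (L : Subgroup G),
      Odd (Nat.card G) → HasCol (Fin 2) 0 L) [Finite G] [Group.IsSolvable G] [Finite V]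
    [Nontrivial V] (ho : Odd (Nat.card G)) (hi : Irr G V) (hV : Odd (Nat.card V)) :
    ∃ v : V, dser (stabilizer G v) 1 ≤ kerA G V := by
  obtain ⟨M, W, _, _, _, _, ι, π, H, _, _, _, _, _, f, Z, B, k, d, e, hb, hf, ef, h, -, c2⟩ :=
    exists_data hi
  have oH := odd_of_surj ho hf
  have oW : Odd (Nat.card W) := by
    rwa [c2, Nat.odd_pow_iff index_ne_zero_of_finite, ← h.card] at hV
  obtain ⟨w, hw, h1⟩ := h.prim_odd oH oW
  obtain ⟨y, y1, y2⟩ := (fam_neg oH oW hw (h1.trans_le bot_le)).pull ef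
  exact hb.exists_stab hi (co G M ho) y y1 y2

end

end Cfsg.Agent.SPG
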