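import Cfsg.Agent.Lib.SPG.Tab
import Cfsg.Agent.Lib.SLG.Dixon

/-!
# Orders of solvable completely reducible linear groups
-/

set_option autoImplicit false

namespace Cfsg.Agent.SPG

open Subgroup Cfsg.Agent.OO Cfsg.Agent.Mod
open scoped commutatorElement

universe u v

theorem pow_growth {N j R C s : ℕ} (h0 : 0 < N) (h1 : (N + 1) ^ j ≤ R * N ^ j)
    (h2 : C * N ^ j ≤ s * R ^ N) {e : ℕ} (he : N ≤ e) : C * e ^ j ≤ s * R ^ e := by
  induction e, he using Nat.le_induction with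
  | base => exact h2
  | succ e he ih =>
    have h3 : (e + 1) ^ j ≤ R * e ^ j := by
      refine Nat.le_of_mul_le_mul_right ?_ (pow_pos h0 j)
      calc _ = ((e + 1) * N) ^ j := by rw [mul_pow]
        _ ≤ ((N + 1) * e) ^ j := Nat.pow_le_pow_left (by nlinarith) j
        _ = (N + 1) ^ j * e ^ j := by rw [mul_pow]
        _ ≤ R * N ^ j * e ^ j := Nat.mul_le_mul_right _ h1
        _ = _ := by ring
    calc _ ≤ C * (R * e ^ j) := Nat.mul_le_mul_left _ h3
      _ = R * (C * e ^ j) := by ring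
      _ ≤ R * (s * R ^ e) := Nat.mul_le_mul_left _ ih
      _ = _ := by ring

theorem two_mul_le_two_pow (a : ℕ) : 2 * a ≤ 2 ^ a := by
  cases a with
  | zero => simp
  | succ a => rw [pow_succ, mul_comm]; exact Nat.mul_le_mul_right _ Nat.lt_two_pow_self

section
variable {G : Type u} {V : Type v} [Group G] [AddCommGroup V] [DistribMulAction G V]

theorem exists_data [Finite G] [Group.IsSolvable G] [Finite V] [Nontrivial V] (hi : Irr G V) :
    ∃ (M : Subgroup G) (W : Type v) (_ : AddCommGroup W) (_ : Finite W) (_ : Nontrivial W)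
      (_ : DistribMulAction M W) (ι : W →+ V) (π : V →+ W) (H : Type u) (_ : Group H) (_ : Finite H)
      (_ : Group.IsSolvable H) (_ : DistribMulAction H W) (_ : FaithfulSMul H W) (f : M →* H)
      (Z B : Subgroup H) (k d e : ℕ), Blk M ι π ∧ Function.Surjective f ∧
      (∀ (g : M) (w : W), f g • w = g • w) ∧ Str W Z B k d e ∧
      (kerA M W).index = Nat.card H ∧ Nat.card V = (k ^ d) ^ M.index := by
  obtain ⟨M, W, _, _, _, _, ι, π, hb, hW, hq⟩ := exists_blk hi
  obtain ⟨H, _, _, _, _, f, hf, e⟩ := exists_faithful (G := M) (V := W)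
  haveI := Group.isSolvable_of_surjective hf
  obtain ⟨Z, B, k, d, ε, h⟩ := exists_str (hq.push e hf)
  refine ⟨M, W, _, inferInstance, inferInstance, _, ι, π, H, _, inferInstance, inferInstance, _,
    inferInstance, f, Z, B, k, d, ε, hb, hf, e, h, ?_, h.card ▸ hb.card_eq hi⟩
  rw [← kerA_comap e, kerA_eq_bot, index_comap_of_surjective _ hf, index_bot]

namespace Str
variable [Finite G] [Finite V] {Z B : Subgroup G} {k d e : ℕ} (h : Str V Z B k d e)
include h

theorem two_pow_le : 2 ^ 𝐂(Z).index ≤ k := by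
  obtain ⟨c, h1, h2⟩ := h.gal
  exact h2 ▸ Nat.pow_le_pow_left h1 _

theorem three_le (he : e ≠ 1) : 3 ≤ k := by
  have := (h.prime_lt (Nat.minFac_prime he) (Nat.minFac_dvd e)).2
  have := (Nat.minFac_prime he).two_le
  omega

theorem sq_lt (he : e ≠ 1) : e ^ 2 < k ^ d := by
  have h1 := pow_growth (N := 1) (j := 2) (R := 3) (C := 2) (s := 1) one_pos
  have h2 : 3 ^ e ≤ k ^ d :=
    (Nat.pow_le_pow_left (h.three_le he) e).trans (h.card ▸ h.pow_le)
  have h3 := h.pos
  rcases (by omega : e = 2 ∨ 3 ≤ e) with rfl | h4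
  · omega
  · have := pow_growth (N := 3) (j := 2) (R := 3) (C := 2) (s := 1) (by norm_num) (by norm_num)
      (by norm_num) h4
    have : 0 < e ^ 2 := by positivity
    omega

omit [Finite V] h in
theorem relIndex_le {K : Subgroup G} (hK : K ⊓ 𝐂(Z) = B) {D : Subgroup G} (hD : D ≤ 𝐂(Z)) :
    B.relIndex D = K.relIndex D := by
  rw [← hK, ← inf_relIndex_right, inf_assoc, inf_eq_right.mpr hD, inf_relIndex_right]

theorem relIndex_one (he : e = 1) : B.relIndex 𝐂(Z) = 1 := by
  subst he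
  exact relIndex_eq_one.mpr (h.B_eq.trans h.sym.le1)

end Str
end

theorem pw_num {z a x k d e : ℕ} (hz : z < k) (ha : 2 ^ a ≤ k) (hk : 2 ≤ k) (h0 : 0 < e)
    (hd : e ≤ d) (h1 : e = 1 → x = 1) (h2 : e = 2 → x ≤ 6) (h3 : e ≠ 1 → 25 * x ^ 2 ≤ (e ^ 2) ^ 5)
    (h4 : e ≠ 1 → 3 ≤ k) (h5 : e = 3 → 4 ≤ k) : 25 * (z * e ^ 2 * x * a) ^ 2 ≤ (k ^ d) ^ 5 := by
  refine le_trans ?_ (Nat.pow_le_pow_left (Nat.pow_le_pow_right (by omega) hd) 5)
  have a1 : 2 * (a * z) ≤ k ^ 2 := by
    have := (two_mul_le_two_pow a).trans ha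
    nlinarith
  have a2 : k ≤ 7 → a ≤ 2 := fun h => by
    by_contra hc
    have := (Nat.pow_le_pow_right two_pos (by omega : 3 ≤ a)).trans ha
    omega
  have a3 : k ≤ 3 → a ≤ 1 := fun h => by
    by_contra hc
    have := (Nat.pow_le_pow_right two_pos (by omega : 2 ≤ a)).trans ha
    omega
  rw [show z * e ^ 2 * x * a = (a * z) * (e ^ 2 * x) by ring]
  have a4 : k ≤ 3 → a * z ≤ k - 1 := fun h => by
    have := Nat.mul_le_mul (a3 h) (show z ≤ k - 1 by omega)
    omega
  have a5 : k ≤ 7 → a * z ≤ 2 * (k - 1) := fun h => Nat.mul_le_mul (a2 h) (by omega)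
  generalize a * z = y at *
  have a6 : 4 * y ^ 2 ≤ k ^ 4 := by nlinarith
  by_cases e1 : e = 1
  · subst e1
    simp only [h1 rfl, one_pow, mul_one, pow_one]
    by_cases h7 : k ≤ 7
    · by_cases h8 : k ≤ 3
      · have := a4 h8
        interval_cases k <;> nlinarith
      · have := a5 h7
        interval_cases k <;> nlinarith
    · have : k ^ 5 = k * k ^ 4 := by ring
      nlinarith
  replace h3 := h3 e1
  replace h4 := h4 e1
  have b1 : 25 * (y * (e ^ 2 * x)) ^ 2 ≤ y ^ 2 * e ^ 14 := by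
    calc _ = y ^ 2 * e ^ 4 * (25 * x ^ 2) := by ring
      _ ≤ y ^ 2 * e ^ 4 * (e ^ 2) ^ 5 := Nat.mul_le_mul_left _ h3
      _ = _ := by ring
  rcases (by omega : k = 3 ∨ 4 ≤ k) with rfl | h6
  · have a7 := a4 le_rfl
    rcases (by omega : e = 2 ∨ 4 ≤ e) with rfl | h7
    · have := Nat.mul_le_mul a7 (Nat.mul_le_mul_left (2 ^ 2) (h2 rfl))
      exact (Nat.mul_le_mul_left 25 (Nat.pow_le_pow_left this 2)).trans (by norm_num)
    · have := pow_growth (N := 4) (j := 14) (R := 3 ^ 5) (C := 4) (s := 1) (by norm_num)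
        (by norm_num) (by norm_num) h7
      rw [one_mul, ← pow_mul, mul_comm 5, pow_mul] at this
      exact b1.trans ((Nat.mul_le_mul_right _ (Nat.pow_le_pow_left a7 2)).trans this)
  · have := pow_growth (N := 2) (j := 14) (R := 4 ^ 5) (C := 4 ^ 3) (s := 1) (by norm_num)
      (by norm_num) (by norm_num) (by omega : 2 ≤ e)
    obtain ⟨m, hm⟩ : ∃ m, e * 5 = 4 + m := ⟨e * 5 - 4, by omega⟩
    rw [one_mul, ← pow_mul, mul_comm 5, hm, pow_add] at this
    rw [← pow_mul k, hm, pow_add]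
    have h8 := Nat.pow_le_pow_left h6 m
    refine b1.trans (Nat.le_of_mul_le_mul_left ?_ (by norm_num : 0 < 4))
    calc _ = 4 * y ^ 2 * e ^ 14 := by ring
      _ ≤ k ^ 4 * (4 * k ^ m) := Nat.mul_le_mul a6 (by omega)
      _ = _ := by ring

theorem pw (n : ℕ) : ∀ (G V : Type u) [Group G] [Finite G] [Group.IsSolvable G]
    [AddCommGroup V] [Finite V] [DistribMulAction G V], CR G V → Nat.card V = n → 2 ≤ n →
    25 * (kerA G V).index ^ 2 ≤ n ^ 5 := by
  induction n using Nat.strong_induction_on with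
  | _ n ih =>
  intro G V _ _ _ _ _ _ hc hV h2
  by_cases hi : Irr G V
  swap
  · obtain ⟨W, W', _, _, _, _, _, _, ι, ι', i1, i2, e1, e2, c1, c2, c3, hk, -⟩ := hc.split hi
    rw [hV] at c3
    have l1 := ih _ (by nlinarith) G W (hc.of_inj i1 e1) rfl c1
    have l2 := ih _ (by nlinarith) G W' (hc.of_inj i2 e2) rfl c2
    have l3 := (Nat.le_of_dvd (Nat.pos_of_ne_zero index_ne_zero_of_finite)
      (index_dvd_of_le hk)).trans index_inf_le
    calc _ ≤ 25 * ((kerA G W).index * (kerA G W').index) ^ 2 := by gcongr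
      _ ≤ 25 * (kerA G W).index ^ 2 * (25 * (kerA G W').index ^ 2) := by nlinarith
      _ ≤ _ := by rw [c3, mul_pow]; exact Nat.mul_le_mul l1 l2
  haveI : Nontrivial V := Finite.one_lt_card_iff_nontrivial.mp (by omega)
  obtain ⟨M, W, _, _, _, _, ι, π, H, _, _, _, _, _, f, Z, B, k, d, e, hb, -, -, h, c1, c2⟩ :=
    exists_data hi
  obtain ⟨t, ht⟩ := Nat.exists_eq_succ_of_ne_zero (index_ne_zero_of_finite (H := M))
  have l1 := hb.index_le hi
  have l2 := SLG.dixon _ G M le_rfl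
  have l3 : 25 * Nat.card H ^ 2 ≤ (k ^ d) ^ 5 := by
    rw [h.card_G]
    refine pw_num h.card_lt h.two_pow_le h.two_le h.pos h.le h.relIndex_one (fun he => ?_)
      (fun he => ?_) h.three_le fun he => (h.prime_lt Nat.prime_three (he ▸ dvd_rfl)).2
    · haveI := h.sym.nU
      exact h.sym.sp Nat.prime_two (he ▸ h.sq)
    · obtain ⟨U, _, _, _, u1, u2, u3, -⟩ := h.exists_mod
      have h3 := h.pos
      refine le_trans ?_ (ih _ ((h.sq_lt he).trans_le ?_) H U u1 u2 (by
        have : 2 ≤ e := by omega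
        nlinarith))
      · rw [Str.relIndex_le u3 le_rfl]
        gcongr
        exact relIndex_le_of_le_right le_top index_ne_zero_of_finite |>.trans_eq
          (relIndex_top_right _)
      · rw [← hV, c2]
        exact Nat.le_self_pow index_ne_zero_of_finite _
  rw [c1, ht] at l1
  rw [ht] at l2
  rw [← hV, c2, ht]
  calc _ ≤ 25 * (3 ^ t * Nat.card H ^ (t + 1)) ^ 2 := by
        gcongr
        exact l1.trans (Nat.mul_le_mul_right _ l2)
    _ = 25 * 9 ^ t * (Nat.card H ^ 2) ^ (t + 1) := by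
        rw [mul_pow, ← pow_mul, mul_comm t, pow_mul]; ring
    _ ≤ 25 * 25 ^ t * (Nat.card H ^ 2) ^ (t + 1) := by gcongr; norm_num
    _ = (25 * Nat.card H ^ 2) ^ (t + 1) := by ring
    _ ≤ ((k ^ d) ^ 5) ^ (t + 1) := Nat.pow_le_pow_left l3 _
    _ = _ := by rw [← pow_mul, mul_comm, pow_mul]

theorem two_pow_le_index {G : Type*} [Group G] [Finite G] [Group.IsSolvable G] {n : ℕ}
    (h : dser (⊤ : Subgroup G) n ≠ ⊥) : 2 ^ n ≤ (dser (⊤ : Subgroup G) n).index := by
  induction n with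
  | zero => exact Nat.pos_of_ne_zero index_ne_zero_of_finite
  | succ n ih =>
    have h1 : dser (⊤ : Subgroup G) n ≠ ⊥ := fun e => h (eq_bot_iff.mpr (e ▸ dser_succ_le _ n))
    have h2 : dser (⊤ : Subgroup G) (n + 1) < dser ⊤ n := der_lt inferInstance h1
    have h3 := relIndex_mul_index h2.le
    have h4 : (dser (⊤ : Subgroup G) (n + 1)).relIndex (dser ⊤ n) ≠ 1 :=
      fun e => h2.not_ge (relIndex_eq_one.mp e)
    have h5 := relIndex_pos (dser (⊤ : Subgroup G) (n + 1)) (dser ⊤ n)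
    rw [← h3, pow_succ']
    exact Nat.mul_le_mul (by omega) (ih h1)

theorem two_pow_mul_le {G : Type*} [Group G] [Finite G] [Group.IsSolvable G] {K : Subgroup G}
    [K.Normal] {n : ℕ} (h : ¬ dser ⊤ n ≤ K) : 2 ^ n * K.relIndex (dser ⊤ n) ≤ K.index := by
  have e : (dser ⊤ n).map (QuotientGroup.mk' K) = dser ⊤ n := by
    rw [map_dser, map_top_of_surjective _ (QuotientGroup.mk'_surjective K)]
  have := two_pow_le_index (G := G ⧸ K) (n := n) fun e' => h (by
    rw [← e, Subgroup.map_eq_bot_iff, QuotientGroup.ker_mk'] at e'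
    exact e')
  rw [← SLG.card_map_mk, e]
  exact (Nat.mul_le_mul_right _ this).trans_eq (index_mul_card _)

end Cfsg.Agent.SPG
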