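import Cfsg.Agent.Lib.SPG.Col5

/-!
# Derived lengths of solvable permutation groups of degree at most eight
-/

set_option autoImplicit false

namespace Cfsg.Agent.SPG

open Subgroup Cfsg.Agent.Mod

universe u

theorem dser_ker_of_prime {G V : Type*} [Group G] [AddCommGroup V] [DistribMulAction G V]
    (hp : (Nat.card V).Prime) : dser ⊤ 1 ≤ kerA G V := by
  haveI := Fact.mk hp
  obtain ⟨a, ha⟩ := (isAddCyclic_of_prime_card (α := V) rfl).exists_generator
  have h : ∀ g : G, ∃ k : ℤ, ∀ v : V, g • v = k • v := by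
    intro g
    obtain ⟨k, hk⟩ := ha (g • a)
    refine ⟨k, fun v => ?_⟩
    obtain ⟨m, rfl⟩ := ha v
    have := map_zsmul (DistribSMul.toAddMonoidHom V g) m a
    simp only [DistribSMul.toAddMonoidHom_apply] at this hk ⊢
    rw [this, ← hk, smul_comm]
  refine Subgroup.commutator_le.mpr fun x _ y _ => mem_kerA.mpr fun v => ?_
  obtain ⟨k, hk⟩ := h x
  obtain ⟨m, hm⟩ := h y
  rw [commutatorElement_def, mul_smul, mul_smul, mul_smul, hk, hm, smul_comm, ← hk,
    smul_inv_smul, ← hm, smul_inv_smul]

theorem prime_index {G : Type u} [Group G] [Finite G] [Group.IsSolvable G] {L : Subgroup G}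
    (hp : L.index.Prime) : dser ⊤ 2 ≤ L.normalCore ∧ dser L 1 ≤ L.normalCore := by
  have hc : IsCoatom L := by
    refine ⟨fun e => hp.one_lt.ne' (by rw [e, index_top]), fun N hN => ?_⟩
    have := index_lt_of_lt hN
    rcases (Nat.dvd_prime hp).mp (index_dvd_of_le hN.le) with e | e
    · exact index_eq_one.mp e
    · omega
  obtain ⟨V, _, _, _, _, τ, r, -, -, ha, -⟩ := exists_aff hc
  have := dser_ker_of_prime (G := G) (ha.index_eq ▸ hp)
  refine ⟨ha.dser_le this, ?_⟩
  rw [ha.core_eq]
  exact le_inf ((dser_mono le_top 1).trans this) (dser_le L 1)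

/-- The table of derived lengths. -/
def sg (m : ℕ) : ℕ :=
  if m ≤ 1 then 0 else if m = 2 then 1 else if m = 3 then 2 else if m ≤ 7 then 3 else 4

theorem sg_mono {a b : ℕ} (h : a ≤ b) : sg a ≤ sg b := by
  unfold sg
  split_ifs <;> omega

theorem sig_aux (k : ℕ) : ∀ {G : Type u} [Group G] [Finite G] [Group.IsSolvable G]
    (L : Subgroup G), L.index = k → k ≤ 8 → dser ⊤ (sg k) ≤ L.normalCore := by
  induction k using Nat.strong_induction_on with
  | _ k ih =>
    intro G _ _ _ L hk h8
    by_cases hL : L = ⊤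
    · subst hL
      exact fun g _ => mem_normalCore.mpr fun _ => trivial
    obtain ⟨M, hM, hc⟩ := exists_coatom hL
    have hm := relIndex_mul_index hM.le
    have hlt := index_lt_of_lt hM
    have h0 : M.index ≠ 0 := index_ne_zero_of_finite
    have h1 := ih _ (hk ▸ hlt) M rfl (by omega)
    obtain ⟨V, _, _, _, _, τ, r, hr, he, ha, -⟩ := exists_aff hc
    have hi : L.relIndex M = Nat.card V := ha.index_eq
    have hN : Nat.card V ≤ k := by
      rw [← hi, ← hk, ← hm]
      exact Nat.le_mul_of_pos_right _ (Nat.pos_of_ne_zero h0)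
    have h2 : 1 < Nat.card V := Finite.one_lt_card
    have h3 : dser ⊤ (sg (Nat.card V - 1)) ≤ kerA M V := by
      intro g hg
      refine mem_kerA.mpr fun v => ?_
      by_cases hv : v = 0
      · simp [hv]
      have h4 : (MulAction.stabilizer M v).index < Nat.card V := by
        rw [MulAction.index_stabilizer, ← Set.ncard_univ]
        refine Set.ncard_lt_ncard ⟨Set.subset_univ _, fun e => hv ?_⟩
        obtain ⟨x, hx⟩ := e (Set.mem_univ 0)
        exact (smul_eq_zero_iff_eq x).mp hx
      exact normalCore_le _ (ih _ (by omega) (MulAction.stabilizer M v) rfl (by omega)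
        (dser_anti _ (sg_mono (by omega)) hg))
    have h5 : dser ⊤ (sg (Nat.card V)) ≤ (L.subgroupOf M).normalCore := by
      by_cases hp : (Nat.card V).Prime ∧ 3 ≤ Nat.card V
      · exact (dser_anti _ (sg_mono hp.2)).trans (ha.dser_le (dser_ker_of_prime hp.1))
      refine (dser_anti _ ?_).trans (ha.dser_le h3)
      have h6 : Nat.card V ≠ 6 := by
        obtain ⟨n, ⟨e⟩⟩ := exists_coord hr he
        haveI := Fact.mk hr
        rw [Nat.card_congr e.toEquiv, card_W]
        intro e6
        have a2 := Nat.prime_two.dvd_of_dvd_pow (e6 ▸ by norm_num : 2 ∣ r ^ n)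
        have a3 := Nat.prime_three.dvd_of_dvd_pow (e6 ▸ by norm_num : 3 ∣ r ^ n)
        rw [← (Nat.prime_dvd_prime_iff_eq Nat.prime_two hr).mp a2] at a3
        omega
      have h7 : Nat.card V ≤ 8 := by omega
      revert hp h6
      generalize Nat.card V = N at *
      interval_cases N <;> decide
    refine (dser_anti _ ?_).trans (dser_core_le h1 h5)
    rw [hi, hk] at hm
    rw [← hm] at h8 ⊢
    have h9 : Nat.card V ≤ 8 := by omega
    have h10 : M.index ≤ 8 := by omega
    generalize Nat.card V = N at *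
    generalize M.index = m at *
    interval_cases N <;> interval_cases m <;> first | decide | omega

theorem sig {G : Type u} [Group G] [Finite G] [Group.IsSolvable G] (L : Subgroup G) {k : ℕ}
    (h : L.index ≤ k) (h8 : k ≤ 8) : dser ⊤ (sg k) ≤ L.normalCore :=
  (dser_anti _ (sg_mono h)).trans (sig_aux _ L rfl (h.trans h8))

/-- Points in small invariant sets are fixed by a term of the derived series. -/
theorem fix_of_small {T : Type u} [Group T] [Finite T] [Group.IsSolvable T] {Ω : Type*}
    {φ : T →* Equiv.Perm Ω} {S : Subgroup T} {P : Finset Ω} {k : ℕ}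
    (hP : ∀ g ∈ S, ∀ x ∈ P, φ g x ∈ P) (hk : P.card ≤ k) (h8 : k ≤ 8) {x : Ω} (hx : x ∈ P)
    {g : T} (hg : g ∈ dser S (sg k)) : φ g x = x := by
  letI := MulAction.compHom Ω (φ.comp S.subtype)
  have h : (MulAction.stabilizer S x).index ≤ k := by
    rw [MulAction.index_stabilizer]
    refine (Set.ncard_le_ncard ?_ P.finite_toSet).trans (by simpa using hk)
    rintro _ ⟨s, rfl⟩
    exact hP s s.2 x hx
  rw [← map_derivedSeries_subtype, ← dser_top] at hg
  obtain ⟨s, hs, rfl⟩ := hg
  exact normalCore_le _ (sig _ h h8 hs)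

end Cfsg.Agent.SPG
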