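import Cfsg.Agent.Lib.SPG.Ind
import Cfsg.Agent.Lib.SLG.Prim
import Cfsg.Agent.Lib.Coprime.TIHall

/-!
# Structure of solvable quasi-primitive linear groups
-/

set_option autoImplicit false

namespace Cfsg.Agent.SPG

open Subgroup Cfsg.Agent.OO Cfsg.Agent.Mod
open scoped commutatorElement

universe u v

theorem linInd_of_eigen {K M ι X : Type*} [Field K] [AddCommGroup M] [Module K M] (v : ι → M)
    (hv : ∀ i, v i ≠ 0) (f : X → M →ₗ[K] M) (χ : ι → X → K) (inj : Function.Injective χ)
    (h : ∀ x i, f x (v i) = χ i x • v i) : LinearIndependent K v := by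
  classical
  rw [linearIndependent_iff']
  intro s
  induction s using Finset.induction_on with
  | empty => simp
  | insert a s ha ih =>
    intro g hg
    rw [Finset.sum_insert ha] at hg
    have key : ∀ j ∈ s, g j = 0 := fun j hj => by
      obtain ⟨x, hx⟩ := Function.ne_iff.mp (inj.ne (ne_of_mem_of_not_mem hj ha))
      have e1 := congrArg (f x) hg
      have e2 := congrArg (χ a x • ·) hg
      simp only [map_add, map_sum, map_smul, h, map_zero, smul_add, Finset.smul_sum, smul_zero,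
        smul_smul] at e1 e2
      have := ih (fun i => g i * χ i x - χ a x * g i) (by
        simp only [sub_smul, Finset.sum_sub_distrib]
        rw [eq_neg_of_add_eq_zero_right e1, eq_neg_of_add_eq_zero_right e2, mul_comm, sub_self])
        j hj
      rw [mul_comm (χ a x), ← mul_sub, mul_eq_zero, sub_eq_zero] at this
      exact this.resolve_right hx
    rw [Finset.sum_eq_zero fun j hj => by rw [key j hj, zero_smul], add_zero] at hg
    intro i hi
    rcases Finset.mem_insert.mp hi with rfl | hi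
    · exact (smul_eq_zero.mp hg).resolve_right (hv _)
    · exact key i hi

variable {G : Type u} {V : Type v} [Group G] [AddCommGroup V] [DistribMulAction G V]

variable (V) in
/-- The data attached to a solvable quasi-primitive linear group. -/
structure Str (Z B : Subgroup G) (k d e : ℕ) : Prop where
  sym : SLG.Sym 𝐂(Z) Z B
  sr : ∀ z ∈ Z, ∀ v : V, z • v = v → z = 1 ∨ v = 0
  card : Nat.card V = k ^ d
  dvd : ♯Z ∣ k - 1
  gal : ∃ c, 2 ≤ c ∧ k = c ^ 𝐂(Z).index
  der : ⁅(⊤ : Subgroup G), ⊤⁆ ≤ 𝐂(Z)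
  sq : Z.relIndex B = e ^ 2
  le : e ≤ d

theorem rho_inj [FaithfulSMul G V] : Function.Injective (rho G : G → AddMonoid.End V) :=
  fun _ _ h => eq_of_smul_eq_smul (α := V) fun v => DFunLike.congr_fun h v

theorem exists_str [Finite G] [Finite V] [Nontrivial V] [FaithfulSMul G V] [Group.IsSolvable G]
    (h : QP G V) : ∃ (Z B : Subgroup G) (k d e : ℕ), Str V Z B k d e := by
  classical
  obtain ⟨Z, -, ⟨hn, hab⟩, hmax⟩ := Core.exists_maximal_ge
    (P := fun A : Subgroup G => A.Normal ∧ Ab A) (H := ⊥) ⟨inferInstance, inferInstance⟩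
  have hc := ab_iff.mp hab
  have hq := h Z hn fun a ha b hb v => by rw [← mul_smul, hc a ha b hb, mul_smul]
  haveI : Finite (AddMonoid.End V) := Finite.of_injective _ DFunLike.coe_injective
  have cm' : ∀ g ∈ 𝐂(Z), ∀ x ∈ rng V Z, x * rho G g = rho G g * x := fun g hg x hx =>
    comm_rng (fun a ha => by rw [← map_mul, ← map_mul, hg a ha]) hx
  have cm : ∀ x ∈ rng V Z, ∀ y ∈ rng V Z, x * y = y * x := fun x hx y hy =>
    comm_rng (fun a ha => (cm' a (Ab.le_cent hab ha) y hy).symm) hx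
  obtain ⟨v0, hv0⟩ := exists_ne (0 : V)
  haveI : Nontrivial (rng V Z) :=
    ⟨⟨1, 0, fun e => hv0 (DFunLike.congr_fun (congrArg Subtype.val e) v0)⟩⟩
  haveI : NoZeroDivisors (rng V Z) := ⟨fun {a b} e => by
    by_contra! h0
    obtain ⟨v, hv⟩ := DFunLike.ne_iff.1 (mt Subtype.ext h0.2)
    exact (hq a a.2 _ (DFunLike.congr_fun (congrArg Subtype.val e) v)).elim
      (fun e => h0.1 (Subtype.ext e)) hv⟩
  haveI := NoZeroDivisors.to_isDomain (rng V Z)
  have hF : IsField (rng V Z) := by
    letI : CommRing (rng V Z) :=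
      { (inferInstance : Ring (rng V Z)) with mul_comm a b := Subtype.ext (cm _ a.2 _ b.2) }
    exact Finite.isField_of_domain _
  letI := hF.toField
  let φ : Z →* rng V Z := (((rho G).comp Z.subtype).codRestrict (rng V Z) fun z => rho_mem_rng z.2)
  have φi : Function.Injective φ := fun a b e =>
    Subtype.ext (rho_inj (V := V) (congrArg Subtype.val e))
  have cyc : IsCyclic Z := isCyclic_of_injective_ringHom φ φi
  have hyp : SLG.Hyp 𝐂(Z) Z := ⟨inferInstance, hn, inferInstance, Ab.le_cent hab, le_rfl,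
    cyc, fun D hD h1 h2 => le_sup_right.trans
      (hmax (Z ⊔ D) ⟨inferInstance, ab_sup hab h2 (le_cent_symm h1)⟩ le_sup_left).le⟩
  obtain ⟨B, hB⟩ := hyp.exists_sym
  obtain ⟨e, he⟩ := hB.exists_sq
  have sm : ∀ (x : rng V Z) (v : V), x • v = x.1 v := fun _ _ => rfl
  refine ⟨Z, B, Nat.card (rng V Z), Module.finrank (rng V Z) V, e, hB, fun z hz v hv => ?_,
    Module.natCard_eq_pow_finrank, ?_, ?_, ?_, he, ?_⟩
  · refine (hq _ (sub_mem (rho_mem_rng hz) (one_mem _)) v (sub_eq_zero.mpr hv)).imp_left fun e => ?_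
    exact rho_inj (V := V) ((sub_eq_zero.mp e).trans (map_one _).symm)
  · rw [← Nat.card_units]
    exact card_dvd_of_injective φ.toHomUnits fun a b e => φi (congrArg Units.val e)
  · letI : MulSemiringAction G (rng V Z) :=
      { smul g a := ⟨cj g a.1, cj_mem_rng g a.2⟩
        one_smul a := Subtype.ext (AddMonoidHom.ext fun v => by
          change (1 : G) • a.1 ((1 : G)⁻¹ • v) = a.1 v
          simp)
        mul_smul g h a := Subtype.ext (AddMonoidHom.ext fun v => by
          change (g * h) • a.1 ((g * h)⁻¹ • v) = g • h • a.1 (h⁻¹ • g⁻¹ • v)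
          simp [mul_smul])
        smul_zero g := Subtype.ext (map_zero (cj g))
        smul_add g a b := Subtype.ext (map_add (cj g) a.1 b.1)
        smul_one g := Subtype.ext (map_one (cj g))
        smul_mul g a b := Subtype.ext (map_mul (cj g) a.1 b.1) }
    let ψ := MulSemiringAction.toRingAut G (rng V Z)
    have hk : ψ.ker = 𝐂(Z) := by
      ext g
      refine ⟨fun e z hz => ?_, fun e => RingEquiv.ext fun a => Subtype.ext ?_⟩
      · have := congrArg Subtype.val (DFunLike.congr_fun e ⟨_, rho_mem_rng hz⟩)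
        have := rho_inj ((cj_rho (V := V) g z).symm.trans this)
        rw [← mul_inv_eq_iff_eq_mul.mp this]
      · change rho G g * a.1 * rho G g⁻¹ = a.1
        rw [← cm' g e _ a.2, mul_assoc, ← map_mul, mul_inv_cancel, map_one, mul_one]
    haveI : Finite ψ.range := Finite.of_surjective _ ψ.rangeRestrict_surjective
    haveI := Fintype.ofFinite ψ.range
    refine ⟨Nat.card (FixedPoints.subfield ψ.range (rng V Z)), Finite.one_lt_card, ?_⟩
    rw [← hk, index_ker, Nat.card_eq_fintype_card (α := ψ.range),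
      ← FixedPoints.finrank_eq_card ψ.range (rng V Z)]
    exact Module.natCard_eq_pow_finrank
  · exact Coprime.commutator_le_centralizer_of_isCyclic cyc le_normalizer_of_normal
      le_normalizer_of_normal
  · let T : B → Module.End (rng V Z) V := fun b =>
      { toFun := fun v => (b : G) • v
        map_add' := smul_add _
        map_smul' := fun x v => (DFunLike.congr_fun (cm' b (hB.le2 b.2) x x.2) v).symm }
    have cmm : ∀ x b : B, ⁅(x : G), (b : G)⁆ ∈ Z := fun x b =>
      hB.comm (commutator_mem_commutator x.2 b.2)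
    have li := linInd_of_eigen (K := rng V Z) (fun q : B ⧸ Z.subgroupOf B => T q.out)
      (fun q e => hv0 ((smul_eq_zero_iff_eq _).mp (LinearMap.congr_fun e v0)))
      (fun x : B => LinearMap.mulLeft _ (T x) ∘ₗ LinearMap.mulRight _ (T x⁻¹))
      (fun q x => φ ⟨_, cmm x q.out⟩)
      (fun q q' e => by
        rw [← QuotientGroup.out_eq' q, ← QuotientGroup.out_eq' q', QuotientGroup.eq]
        refine hB.zc ⟨(q.out⁻¹ * q'.out).2, fun x hx => ?_⟩
        have := congrArg Subtype.val (φi (congrFun e ⟨x, hx⟩))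
        simp only [commutatorElement_def, mul_assoc, mul_right_inj] at this
        change x * ((q.out : G)⁻¹ * q'.out) = (q.out : G)⁻¹ * q'.out * x
        calc _ = (q.out : G)⁻¹ * (q.out * (x⁻¹ * (q.out : G)⁻¹))⁻¹ * q'.out := by group
          _ = _ := by rw [this]; group)
      (fun x q => LinearMap.ext fun v => by
        change (x : G) • (q.out : G) • (x : G)⁻¹ • v = ⁅(x : G), (q.out : G)⁆ • (q.out : G) • v
        simp [commutatorElement_def, mul_smul])
    haveI := Fintype.ofFinite (B ⧸ Z.subgroupOf B)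
    have := li.fintype_card_le_finrank
    rw [Module.finrank_linearMap, ← Nat.card_eq_fintype_card, ← index, ← relIndex, he, ← sq] at this
    exact (Nat.pow_le_pow_iff_left two_ne_zero).mp this

variable (V) in
/-- The fixed space of a group element. -/
def Fix (g : G) : AddSubgroup V where
  carrier := {v | g • v = v}
  zero_mem' := smul_zero g
  add_mem' := fun {a b} ha hb => by
    change g • (a + b) = a + b
    rw [smul_add, ha, hb]
  neg_mem' := fun {a} ha => by
    change g • (-a) = -a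
    rw [smul_neg, ha]

theorem mem_Fix {g : G} {v : V} : v ∈ Fix V g ↔ g • v = v := Iff.rfl

theorem card_Fix_conj (g x : G) : Nat.card (Fix V (x * g * x⁻¹)) = Nat.card (Fix V g) :=
  Nat.card_congr ((MulAction.toPerm x⁻¹ : Equiv.Perm V).subtypeEquiv fun v => by
    simp [mem_Fix, mul_smul, smul_eq_iff_eq_inv_smul x])

theorem card_mul_le [Finite V] (A B : AddSubgroup V) :
    Nat.card A * Nat.card B ≤ Nat.card V * Nat.card ↥(A ⊓ B) := by
  have h1 := AddSubgroup.index_inf_le (H := A) (K := B)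
  have h2 := A.index_mul_card
  have h3 := B.index_mul_card
  have h4 := (A ⊓ B).index_mul_card
  have h5 : 0 < Nat.card V := Nat.card_pos
  refine Nat.le_of_mul_le_mul_left ?_ h5
  calc _ = (A ⊓ B).index * (Nat.card A * Nat.card B * Nat.card ↥(A ⊓ B)) := by rw [← h4]; ring
    _ ≤ A.index * B.index * (Nat.card A * Nat.card B * Nat.card ↥(A ⊓ B)) := by gcongr
    _ = A.index * Nat.card A * (B.index * Nat.card B * Nat.card ↥(A ⊓ B)) := by ring
    _ = _ := by rw [h2, h3]

theorem Fix_sq_le [Finite V] (g x : G) :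
    Nat.card (Fix V g) ^ 2 ≤ Nat.card V * Nat.card (Fix V ⁅x, g⁆) := by
  have := card_mul_le (Fix V g) (Fix V (x * g * x⁻¹))
  rw [card_Fix_conj, ← sq] at this
  refine this.trans (Nat.mul_le_mul_left _ (AddSubgroup.card_le_of_le fun v hv => ?_))
  rw [mem_Fix, commutatorElement_def, mul_smul, inv_smul_eq_iff.mpr (mem_Fix.mp hv.1).symm]
  exact hv.2

namespace Str
variable [Finite G] [Finite V] {Z B : Subgroup G} {k d e : ℕ} (h : Str V Z B k d e)
include h

theorem pos : 0 < e := by
  have := relIndex_pos Z B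
  rw [h.sq] at this
  exact Nat.pos_of_ne_zero fun e0 => by simp [e0] at this

theorem two_le : 2 ≤ k := by
  obtain ⟨c, h1, h2⟩ := h.gal
  exact h1.trans (h2 ▸ Nat.le_self_pow index_ne_zero_of_finite c)

theorem card_lt : ♯Z < k := by
  have := h.two_le
  have := Nat.le_of_dvd (by omega) h.dvd
  omega

theorem pow_le : k ^ e ≤ Nat.card V := h.card ▸ Nat.pow_le_pow_right (by have := h.two_le; omega) h.le

theorem card_B : ♯B = ♯Z * e ^ 2 := by rw [← h.sq, card_mul_relIndex h.sym.le1]

theorem card_G : Nat.card G = ♯Z * e ^ 2 * B.relIndex 𝐂(Z) * 𝐂(Z).index := by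
  rw [← h.card_B, card_mul_relIndex h.sym.le2, card_mul_index]

omit [Finite G] [Finite V] in
theorem Fix_eq {z : G} (hz : z ∈ Z) (h1 : z ≠ 1) : Fix V z = ⊥ :=
  eq_bot_iff.mpr fun v hv => (h.sr z hz v hv).resolve_left h1

omit [Finite G] in
theorem half {g x : G} (hz : ⁅x, g⁆ ∈ Z) (h1 : ⁅x, g⁆ ≠ 1) :
    Nat.card (Fix V g) ^ 2 ≤ Nat.card V := by
  simpa [h.Fix_eq hz h1] using Fix_sq_le (V := V) g x

theorem exists_comm {b : G} (hb : b ∈ B) (hz : b ∉ Z) : ∃ x ∈ B, ⁅x, b⁆ ∈ Z ∧ ⁅x, b⁆ ≠ 1 := by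
  by_contra! hc
  exact hz (h.sym.zc ⟨hb, fun x hx => commutatorElement_eq_one_iff_mul_comm.mp
    (hc x hx (h.sym.comm (commutator_mem_commutator hx hb)))⟩)

theorem half_B {b : G} (hb : b ∈ B) (h1 : b ≠ 1) : Nat.card (Fix V b) ^ 2 ≤ Nat.card V := by
  by_cases hz : b ∈ Z
  · rw [h.Fix_eq hz h1, AddSubgroup.card_bot, one_pow]
    exact Nat.card_pos
  · obtain ⟨x, -, h2, h3⟩ := h.exists_comm hb hz
    exact h.half h2 h3

theorem exists_comm' {g : G} (hg : g ∈ 𝐂(Z)) (hb : g ∉ B) : ∃ x ∈ B, ⁅x, g⁆ ∈ B ∧ ⁅x, g⁆ ∉ Z := by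
  by_contra! hc
  refine hb (h.sym.faith g hg fun x hx => ?_)
  rw [← commutatorElement_inv]
  refine Z.inv_mem (hc x hx ?_)
  have := B.mul_mem hx (h.sym.nA.conj_mem _ (B.inv_mem hx) g)
  simpa [commutatorElement_def, mul_assoc] using this

theorem three_four {g : G} (hg : g ∈ 𝐂(Z)) (h1 : g ≠ 1) :
    Nat.card (Fix V g) ^ 4 ≤ Nat.card V ^ 3 := by
  have h0 : 0 < Nat.card V := Nat.card_pos
  by_cases hb : g ∈ B
  · have := Nat.pow_le_pow_left (h.half_B hb h1) 2
    rw [← pow_mul] at this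
    exact this.trans (Nat.pow_le_pow_right h0 (by norm_num))
  · obtain ⟨x, -, h2, h3⟩ := h.exists_comm' hg hb
    have e1 := Nat.pow_le_pow_left (Fix_sq_le (V := V) g x) 2
    have e2 := h.half_B h2 fun e => h3 (e ▸ Z.one_mem)
    rw [← pow_mul, mul_pow] at e1
    exact e1.trans ((Nat.mul_le_mul_left _ e2).trans_eq (pow_succ _ _).symm)

omit [Finite V] in
theorem comm_pow {x b : G} (hx : x ∈ B) (hb : b ∈ B) (n : ℕ) : ⁅x, b ^ n⁆ = ⁅x, b⁆ ^ n := by
  have hz := h.sym.cen (h.sym.le2 hb) _ (h.sym.comm (commutator_mem_commutator hx hb))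
  have e1 : ∀ y : G, ⁅x, y⁆ = x * y * x⁻¹ * y⁻¹ := fun _ => rfl
  have e2 : x * b * x⁻¹ = ⁅x, b⁆ * b := by rw [e1]; group
  rw [e1 (b ^ n), ← conj_pow, e2, (show Commute ⁅x, b⁆ b from hz).mul_pow, mul_inv_cancel_right]

theorem prime_dvd {r : ℕ} (hr : r.Prime) (he : r ∣ e) : r ∣ ♯Z := by
  haveI := Fact.mk hr
  haveI := h.sym.nU
  obtain ⟨_, ⟨b, hb, rfl⟩, ho⟩ := Core.exists_mem_orderOf_eq_of_dvd_card (p := r)
    (H := B.map (QuotientGroup.mk' Z)) (by
      rw [SLG.card_map_mk, h.sq]; exact he.trans (dvd_pow_self e two_ne_zero))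
  have h1 : b ∉ Z := fun hz => hr.one_lt.ne' (by
    rw [← ho, orderOf_eq_one_iff]; exact (QuotientGroup.eq_one_iff b).mpr hz)
  have h2 : b ^ r ∈ Z := by
    rw [← QuotientGroup.eq_one_iff, ← QuotientGroup.mk'_apply, map_pow, ← ho, pow_orderOf_eq_one]
  obtain ⟨x, hx, h3, h4⟩ := h.exists_comm hb h1
  have h5 : ⁅x, b⁆ ^ r = 1 := by
    rw [← h.comm_pow hx hb, commutatorElement_eq_one_iff_mul_comm]
    exact (h.sym.cen (h.sym.le2 hx) _ h2).symm
  rw [← orderOf_eq_prime h5 h4]
  exact Subgroup.orderOf_dvd_natCard Z h3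

theorem prime_lt {r : ℕ} (hr : r.Prime) (he : r ∣ e) : r ∣ k - 1 ∧ r < k :=
  ⟨(h.prime_dvd hr he).trans h.dvd,
    (Nat.le_of_dvd (card_pos' Z) (h.prime_dvd hr he)).trans_lt h.card_lt⟩

/-- The symplectic section as a module. -/
theorem exists_mod : ∃ (U : Type u) (_ : AddCommGroup U) (_ : Finite U) (_ : DistribMulAction G U),
    CR G U ∧ Nat.card U = e ^ 2 ∧ kerA G U ⊓ 𝐂(Z) = B ∧
      ∀ W : AddSubgroup U, Inv G W → IsSquare (Nat.card W) := by
  haveI := h.sym.nU
  haveI := h.sym.nA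
  let π := QuotientGroup.mk' Z
  have hs : Function.Surjective π := QuotientGroup.mk'_surjective Z
  haveI : (B.map π).Normal := h.sym.nA.map π hs
  haveI := h.sym.ab
  letI : CommGroup (B.map π) := { mul_comm := mul_comm' }
  letI := addAct ((MulAut.conjNormal (H := B.map π)).comp π)
  have sm : ∀ (g : G) (v : Additive (B.map π)),
      (((g • v).toMul : B.map π) : G ⧸ Z) = π g * v.toMul * (π g)⁻¹ := fun g v => rfl
  have nm : ∀ W : AddSubgroup (Additive (B.map π)), Inv G W →
      ((AddSubgroup.toSubgroup' W).map (B.map π).subtype).Normal := fun W hW => ⟨by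
    rintro _ ⟨n, hn, rfl⟩ g
    obtain ⟨g, rfl⟩ := hs g
    exact ⟨(g • Additive.ofMul n).toMul, hW g _ hn, rfl⟩⟩
  refine ⟨Additive (B.map π), inferInstance, inferInstance, inferInstance, fun W hW => ?_,
    (SLG.card_map_mk B).trans h.sq, ?_, fun W hW => ?_⟩
  · obtain ⟨D, hD, h1, h2, h3⟩ := h.sym.cr _ (nm W hW) (map_subtype_le _)
    refine ⟨Subgroup.toAddSubgroup (D.subgroupOf (B.map π)), fun g w hw => hD.conj_mem _ hw _,
      disjoint_iff.mpr (eq_bot_iff.mpr fun w hw => ?_),
      codisjoint_iff.mpr (eq_top_iff.mpr fun w _ => ?_)⟩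
    · have : ((w.toMul : B.map π) : G ⧸ Z) ∈ (⊥ : Subgroup (G ⧸ Z)) := by
        rw [← h2]; exact ⟨⟨w.toMul, hw.1, rfl⟩, hw.2⟩
      exact Additive.toMul.injective (Subtype.ext this)
    · have := h3 w.toMul.2
      rw [← SetLike.mem_coe, mul_normal] at this
      obtain ⟨_, ⟨a, ha, rfl⟩, b, hb, e⟩ := this
      rw [show w = Additive.ofMul a + Additive.ofMul ⟨b, h1 hb⟩ from
        Additive.toMul.injective (Subtype.ext e.symm)]
      exact AddSubgroup.add_mem_sup ha hb
  · ext g
    rw [mem_inf, mem_kerA]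
    constructor
    · rintro ⟨h1, h2⟩
      refine h.sym.faith g h2 fun a ha => SLG.mk_comm_iff.mp (mem_cent1.mpr ?_)
      have := congrArg (fun v => ((Additive.toMul v : B.map π) : G ⧸ Z))
        (h1 (Additive.ofMul ⟨π a, mem_map_of_mem π ha⟩))
      exact mul_inv_eq_iff_eq_mul.mp this
    · refine fun hg => ⟨fun v => Additive.toMul.injective (Subtype.ext ?_), h.sym.le2 hg⟩
      rw [sm, ab_iff.mp h.sym.ab _ (mem_map_of_mem π hg) _ v.toMul.2, mul_inv_cancel_right]
  · set D := ((AddSubgroup.toSubgroup' W).map (B.map π).subtype).comap π with hD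
    have h1 : Z ≤ D := fun z hz => by
      rw [hD, mem_comap, show π z = 1 from (QuotientGroup.eq_one_iff z).mpr hz]
      exact one_mem _
    have h2 : D ≤ B := by
      refine (comap_mono (map_subtype_le _)).trans ?_
      rw [comap_map_eq, QuotientGroup.ker_mk', sup_eq_left.2 h.sym.le1]
    have hn : D.Normal := (nm W hW).comap π
    obtain ⟨L, l1, ⟨l2, l3⟩, l4⟩ := Core.exists_maximal_ge
      (P := fun L : Subgroup G => L ≤ D ∧ Ab L) (H := Z) ⟨h1, ab_of_isCyclic h.sym.cyc⟩
    have e1 : D ⊓ 𝐂(L) = L := by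
      refine le_antisymm (fun x hx => ?_) (le_inf l2 (Ab.le_cent l3))
      exact (l4 (L ⊔ zpowers x) ⟨sup_le l2 (zpowers_le.2 hx.1), ab_sup l3 inferInstance
        (le_cent_symm (zpowers_le.2 hx.2))⟩ le_sup_left).le (mem_sup_right (mem_zpowers x))
    have hC := h2.trans h.sym.le2
    have e2 : 𝐂(D) ⊓ L = Z := le_antisymm
      ((le_inf (inf_le_right.trans l2) inf_le_left).trans (h.sym.toHyp.zc hn hC))
      (le_inf (le_cent_symm (hC.trans h.sym.cen)) l1)
    have e3 := h.sym.toHyp.symm hC (l2.trans hC)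
      ((commutator_mono h2 (l2.trans h2)).trans h.sym.comm)
    rw [← inf_relIndex_right, inf_comm, e1, ← inf_relIndex_right 𝐂(D), e2] at e3
    refine ⟨Z.relIndex L, ?_⟩
    have e4 := relIndex_mul_relIndex _ _ _ l1 l2
    rw [e3] at e4
    rw [e4, ← SLG.card_map_mk, hD,
      map_comap_eq_self_of_surjective hs, card_map_of_injective (B.map π).subtype_injective]
    rfl

end Str

end Cfsg.Agent.SPG
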