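import Cfsg.Agent.Lib.SPG.Str

/-!
# Derived lengths of small solvable linear groups and permutation groups
-/

set_option autoImplicit false

namespace Cfsg.Agent.SPG

open Subgroup Cfsg.Agent.OO Cfsg.Agent.Mod
open scoped commutatorElement

universe u v

section
variable {G : Type u} {V : Type v} [Group G] [AddCommGroup V] [DistribMulAction G V]

/-- The action on an invariant subgroup. -/
@[reducible] def subAct {W : AddSubgroup V} (h : Inv G W) : DistribMulAction G W where
  smul g w := ⟨g • (w : V), h g w w.2⟩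
  one_smul w := Subtype.ext (one_smul G (w : V))
  mul_smul a b w := Subtype.ext (mul_smul a b (w : V))
  smul_zero a := Subtype.ext (smul_zero a)
  smul_add a x y := Subtype.ext (smul_add a (x : V) y)

theorem inv_map {W : Type*} [AddCommGroup W] [DistribMulAction G W] {ι : W →+ V}
    (e : ∀ (g : G) w, ι (g • w) = g • ι w) {U : AddSubgroup W} (h : Inv G U) : Inv G (U.map ι) := by
  rintro g _ ⟨u, hu, rfl⟩
  exact ⟨g • u, h g u hu, e g u⟩

theorem CR.of_inj (h : CR G V) {W : Type*} [AddCommGroup W] [DistribMulAction G W] {ι : W →+ V}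
    (hi : Function.Injective ι) (e : ∀ (g : G) w, ι (g • w) = g • ι w) : CR G W := by
  intro U hU
  obtain ⟨U', h1, h2⟩ := h _ (inv_map e hU)
  refine ⟨U'.comap ι, fun g w hw => ?_, disjoint_iff.mpr (eq_bot_iff.mpr fun w hw => ?_),
    codisjoint_iff.mpr (eq_top_iff.mpr fun w _ => ?_)⟩
  · rw [AddSubgroup.mem_comap, e]
    exact h1 g _ hw
  · have : ι w ∈ U.map ι ⊓ U' := ⟨⟨w, hw.1, rfl⟩, hw.2⟩
    rw [h2.inf_eq_bot] at this
    exact hi (this.trans (map_zero ι).symm)
  · have : ι w ∈ U.map ι ⊔ U' := by rw [h2.sup_eq_top]; trivial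
    obtain ⟨_, ⟨a, ha, rfl⟩, b, hb, e'⟩ := AddSubgroup.mem_sup.mp this
    refine AddSubgroup.mem_sup.mpr ⟨a, ha, w - a, ?_, by simp⟩
    rw [AddSubgroup.mem_comap, map_sub, ← e']
    simpa using hb

theorem CR.split [Finite V] (h : CR G V) (hn : ¬ Irr G V) :
    ∃ (W W' : Type v) (_ : AddCommGroup W) (_ : AddCommGroup W') (_ : Finite W) (_ : Finite W')
      (_ : DistribMulAction G W) (_ : DistribMulAction G W') (ι : W →+ V) (ι' : W' →+ V),
      Function.Injective ι ∧ Function.Injective ι' ∧ (∀ (g : G) w, ι (g • w) = g • ι w) ∧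
      (∀ (g : G) w, ι' (g • w) = g • ι' w) ∧ 2 ≤ Nat.card W ∧ 2 ≤ Nat.card W' ∧
      Nat.card V = Nat.card W * Nat.card W' ∧ kerA G W ⊓ kerA G W' ≤ kerA G V ∧
      ∀ (w : W) (w' : W'), MulAction.stabilizer G (ι w + ι' w') ≤
        MulAction.stabilizer G w ⊓ MulAction.stabilizer G w' := by
  simp only [Irr, not_forall, not_or] at hn
  obtain ⟨W, hW, h0, h1⟩ := hn
  obtain ⟨W', hW', hc⟩ := h W hW
  letI := subAct hW
  letI := subAct hW'
  refine ⟨W, W', inferInstance, inferInstance, inferInstance, inferInstance, inferInstance,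
    inferInstance, W.subtype, W'.subtype, W.subtype_injective, W'.subtype_injective,
    fun _ _ => rfl, fun _ _ => rfl, (AddSubgroup.one_lt_card_iff_ne_bot W).mpr h0,
    (AddSubgroup.one_lt_card_iff_ne_bot W').mpr fun e => h1 ?_, ?_, fun g hg => ?_,
    fun w w' g hg => ?_⟩
  · rw [← hc.sup_eq_top, e, sup_bot_eq]
  · rw [← Nat.card_prod]
    exact (Nat.card_congr (Submodule.prodEquivOfIsCompl W.toIntSubmodule W'.toIntSubmodule
      (AddSubgroup.toIntSubmodule.isCompl hc)).toEquiv).symm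
  · rw [mem_kerA]
    intro v
    have : v ∈ W ⊔ W' := by rw [hc.sup_eq_top]; trivial
    obtain ⟨a, ha, b, hb, rfl⟩ := AddSubgroup.mem_sup.mp this
    rw [smul_add, show g • a = a from congrArg Subtype.val (mem_kerA.mp hg.1 ⟨a, ha⟩),
      show g • b = b from congrArg Subtype.val (mem_kerA.mp hg.2 ⟨b, hb⟩)]
  · have e : g • (w : V) + g • (w' : V) = w + w' := (smul_add g _ _).symm.trans hg
    have e1 : g • (w : V) - w = w' - g • (w' : V) := by
      rw [sub_eq_sub_iff_add_eq_add, e, add_comm]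
    have : g • (w : V) - w ∈ W ⊓ W' :=
      ⟨W.sub_mem (hW g _ w.2) w.2, e1 ▸ W'.sub_mem w'.2 (hW' g _ w'.2)⟩
    rw [hc.inf_eq_bot, AddSubgroup.mem_bot] at this
    exact ⟨Subtype.ext (sub_eq_zero.mp this), Subtype.ext (sub_eq_zero.mp (e1 ▸ this)).symm⟩

section
variable {H : Type*} [Group H] [DistribMulAction H V] {f : G →* H}
  (e : ∀ (g : G) (v : V), f g • v = g • v)
include e

theorem kerA_comap : (kerA H V).comap f = kerA G V := by
  ext g
  simp only [mem_comap, mem_kerA, e]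

theorem Irr.push (hi : Irr G V) : Irr H V := fun W hW => hi W fun g w hw => e g w ▸ hW _ w hw

theorem QP.push (hs : Function.Surjective f) (h : QP G V) : QP H V := by
  intro A hA hc x hx
  refine h (A.comap f) (hA.comap f) (fun a ha b hb v => ?_) x (Subring.closure_mono ?_ hx)
  · simpa only [e] using hc _ ha _ hb v
  · rintro _ ⟨a, ha, rfl⟩
    obtain ⟨a, rfl⟩ := hs a
    exact ⟨a, ha, AddMonoidHom.ext fun v => (e a v).symm⟩

theorem dser_pull {D : Subgroup G} {D' : Subgroup H} (hD : D ≤ D'.comap f) {n : ℕ}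
    (h : dser D' n ≤ kerA H V) : dser D n ≤ kerA G V := by
  rw [← kerA_comap e, ← map_le_iff_le_comap, map_dser]
  exact (dser_mono (map_le_iff_le_comap.mpr hD) n).trans h

theorem stab_le (v : V) : MulAction.stabilizer G v ≤ (MulAction.stabilizer H v).comap f :=
  fun g hg => (e g v).trans hg
end

theorem kerA_eq_bot [FaithfulSMul G V] : kerA G V = ⊥ :=
  eq_bot_iff.mpr fun g hg => eq_of_smul_eq_smul (α := V) fun v => by
    rw [mem_kerA.mp hg, one_smul]

theorem dser_prime (hp : (Nat.card V).Prime) : dser ⊤ 1 ≤ kerA G V := by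
  haveI := Fact.mk hp
  obtain ⟨v, hv⟩ := (isAddCyclic_of_prime_card (α := V) rfl).exists_generator
  have k : ∀ g : G, ∃ n : ℤ, ∀ w : V, g • w = n • w := fun g => by
    obtain ⟨n, hn⟩ := hv (g • v)
    refine ⟨n, fun w => ?_⟩
    obtain ⟨m, rfl⟩ := hv w
    simp only at hn ⊢
    rw [smul_comm g, ← hn, smul_comm]
  refine commutator_le.mpr fun a _ b _ => mem_kerA.mpr fun w => ?_
  obtain ⟨m, hm⟩ := k a
  obtain ⟨n, hn⟩ := k b
  have : ∀ u : V, (a * b) • u = (b * a) • u := fun u => by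
    rw [mul_smul, mul_smul, hm, hn, hm, hn, smul_comm]
  rw [commutatorElement_def, mul_assoc, ← mul_inv_rev, mul_smul, this, smul_inv_smul]

theorem ker_two (hp : Nat.card V ≤ 2) [Finite V] : ⊤ ≤ kerA G V := by
  intro g _
  rw [mem_kerA]
  intro v
  by_cases hv : v = 0
  · simp [hv]
  haveI : Nontrivial V := ⟨⟨v, 0, hv⟩⟩
  have := Finite.one_lt_card (α := V)
  obtain ⟨w, -, hu⟩ := (Nat.card_eq_two_iff' (0 : V)).mp (by omega)
  exact (hu _ fun e => hv ((smul_eq_zero_iff_eq g).mp e)).trans (hu v hv).symm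

theorem Str.dser_le_B [Finite G] [Finite V] {Z B : Subgroup G} {k d e : ℕ} (h : Str V Z B k d e)
    {U : Type*} [MulAction G U] (hU : kerA G U ⊓ 𝐂(Z) = B) {n : ℕ} (h1 : 1 ≤ n)
    (hn : dser ⊤ n ≤ kerA G U) : dser ⊤ n ≤ B :=
  hU ▸ le_inf hn ((dser_anti _ h1).trans h.der)

theorem Str.dser_B [Finite G] [Finite V] {Z B : Subgroup G} {k d e : ℕ} (h : Str V Z B k d e) :
    dser B 2 = ⊥ :=
  eq_bot_iff.mpr ((commutator_mono h.sym.comm h.sym.comm).trans
    (commutator_eq_bot_iff.mpr (Ab.le_cent (ab_of_isCyclic h.sym.cyc))).le)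

theorem Str.B_eq [Finite G] [Finite V] {Z B : Subgroup G} {k d : ℕ} (h : Str V Z B k d 1) :
    𝐂(Z) ≤ Z := h.sym.eq_of_le (relIndex_eq_one.mp (by rw [h.sq, one_pow]))

theorem Str.dser_two [Finite G] [Finite V] {Z B : Subgroup G} {k d : ℕ} (h : Str V Z B k d 1) :
    dser (⊤ : Subgroup G) 2 = ⊥ :=
  eq_bot_iff.mpr ((commutator_mono (h.der.trans h.B_eq) (h.der.trans h.B_eq)).trans
    (commutator_eq_bot_iff.mpr (Ab.le_cent (ab_of_isCyclic h.sym.cyc))).le)

end

/-- The table of derived lengths of linear groups. -/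
def tb (n : ℕ) : ℕ :=
  if n ≤ 2 then 0 else if n = 3 then 1 else if n < 9 then 2 else if n = 16 then 3
  else if n < 64 then 4 else if n < 4096 then 6 else 7

/-- The table of derived lengths of permutation groups. -/
def pb (t : ℕ) : ℕ := if t ≤ 1 then 0 else if t = 2 then 1 else if t = 3 then 2 else 3

def TL (n : ℕ) : Prop := ∀ (G V : Type u) [Group G] [Finite G] [Group.IsSolvable G]
  [AddCommGroup V] [Finite V] [DistribMulAction G V], CR G V → Nat.card V = n →
    dser ⊤ (tb n) ≤ kerA G V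

theorem pb_mul : ∀ m ≤ 7, ∀ s ≤ 7, 1 < m → s ≠ 0 → m * s ≤ 7 → pb s + (tb m + 1) ≤ pb (m * s) := by
  decide

theorem perm_tab (t : ℕ) (h7 : t ≤ 7) (h : ∀ m ≤ t, TL.{u} m) : ∀ (G : Type u) [Group G] [Finite G]
    [Group.IsSolvable G] (L : Subgroup G), L.index = t → dser ⊤ (pb t) ≤ L.normalCore := by
  induction t using Nat.strong_induction_on with
  | _ t ih =>
  intro G _ _ _ L hL
  by_cases h1 : L = ⊤
  · rw [h1]
    exact fun g _ => mem_normalCore.mpr fun _ => trivial
  obtain ⟨M, h2, h3⟩ := exists_coatom h1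
  obtain ⟨V, _, _, _, _, τ, r, -, -, ha, hi⟩ := exists_aff h3
  have e1 := relIndex_mul_index h2.le
  have e2 := index_lt_of_lt h2
  rw [relIndex, ha.index_eq, hL] at e1
  have e3 := Finite.one_lt_card (α := V)
  have e4 : M.index ≠ 0 := index_ne_zero_of_finite
  have e5 : Nat.card V ≤ t := Nat.le_of_dvd (by omega) ⟨_, e1.symm⟩
  refine (dser_anti _ ?_).trans (dser_core_le
    (ih _ (by omega) (by omega) (fun m hm => h m (by omega)) G M rfl)
    (ha.dser_le (h _ e5 M V hi.cr rfl)))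
  rw [← e1]
  exact pb_mul _ (by omega) _ (by omega) e3 e4 (by omega)

theorem tb_mul {a b : ℕ} (ha : 2 ≤ a) (hb : 2 ≤ b) : tb a ≤ tb (a * b) := by
  have : 2 * a ≤ a * b := by nlinarith
  unfold tb
  split_ifs <;> omega

theorem tb_pow {w t : ℕ} (hw : 3 ≤ w) (ht : 2 ≤ t) (h : w ^ t < 6561) :
    t ≤ 7 ∧ t < w ^ t ∧ pb t + tb w ≤ tb (w ^ t) := by
  have h7 : t ≤ 7 := by
    by_contra hc
    have := (Nat.pow_le_pow_right (by norm_num : 0 < 3) (by omega : 8 ≤ t)).trans
      (Nat.pow_le_pow_left hw t)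
    omega
  have : w ≤ 80 := by
    by_contra hc
    have := (Nat.pow_le_pow_left (by omega : 81 ≤ w) 2).trans (Nat.pow_le_pow_right (by omega) ht)
    omega
  refine ⟨h7, Nat.lt_pow_self (by omega), ?_⟩
  revert h
  interval_cases t <;> revert w <;> decide

theorem tb_prim {k d e : ℕ} (he : 2 ≤ e) (hd : e ≤ d) (h : k ^ d < 6561)
    (hp : ∀ r : ℕ, r.Prime → r ∣ e → r ∣ k - 1 ∧ r < k) :
    e ^ 2 < k ^ d ∧ 1 ≤ tb (e ^ 2) ∧ tb (e ^ 2) + 2 ≤ tb (k ^ d) := by
  have h3 : 3 ≤ k := by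
    have := (hp _ (Nat.minFac_prime (by omega)) (Nat.minFac_dvd e)).2
    have := (Nat.minFac_prime (by omega : e ≠ 1)).two_le
    omega
  have h1 : k ^ e ≤ k ^ d := Nat.pow_le_pow_right (by omega) hd
  have h2 : ∀ c, c ≤ k → c ^ e ≤ k ^ d := fun c hc => (Nat.pow_le_pow_left hc e).trans h1
  have h7 : e ≤ 7 := by
    by_contra hc
    have := (Nat.pow_le_pow_right (by norm_num : 0 < 3) (by omega : 8 ≤ e)).trans (h2 3 h3)
    omega
  have h4 := h2 3 h3
  interval_cases e
  · have ho : Odd (k ^ d) := Odd.pow (by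
      have := (hp 2 Nat.prime_two dvd_rfl).1
      rw [Nat.odd_iff]
      omega)
    rw [Nat.odd_iff] at ho
    unfold tb
    split_ifs <;> omega
  · have := h2 4 (hp 3 Nat.prime_three dvd_rfl).2
    unfold tb
    split_ifs <;> omega
  · unfold tb
    split_ifs <;> omega
  · have := h2 6 (hp 5 Nat.prime_five dvd_rfl).2
    omega
  · have := (hp 2 Nat.prime_two (by norm_num)).1
    have := (hp 3 Nat.prime_three (by norm_num)).1
    have := h2 7 (by omega)
    omega
  · have := h2 8 (hp 7 (by norm_num) dvd_rfl).2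
    omega

theorem lin_tab (n : ℕ) (hn : n < 6561) : TL.{u} n := by
  induction n using Nat.strong_induction_on with
  | _ n ih =>
  intro G V _ _ _ _ _ _ hc hV
  by_cases h2 : n ≤ 2
  · exact (dser_le _ _).trans (ker_two (hV ▸ h2))
  by_cases h3 : n = 3
  · subst h3
    exact dser_prime (hV ▸ Nat.prime_three)
  by_cases hi : Irr G V
  swap
  · obtain ⟨W, W', _, _, _, _, _, _, ι, ι', i1, i2, e1, e2, c1, c2, c3, hk, -⟩ := hc.split hi
    rw [hV] at c3
    have l1 : Nat.card W < n := by nlinarith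
    have l2 : Nat.card W' < n := by nlinarith
    refine (le_inf ((dser_anti _ ?_).trans (ih _ l1 (by omega) G W (hc.of_inj i1 e1) rfl))
      ((dser_anti _ ?_).trans (ih _ l2 (by omega) G W' (hc.of_inj i2 e2) rfl))).trans hk
    · exact c3 ▸ tb_mul c1 c2
    · exact c3 ▸ mul_comm (Nat.card W') _ ▸ tb_mul c2 c1
  haveI : Nontrivial V := Finite.one_lt_card_iff_nontrivial.mp (by omega)
  obtain ⟨M, W, _, _, _, _, ι, π, hb, hW, hq⟩ := exists_blk hi
  have c1 := hb.card_eq hi
  rw [hV] at c1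
  by_cases hM : M.index = 1
  · have : dser ⊤ (tb n) ≤ kerA M W := by
      obtain ⟨H, _, _, _, _, f, hf, e⟩ := exists_faithful (G := M) (V := W)
      haveI := Group.isSolvable_of_surjective hf
      obtain ⟨Z, B, k, d, ε, h⟩ := exists_str (hq.push e hf)
      refine dser_pull (D' := ⊤) e le_top ?_
      rw [hM, pow_one, h.card] at c1
      by_cases h1 : ε = 1
      · subst h1
        refine (dser_anti _ (?_ : 2 ≤ _)).trans (h.dser_two ▸ bot_le)
        unfold tb
        split_ifs <;> omega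
      obtain ⟨U, _, _, _, u1, u2, u3, -⟩ := h.exists_mod
      obtain ⟨t1, t2, t3⟩ := tb_prim (by have := h.pos; omega) h.le (c1 ▸ hn)
        fun r hr he => h.prime_lt hr he
      have := h.dser_le_B u3 t2 (ih _ (c1 ▸ t1) (by omega) H U u1 u2)
      refine (dser_anti _ (c1 ▸ t3)).trans ?_
      rw [dser_add]
      exact (dser_mono this 2).trans (h.dser_B ▸ bot_le)
    have := hb.dser_le hi (a := 0) (fun g _ => mem_normalCore.mpr fun x => by
      rw [index_eq_one.mp hM]; trivial) this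
    rwa [zero_add] at this
  · have h0 : M.index ≠ 0 := index_ne_zero_of_finite
    have h4 := hb.three_le hi hM
    obtain ⟨t1, t2, t3⟩ := tb_pow h4 (by omega) (c1 ▸ hn)
    have l1 : Nat.card W < n := by
      rw [c1]
      exact (pow_one _).symm.trans_lt (Nat.pow_lt_pow_right (by omega) (by omega))
    exact (dser_anti _ (c1 ▸ t3)).trans (hb.dser_le hi
      (perm_tab _ t1 (fun m hm => ih m (by omega) (by omega)) G M rfl)
      (ih _ l1 (by omega) M W hW.cr rfl))

end Cfsg.Agent.SPG
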